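import Mathlib
import Cfsg.Agent.S0215
import Cfsg.Agent.TwoFusion.QuatQuotient

/-!
# Glauberman's Z*-theorem for 2-elements

If `O(Y) = 1` and `d` and all its powers are conjugate in the Sylow 2-subgroup `B ∋ d` only to themselves, then
`d` is central.
-/

set_option autoImplicit false

namespace Cfsg.Agent.H304.ZStar

open Subgroup

universe u

theorem two_elem_aux (n : ℕ) : ∀ (Y : Type u) [Group Y] [Finite Y] (_ : Cfsg.oddCore Y = ⊥) (B : Sylow 2 Y) (d : Y)
    (_ : d ∈ (B : Subgroup Y)) (_ : orderOf d = 2 ^ n)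
    (_ : ∀ (k : ℕ) (g : Y), g * d ^ k * g⁻¹ ∈ (B : Subgroup Y) → g * d ^ k * g⁻¹ = d ^ k), d ∈ center Y := by
  induction n with
  | zero =>
    intro Y _ _ _ B d _ ho _
    rw [pow_zero, orderOf_eq_one_iff] at ho
    rw [ho]; exact one_mem _
  | succ n ih =>
    intro Y _ _ hO B d hdB ho hiso
    have : Fact (Nat.Prime 2) := ⟨Nat.prime_two⟩
    set i := d ^ 2 ^ n with hi
    have hio : orderOf i = 2 := by
      rw [hi, orderOf_pow' d (pow_ne_zero n (by norm_num)), ho, Nat.gcd_eq_right (pow_dvd_pow 2 (Nat.le_succ n)),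
        pow_succ, Nat.mul_div_cancel_left _ (by positivity)]
    have hiB : i ∈ (B : Subgroup Y) := (B : Subgroup Y).pow_mem hdB _
    obtain ⟨N, hN, hNo, hNi⟩ := Cfsg.Agent.S0215.result B i hio hiB (hiso (2 ^ n))
    have hN1 : N = ⊥ := by
      rw [eq_bot_iff, ← hO]
      exact le_sSup ⟨hN, Nat.Coprime.symm (Nat.coprime_two_left.mpr hNo)⟩
    have hic : i ∈ center Y := by
      rw [mem_center_iff]
      intro g
      have h1 := hNi g
      rw [hN1, mem_bot] at h1
      have h2 : i * g = g * i := by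
        have h3 := congrArg (fun w => w * g * i) h1
        simpa [mul_assoc] using h3
      exact h2.symm
    have hn : (zpowers i).Normal := by
      refine ⟨fun x hx g => ?_⟩
      have hxc : x ∈ center Y := (zpowers_le.mpr hic) hx
      have : g * x * g⁻¹ = x := by
        rw [mem_center_iff.mp hxc g, mul_assoc, mul_inv_cancel, mul_one]
      rwa [this]
    have hO' := Cfsg.Agent.TwoFusion.QuatQuotient.oddCore_quotient_eq_bot hO i hic hio
    have hzB : zpowers i ≤ (B : Subgroup Y) := by rw [zpowers_le]; exact hiB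
    let B' : Sylow 2 (Y ⧸ zpowers i) := B.mapSurjective (QuotientGroup.mk'_surjective (zpowers i))
    have hmem : ∀ y : Y, (QuotientGroup.mk y : Y ⧸ zpowers i) ∈ (B' : Subgroup (Y ⧸ zpowers i)) →
        y ∈ (B : Subgroup Y) := by
      rintro y ⟨b, hb, hby⟩
      have h1 : (QuotientGroup.mk b : Y ⧸ zpowers i) = QuotientGroup.mk y := hby
      rw [QuotientGroup.eq] at h1
      have h2 : b * (b⁻¹ * y) ∈ (B : Subgroup Y) := mul_mem hb (hzB h1)
      simpa using h2
    have hd' : (QuotientGroup.mk d : Y ⧸ zpowers i) ∈ center (Y ⧸ zpowers i) := by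
      refine ih (Y ⧸ zpowers i) hO' B' (QuotientGroup.mk d) ⟨d, hdB, rfl⟩ ?_ ?_
      · -- order of the image
        have h1 : (QuotientGroup.mk d : Y ⧸ zpowers i) ^ 2 ^ n = 1 := by
          rw [← QuotientGroup.mk_pow, QuotientGroup.eq_one_iff]
          exact mem_zpowers _
        obtain ⟨m, hm, hm'⟩ := (Nat.dvd_prime_pow Nat.prime_two).mp (orderOf_dvd_of_pow_eq_one h1)
        rw [hm']
        congr 1
        by_contra hne
        have hlt : m < n := lt_of_le_of_ne hm hne
        have h2 : (QuotientGroup.mk d : Y ⧸ zpowers i) ^ 2 ^ m = 1 := by rw [← hm', pow_orderOf_eq_one]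
        rw [← QuotientGroup.mk_pow, QuotientGroup.eq_one_iff] at h2
        have h3 : (d ^ 2 ^ m) ^ 2 = 1 := by
          obtain ⟨k, hk⟩ := mem_zpowers_iff.mp h2
          rw [← hk, ← zpow_natCast, ← zpow_mul, mul_comm, zpow_mul, zpow_natCast, ← hio,
            pow_orderOf_eq_one, one_zpow]
        rw [← pow_mul, ← pow_succ] at h3
        have h4 := orderOf_dvd_of_pow_eq_one h3
        rw [ho] at h4
        have h5 := (Nat.pow_dvd_pow_iff_le_right (by norm_num : 1 < 2)).mp h4
        omega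
      · intro k g'
        obtain ⟨g, rfl⟩ := QuotientGroup.mk_surjective g'
        intro hg
        have h1 : (QuotientGroup.mk (g * d ^ k * g⁻¹) : Y ⧸ zpowers i) ∈ (B' : Subgroup (Y ⧸ zpowers i)) := by
          simpa using hg
        have h2 := hiso k g (hmem _ h1)
        have h3 := congrArg (QuotientGroup.mk : Y → Y ⧸ zpowers i) h2
        simpa using h3
    rw [mem_center_iff]
    intro g
    have h1 := mem_center_iff.mp hd' (QuotientGroup.mk g)
    rw [← QuotientGroup.mk_mul, ← QuotientGroup.mk_mul] at h1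
    have h2 : (QuotientGroup.mk (g * d ^ 1 * g⁻¹) : Y ⧸ zpowers i) = QuotientGroup.mk d := by
      rw [pow_one, QuotientGroup.mk_mul, h1, ← QuotientGroup.mk_mul, mul_assoc, mul_inv_cancel, mul_one]
    have h3 : g * d ^ 1 * g⁻¹ ∈ (B : Subgroup Y) := hmem _ (by rw [h2]; exact ⟨d, hdB, rfl⟩)
    have h4 := hiso 1 g h3
    rw [pow_one] at h4
    rw [mul_inv_eq_iff_eq_mul] at h4
    exact h4

/-- **Z*-theorem for 2-elements.** -/
theorem two_elem {Y : Type u} [Group Y] [Finite Y] (hO : Cfsg.oddCore Y = ⊥) (B : Sylow 2 Y) {d : Y}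
    (hdB : d ∈ (B : Subgroup Y))
    (hiso : ∀ (k : ℕ) (g : Y), g * d ^ k * g⁻¹ ∈ (B : Subgroup Y) → g * d ^ k * g⁻¹ = d ^ k) : d ∈ center Y := by
  have : Fact (Nat.Prime 2) := ⟨Nat.prime_two⟩
  obtain ⟨n, hn⟩ := (IsPGroup.iff_orderOf.mp B.isPGroup') ⟨d, hdB⟩
  rw [Subgroup.orderOf_mk] at hn
  exact two_elem_aux n Y hO B d hdB hn hiso

end Cfsg.Agent.H304.ZStar
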