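import Mathlib
import Cfsg.Agent.S0090
import Cfsg.Agent.H304.ZStar
import Cfsg.Agent.H304.CIHered
import Cfsg.Agent.Transfer.FrobeniusFusion
import Cfsg.Agent.Lib.Cores

/-!
# Sylow 2-subgroups meeting a normal subgroup centrally
-/

set_option autoImplicit false

namespace Cfsg.Agent.H304.LemB

open Subgroup Cfsg.Agent.H304.CIBasic
open scoped commutatorElement

/-- If the Sylow 2-subgroup `B` of `Y` is abelian, `O(Y) = 1` and `Y' ≤ L`, then `B = (B ∩ L)(B ∩ Z(Y))`. -/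
theorem decomp_of_comm {Y : Type*} [Group Y] [Finite Y] (hO : Cfsg.oddCore Y = ⊥) (B : Sylow 2 Y)
    (hB : IsMulCommutative ↥(B : Subgroup Y)) {L : Subgroup Y} (hL : commutator Y ≤ L) {s : Y}
    (hs : s ∈ (B : Subgroup Y)) :
    ∃ c ∈ (B : Subgroup Y) ⊓ L, ∃ z ∈ (B : Subgroup Y) ⊓ center Y, s = c * z := by
  classical
  have : Fact (Nat.Prime 2) := ⟨Nat.prime_two⟩
  set N : Subgroup Y := normalizer ((B : Subgroup Y) : Set Y) with hN
  have hBN : (B : Subgroup Y) ≤ N := le_normalizer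
  set A : Subgroup ↥N := (B : Subgroup Y).subgroupOf N with hA
  have hAn : A.Normal := by rw [hA, hN]; exact Subgroup.normal_in_normalizer
  have hAc : IsMulCommutative ↥A := by
    refine ⟨⟨fun a b => Subtype.ext (Subtype.ext ?_)⟩⟩
    have h := congrArg Subtype.val (hB.is_comm.comm ⟨(a : ↥N), a.2⟩ ⟨(b : ↥N), b.2⟩)
    exact h
  have hHall : Nat.Coprime (Nat.card ↥A) A.index := by
    exact (B.subtype hBN).card_coprime_index
  obtain ⟨-, -, h3⟩ := Cfsg.Agent.S0090.result A hAc hHall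
  have hsA : (⟨s, hBN hs⟩ : ↥N) ∈ (commutator ↥N ⊓ A) ⊔ (center ↥N ⊓ A) := by
    rw [h3]; exact hs
  rw [mem_sup_of_normal_right] at hsA
  obtain ⟨c, hc, z, hz, hcz⟩ := hsA
  have hzB : (z : Y) ∈ (B : Subgroup Y) := hz.2
  refine ⟨c, ⟨hc.2, ?_⟩, z, ⟨hzB, ?_⟩, (congrArg Subtype.val hcz).symm⟩
  · apply hL
    have h4 : (c : Y) ∈ (commutator ↥N).map N.subtype := ⟨c, hc.1, rfl⟩
    rw [_root_.commutator_def, map_commutator] at h4
    exact commutator_mono le_top le_top h4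
  · refine ZStar.two_elem hO B hzB ?_
    intro k g hg
    have hzk : (z : Y) ^ k ∈ (B : Subgroup Y) := pow_mem hzB k
    obtain ⟨n, hn, hn'⟩ := B.conj_eq_normalizer_conj_of_mem ((z : Y) ^ k) g⁻¹ hzk (by rw [inv_inv]; exact hg)
    rw [inv_inv] at hn'
    rw [hn']
    have h5 := mem_center_iff.mp hz.1 ⟨n, hn⟩
    have h6 : n * (z : Y) = z * n := congrArg Subtype.val h5
    have h7 : Commute n ((z : Y) ^ k) := Commute.pow_right h6 k
    rw [mul_assoc, ← h7.eq, ← mul_assoc, inv_mul_cancel, one_mul]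

/-- `O(Y) = 1` if `O(L) = 1` and `Y/L` is a 2-group. -/
theorem oddCore_eq_bot_of {Y : Type*} [Group Y] [Finite Y] (L : Subgroup Y) [hL : L.Normal]
    (h1 : Cfsg.oddCore ↥L = ⊥) (h2 : IsPGroup 2 (Y ⧸ L)) : Cfsg.oddCore Y = ⊥ := by
  have hOL : Cfsg.oddCore Y ≤ L := by
    intro x hx
    rw [← QuotientGroup.eq_one_iff]
    obtain ⟨k, hk⟩ := h2 (QuotientGroup.mk x)
    have h3 : Nat.Coprime (orderOf x) 2 := by
      refine Nat.Coprime.coprime_dvd_left ?_ (Cfsg.Agent.Lib.Cores.pPrimeCore_coprime (G := Y) 2)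
      rw [← Subgroup.orderOf_mk x hx]
      exact orderOf_dvd_natCard _
    have h4 : orderOf (QuotientGroup.mk x : Y ⧸ L) ∣ orderOf x := orderOf_map_dvd (QuotientGroup.mk' L) x
    have h5 : orderOf (QuotientGroup.mk x : Y ⧸ L) ∣ 2 ^ k := orderOf_dvd_of_pow_eq_one hk
    have h6 : Nat.Coprime (orderOf x) (2 ^ k) := Nat.Coprime.pow_right k h3
    exact orderOf_eq_one_iff.mp (Nat.dvd_one.mp (h6.gcd_eq_one ▸ Nat.dvd_gcd h4 h5))
  have h3 := Cfsg.Agent.Lib.Cores.map_subtype_pPrimeCore 2 hL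
  have h4 : Cfsg.pPrimeCore 2 ↥L = ⊥ := h1
  rw [h4, Subgroup.map_bot, inf_eq_right.mpr hOL] at h3
  exact h3.symm

theorem oddCore_congr {Y Z : Type*} [Group Y] [Group Z] (e : Y ≃* Z) (h : Cfsg.oddCore Y = ⊥) :
    Cfsg.oddCore Z = ⊥ := by
  have h1 := Cfsg.Agent.Lib.Cores.map_equiv_pPrimeCore e 2
  have h2 : Cfsg.pPrimeCore 2 Y = ⊥ := h
  rw [h2, Subgroup.map_bot] at h1
  exact h1.symm

/-- `S ∩ L⟨s⟩` is a Sylow subgroup of `L⟨s⟩` for `s ∈ S`. -/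
theorem exists_sylow_sup {X : Type*} [Group X] [Finite X] {p : ℕ} [Fact p.Prime] (S : Sylow p X) (L : Subgroup X)
    [hL : L.Normal] {D : Subgroup X} (hD : D ≤ (S : Subgroup X)) :
    ∃ B : Sylow p ↥(L ⊔ D), (B : Subgroup ↥(L ⊔ D)) = (S : Subgroup X).subgroupOf (L ⊔ D) := by
  have hP : IsPGroup p ↥((S : Subgroup X).subgroupOf (L ⊔ D)) := S.isPGroup'.comap_subtype
  obtain ⟨B, hB⟩ := hP.exists_le_sylow
  refine ⟨B, le_antisymm ?_ hB⟩
  -- `B ∩ L = S ∩ L`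
  obtain ⟨Q, hQ⟩ := Cfsg.Agent.Transfer.FrobeniusFusion.exists_sylow_subgroupOf S L
  set B' : Subgroup X := (B : Subgroup ↥(L ⊔ D)).map (L ⊔ D).subtype with hB'
  have hB'p : IsPGroup p ↥B' := B.isPGroup'.map _
  have hSB' : (S : Subgroup X) ⊓ (L ⊔ D) ≤ B' := by
    intro x hx
    exact ⟨⟨x, hx.2⟩, hB (by rw [mem_subgroupOf]; exact hx.1), rfl⟩
  have hBL : B' ⊓ L ≤ (S : Subgroup X) := by
    have h1 : (Q : Subgroup ↥L) ≤ B'.subgroupOf L := by
      intro x hx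
      rw [hQ] at hx
      exact hSB' ⟨hx, mem_sup_left x.2⟩
    have h2 := Q.is_maximal' (hB'p.comap_subtype) h1
    intro x hx
    have h3 : (⟨x, hx.2⟩ : ↥L) ∈ (Q : Subgroup ↥L) := by
      rw [← h2]; exact hx.1
    rw [hQ] at h3
    exact h3
  intro b hb
  rw [mem_subgroupOf]
  have hbB' : (b : X) ∈ B' := ⟨b, hb, rfl⟩
  obtain ⟨l, hl, d, hd, hld⟩ := mem_sup_of_normal_left.mp b.2
  have hdB : d ∈ B' := hSB' ⟨hD hd, mem_sup_right hd⟩
  have hl' : l = (b : X) * d⁻¹ := by rw [← hld]; group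
  have h4 : l ∈ (S : Subgroup X) := hBL ⟨by rw [hl']; exact B'.mul_mem hbB' (B'.inv_mem hdB), hl⟩
  rw [← hld]
  exact mul_mem h4 (hD hd)

/-- **Lemma B**: `S ∩ L ≤ Z(S)` implies `S = (S ∩ L) C_S(L)`. -/
theorem decomp {X : Type*} [Group X] [Finite X] (S : Sylow 2 X) {L : Subgroup X} [hL : L.Normal]
    (hO : Cfsg.oddCore ↥L = ⊥) (hT : (S : Subgroup X) ⊓ L ≤ ctr (S : Subgroup X)) {s : X}
    (hs : s ∈ (S : Subgroup X)) :
    ∃ c ∈ (S : Subgroup X) ⊓ L, ∃ z ∈ (S : Subgroup X) ⊓ centralizer (L : Set X), s = c * z := by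
  have : Fact (Nat.Prime 2) := ⟨Nat.prime_two⟩
  have hD : zpowers s ≤ (S : Subgroup X) := by rw [zpowers_le]; exact hs
  set Y := L ⊔ zpowers s with hY
  obtain ⟨B, hB⟩ : ∃ B : Sylow 2 ↥Y, (B : Subgroup ↥Y) = (S : Subgroup X).subgroupOf Y := exists_sylow_sup S L hD
  have hBm : ∀ y : ↥Y, y ∈ (B : Subgroup ↥Y) ↔ (y : X) ∈ (S : Subgroup X) := fun y => by
    rw [hB, mem_subgroupOf]
  have hLY : L ≤ Y := le_sup_left
  have hsY : s ∈ Y := mem_sup_right (mem_zpowers s)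
  -- elements of `S ∩ Y`
  have hform : ∀ y ∈ (S : Subgroup X) ⊓ Y, ∃ l ∈ (S : Subgroup X) ⊓ L, ∃ k : ℤ, y = l * s ^ k := by
    intro y hy
    obtain ⟨l, hl, d, hd, hld⟩ := mem_sup_of_normal_left.mp hy.2
    obtain ⟨k, hk⟩ := mem_zpowers_iff.mp hd
    refine ⟨l, ⟨?_, hl⟩, k, by rw [hk]; exact hld.symm⟩
    have : l = y * d⁻¹ := by rw [← hld]; group
    rw [this]
    exact (S : Subgroup X).mul_mem hy.1 ((S : Subgroup X).inv_mem (hD hd))
  have hcomm : ∀ y ∈ (S : Subgroup X) ⊓ Y, ∀ y' ∈ (S : Subgroup X) ⊓ Y, y * y' = y' * y := by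
    intro y hy y' hy'
    obtain ⟨l, hl, k, rfl⟩ := hform y hy
    obtain ⟨l', hl', k', rfl⟩ := hform y' hy'
    have h1 : ∀ u ∈ (S : Subgroup X), Commute u l := (mem_ctr.mp (hT hl)).2
    have h2 : ∀ u ∈ (S : Subgroup X), Commute u l' := (mem_ctr.mp (hT hl')).2
    have hk : ∀ k : ℤ, s ^ k ∈ (S : Subgroup X) := fun k => zpow_mem hs k
    have h3 : Commute (s ^ k) (s ^ k') := Commute.zpow_zpow_self s k k'
    have h4 : Commute l (l' * s ^ k') := ((h1 _ (mul_mem hl'.1 (hk k')))).symm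
    have h5 : Commute (s ^ k) (l' * s ^ k') := (h2 _ (hk k)).mul_right h3
    exact h4.mul_left h5
  have hBc : IsMulCommutative ↥(B : Subgroup ↥Y) := by
    refine ⟨⟨fun a b => Subtype.ext (Subtype.ext ?_)⟩⟩
    have ha : ((a : ↥Y) : X) ∈ (S : Subgroup X) := (hBm _).mp a.2
    have hb : ((b : ↥Y) : X) ∈ (S : Subgroup X) := (hBm _).mp b.2
    exact hcomm _ ⟨ha, (a : ↥Y).2⟩ _ ⟨hb, (b : ↥Y).2⟩
  -- the quotient by `L`
  have hL' : (L.subgroupOf Y).Normal := inferInstance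
  have hOY : Cfsg.oddCore ↥Y = ⊥ := by
    refine oddCore_eq_bot_of (L.subgroupOf Y) (oddCore_congr (subgroupOfEquivOfLe hLY).symm hO) ?_
    intro y
    obtain ⟨y, rfl⟩ := QuotientGroup.mk_surjective y
    obtain ⟨l, hl, d, hd, hld⟩ := mem_sup_of_normal_left.mp y.2
    obtain ⟨n, hn⟩ := S.isPGroup' ⟨d, hD hd⟩
    refine ⟨n, ?_⟩
    have h1 : (QuotientGroup.mk y : ↥Y ⧸ L.subgroupOf Y) =
        QuotientGroup.mk (⟨d, mem_sup_right hd⟩ : ↥Y) := by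
      rw [QuotientGroup.eq, mem_subgroupOf]
      show (y : X)⁻¹ * d ∈ L
      rw [← hld]
      have := hL.conj_mem l⁻¹ (inv_mem hl) d⁻¹
      simpa [mul_assoc] using this
    rw [h1, ← QuotientGroup.mk_pow, QuotientGroup.eq_one_iff, mem_subgroupOf]
    have h2 : d ^ 2 ^ n = 1 := congrArg Subtype.val hn
    show d ^ 2 ^ n ∈ L
    rw [h2]; exact one_mem L
  have hcL : commutator ↥Y ≤ L.subgroupOf Y := by
    rw [_root_.commutator_def, commutator_le]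
    intro a _ b _
    obtain ⟨l, hl, d, hd, hld⟩ := mem_sup_of_normal_left.mp a.2
    obtain ⟨l', hl', d', hd', hld'⟩ := mem_sup_of_normal_left.mp b.2
    rw [mem_subgroupOf]
    show ⁅(a : X), (b : X)⁆ ∈ L
    rw [← QuotientGroup.eq_one_iff, ← hld, ← hld']
    have e1 : ((l : X) : X ⧸ L) = 1 := (QuotientGroup.eq_one_iff l).mpr hl
    have e2 : ((l' : X) : X ⧸ L) = 1 := (QuotientGroup.eq_one_iff l').mpr hl'
    obtain ⟨k, rfl⟩ := mem_zpowers_iff.mp hd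
    obtain ⟨k', rfl⟩ := mem_zpowers_iff.mp hd'
    have h3 : (QuotientGroup.mk' L) ⁅l * s ^ k, l' * s ^ k'⁆ = 1 := by
      rw [map_commutatorElement, map_mul, map_mul]
      show ⁅((l : X) : X ⧸ L) * _, ((l' : X) : X ⧸ L) * _⁆ = 1
      rw [e1, e2, one_mul, one_mul, ← map_commutatorElement]
      have : ⁅s ^ k, s ^ k'⁆ = 1 := by
        rw [commutatorElement_eq_one_iff_commute]
        exact Commute.zpow_zpow_self s k k'
      rw [this, map_one]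
    exact h3
  obtain ⟨c, hc, z, hz, hcz⟩ := decomp_of_comm hOY B hBc hcL (s := ⟨s, hsY⟩)
    ((hBm _).mpr hs)
  have hcS : (c : X) ∈ (S : Subgroup X) := (hBm _).mp hc.1
  have hzS : (z : X) ∈ (S : Subgroup X) := (hBm _).mp hz.1
  refine ⟨c, ⟨hcS, hc.2⟩, z, ⟨hzS, mem_centralizer_iff.mpr ?_⟩, congrArg Subtype.val hcz⟩
  intro l hl
  exact congrArg Subtype.val (mem_center_iff.mp hz.2 ⟨l, hLY hl⟩)

end Cfsg.Agent.H304.LemB
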