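import Mathlib
import Cfsg.Agent.S0022
import Cfsg.Agent.S0205
import Cfsg.Agent.S1169
import Cfsg.Agent.StrongEmb.Strong
import Cfsg.Agent.Walter.Main
import Cfsg.Agent.Walter.StepAll
import Cfsg.Agent.Walter.PairsRot
import Cfsg.Agent.Lib.SylowNormalInf
import Cfsg.Agent.GTwoFour.Tools
import Cfsg.Agent.SectRankFour.AutSz8
import Cfsg.Agent.H304.LemB

/-!
# Central Sylow intersections: a Sylow 2-subgroup lies in a simple normal subgroup with trivial centraliser
-/

set_option autoImplicit false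

namespace Cfsg.Agent.H304.ThmD

open Subgroup Cfsg.Agent.H304.CIBasic
open scoped commutatorElement

/-- A nonabelian simple group has even order. -/
theorem not_odd {L : Type*} [Group L] [Finite L] [IsSimpleGroup L] (hna : ¬ IsMulCommutative L) :
    ¬ Odd (Nat.card L) := by
  intro ho
  have hs := Cfsg.Agent.S0205.result ho
  apply hna
  exact ⟨⟨fun a b => IsSimpleGroup.comm_iff_isSolvable.mpr hs a b⟩⟩

theorem oddCore_simple {L : Type*} [Group L] [Finite L] [IsSimpleGroup L] (hna : ¬ IsMulCommutative L) :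
    Cfsg.oddCore L = ⊥ := by
  rcases IsSimpleGroup.eq_bot_or_eq_top_of_normal (Cfsg.oddCore L) inferInstance with h | h
  · exact h
  · exfalso
    have h1 := Cfsg.Agent.Lib.Cores.pPrimeCore_coprime (G := L) 2
    have h2 : Cfsg.pPrimeCore 2 L = ⊤ := h
    rw [h2, card_top] at h1
    exact not_odd hna (Nat.coprime_two_right.mp h1)

section
variable {X : Type*} [Group X] [Finite X]

/-- A 2-element normalising a Sylow subgroup lies in it. -/
theorem mem_of_mem_normalizer (S : Sylow 2 X) {t : X} (ht : t ∈ normalizer ((S : Subgroup X) : Set X)) {n : ℕ}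
    (hn : t ^ 2 ^ n = 1) : t ∈ (S : Subgroup X) := by
  have : Fact (Nat.Prime 2) := ⟨Nat.prime_two⟩
  have hp : IsPGroup 2 ↥(zpowers t) := by
    rintro ⟨x, hx⟩
    obtain ⟨k, rfl⟩ := mem_zpowers_iff.mp hx
    refine ⟨n, Subtype.ext ?_⟩
    show (t ^ k) ^ 2 ^ n = 1
    rw [← zpow_natCast, ← zpow_mul, mul_comm, zpow_mul, zpow_natCast, hn, one_zpow]
  obtain ⟨g, hg, hgt⟩ := exists_conj_le S (C := normalizer ((S : Subgroup X) : Set X)) le_normalizer hp
    (by rw [zpowers_le]; exact ht)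
  have h1 : g * t * g⁻¹ ∈ (S : Subgroup X) := hgt t (mem_zpowers t)
  exact (mem_normalizer_iff.mp hg t).mpr h1

omit [Finite X] in
/-- A 2-element which agrees modulo `L` with an element of odd order. -/
theorem mem_of_odd {L : Subgroup X} [hL : L.Normal] {s c : X} {n m : ℕ} (hs : s ^ 2 ^ n = 1) (hm : Odd m)
    (hc : c ^ m = 1) (h : s * c⁻¹ ∈ L) : s ∈ L := by
  rw [← QuotientGroup.eq_one_iff] at h ⊢
  have h1 : (s : X ⧸ L) = c := by
    rw [QuotientGroup.mk_mul, QuotientGroup.mk_inv, mul_inv_eq_one] at h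
    exact h
  have h2 : (s : X ⧸ L) ^ 2 ^ n = 1 := by rw [← QuotientGroup.mk_pow, hs, QuotientGroup.mk_one]
  have h3 : (s : X ⧸ L) ^ m = 1 := by rw [h1, ← QuotientGroup.mk_pow, hc, QuotientGroup.mk_one]
  have h4 : Nat.Coprime (2 ^ n) m := Nat.Coprime.pow_left n (Nat.coprime_two_left.mpr hm)
  have h5 := Nat.dvd_gcd (orderOf_dvd_of_pow_eq_one h2) (orderOf_dvd_of_pow_eq_one h3)
  rw [h4.gcd_eq_one] at h5
  exact orderOf_eq_one_iff.mp (Nat.dvd_one.mp h5)

/-- Central elements of `S` centralised by `N_L(S ∩ L)` centralise `L`. -/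
theorem central_of_fixed (h : CI 2 X) (S : Sylow 2 X) {L : Subgroup X} [hL : L.Normal]
    (hO : Cfsg.oddCore ↥L = ⊥) {c : X} (hc : c ∈ ctr (S : Subgroup X))
    (hcN : ∀ l ∈ L, l ∈ normalizer (((S : Subgroup X) ⊓ L : Subgroup X) : Set X) → l * c = c * l) :
    c ∈ centralizer (L : Set X) := by
  have : Fact (Nat.Prime 2) := ⟨Nat.prime_two⟩
  have hcS : c ∈ (S : Subgroup X) := (mem_ctr.mp hc).1
  have hcc : ∀ s ∈ (S : Subgroup X), s * c = c * s := (mem_ctr.mp hc).2
  have hD : zpowers c ≤ (S : Subgroup X) := by rw [zpowers_le]; exact hcS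
  set Y := L ⊔ zpowers c with hY
  obtain ⟨B, hB⟩ : ∃ B : Sylow 2 ↥Y, (B : Subgroup ↥Y) = (S : Subgroup X).subgroupOf Y :=
    LemB.exists_sylow_sup S L hD
  have hBm : ∀ y : ↥Y, y ∈ (B : Subgroup ↥Y) ↔ (y : X) ∈ (S : Subgroup X) := fun y => by
    rw [hB, mem_subgroupOf]
  have hLY : L ≤ Y := le_sup_left
  have hcY : c ∈ Y := mem_sup_right (mem_zpowers c)
  have hOY : Cfsg.oddCore ↥Y = ⊥ := by
    refine LemB.oddCore_eq_bot_of (L.subgroupOf Y) (LemB.oddCore_congr (subgroupOfEquivOfLe hLY).symm hO) ?_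
    intro y
    obtain ⟨y, rfl⟩ := QuotientGroup.mk_surjective y
    obtain ⟨l, hl, d, hd, hld⟩ := mem_sup_of_normal_left.mp y.2
    obtain ⟨n, hn⟩ := S.isPGroup' ⟨d, hD hd⟩
    refine ⟨n, ?_⟩
    have h1 : (QuotientGroup.mk y : ↥Y ⧸ L.subgroupOf Y) =
        QuotientGroup.mk (⟨d, mem_sup_right hd⟩ : ↥Y) := by
      rw [QuotientGroup.eq, mem_subgroupOf]
      show (y : X)⁻¹ * d ∈ L
      rw [← hld]
      have := hL.conj_mem l⁻¹ (inv_mem hl) d⁻¹
      simpa [mul_assoc] using this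
    rw [h1, ← QuotientGroup.mk_pow, QuotientGroup.eq_one_iff, mem_subgroupOf]
    have h2 : d ^ 2 ^ n = 1 := congrArg Subtype.val hn
    show d ^ 2 ^ n ∈ L
    rw [h2]; exact one_mem L
  have hz : (⟨c, hcY⟩ : ↥Y) ∈ center ↥Y := by
    refine ZStar.two_elem hOY B ((hBm _).mpr hcS) ?_
    intro k g hg
    have hck : c ^ k ∈ ctr (S : Subgroup X) := (ctr (S : Subgroup X)).pow_mem hc k
    have hg' : (g : X) * c ^ k * (g : X)⁻¹ ∈ (S : Subgroup X) := (hBm _).mp hg
    have hgc : (g : X) * c ^ k * (g : X)⁻¹ ∈ ctr (S : Subgroup X) :=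
      (h.isStronglyClosed S).2 _ hck _ hg'
    have h1 : (⟨c, hcY⟩ : ↥Y) ^ k ∈ centralizer ((B : Subgroup ↥Y) : Set ↥Y) := by
      rw [mem_centralizer_iff]
      intro b hb
      exact Subtype.ext ((mem_ctr.mp hck).2 _ ((hBm b).mp hb))
    have h2 : g * (⟨c, hcY⟩ : ↥Y) ^ k * g⁻¹ ∈ centralizer ((B : Subgroup ↥Y) : Set ↥Y) := by
      rw [mem_centralizer_iff]
      intro b hb
      exact Subtype.ext ((mem_ctr.mp hgc).2 _ ((hBm b).mp hb))
    obtain ⟨n, hn, hn'⟩ := B.conj_eq_normalizer_conj_of_mem_centralizer ((⟨c, hcY⟩ : ↥Y) ^ k) g⁻¹ h1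
      (by rw [inv_inv]; exact h2)
    rw [inv_inv] at hn'
    rw [hn']
    -- `n` commutes with `c`
    obtain ⟨l, hl, d, hd, hld⟩ := mem_sup_of_normal_left.mp n.2
    have hdc : d * c = c * d := hcc d (hD hd)
    have hlN : l ∈ normalizer (((S : Subgroup X) ⊓ L : Subgroup X) : Set X) := by
      have hnN : (n : X) ∈ normalizer (((S : Subgroup X) ⊓ L : Subgroup X) : Set X) := by
        rw [mem_normalizer_iff]
        intro x
        constructor
        · rintro ⟨hxS, hxL⟩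
          have h3 := (mem_normalizer_iff.mp hn ⟨x, hLY hxL⟩).mp ((hBm _).mpr hxS)
          exact ⟨(hBm _).mp h3, hL.conj_mem x hxL _⟩
        · rintro ⟨hxS, hxL⟩
          have hxL' : x ∈ L := by
            have := hL.conj_mem _ hxL (n : X)⁻¹
            simpa [mul_assoc] using this
          have h3 := (mem_normalizer_iff.mp hn ⟨x, hLY hxL'⟩).mpr ((hBm _).mpr hxS)
          exact ⟨(hBm _).mp h3, hxL'⟩
      have hdN : d ∈ normalizer (((S : Subgroup X) ⊓ L : Subgroup X) : Set X) := by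
        rw [mem_normalizer_iff]
        intro x
        have hdS := hD hd
        constructor
        · rintro ⟨hxS, hxL⟩
          exact ⟨(S : Subgroup X).mul_mem ((S : Subgroup X).mul_mem hdS hxS) ((S : Subgroup X).inv_mem hdS),
            hL.conj_mem x hxL _⟩
        · rintro ⟨hxS, hxL⟩
          have h4 : d⁻¹ * (d * x * d⁻¹) * d ∈ (S : Subgroup X) :=
            mul_mem (mul_mem (inv_mem hdS) hxS) hdS
          have h5 : d⁻¹ * (d * x * d⁻¹) * d ∈ L := by
            have := hL.conj_mem _ hxL d⁻¹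
            simpa using this
          have h6 : d⁻¹ * (d * x * d⁻¹) * d = x := by group
          rw [h6] at h4 h5
          exact ⟨h4, h5⟩
      have : l = (n : X) * d⁻¹ := by rw [← hld]; group
      rw [this]
      exact Subgroup.mul_mem _ hnN (Subgroup.inv_mem _ hdN)
    have hlc : l * c = c * l := hcN l hl hlN
    have hnc : Commute (n : X) c := by
      rw [← hld]
      exact Commute.mul_left hlc hdc
    have hnk : Commute (n : X) (c ^ k) := hnc.pow_right k
    apply Subtype.ext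
    show (n : X)⁻¹ * c ^ k * n = c ^ k
    rw [mul_assoc, ← hnk.eq, ← mul_assoc, inv_mul_cancel, one_mul]
  rw [mem_centralizer_iff]
  intro l hl
  exact congrArg Subtype.val (mem_center_iff.mp hz ⟨l, hLY hl⟩)

omit [Finite X] in
theorem conj_mem_ctr_of_normalizer {S : Subgroup X} {g x : X} (hg : g ∈ normalizer (S : Set X)) (hx : x ∈ ctr S) :
    g * x * g⁻¹ ∈ ctr S := by
  rw [mem_ctr] at hx ⊢
  refine ⟨(mem_normalizer_iff.mp hg x).mp hx.1, fun s hs => ?_⟩
  have h1 : g⁻¹ * s * g ∈ S := by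
    have := (mem_normalizer_iff.mp (inv_mem hg) s).mp hs
    simpa using this
  have h2 := hx.2 _ h1
  calc s * (g * x * g⁻¹) = g * (g⁻¹ * s * g * x) * g⁻¹ := by group
    _ = g * (x * (g⁻¹ * s * g)) * g⁻¹ := by rw [h2]
    _ = g * x * g⁻¹ * s := by group

/-- In a strongly embedded subgroup of a simple group, the Sylow 2-subgroup is the normal regular subgroup. -/
theorem sylow_eq {L : Type*} [Group L] [Finite L] {H Q : Subgroup L} (hH : Cfsg.IsStronglyEmbedded H)
    (hQ : Cfsg.Agent.StrongEmb.Split.IsSplit H Q) (hQ2 : IsPGroup 2 ↥Q) (P : Sylow 2 L) (hPH : (P : Subgroup L) ≤ H) :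
    (P : Subgroup L) = Q := by
  have : Fact (Nat.Prime 2) := ⟨Nat.prime_two⟩
  have hle : Q ≤ (P : Subgroup L) := by
    have hn : (Q.subgroupOf H).Normal := hQ.normal
    have h1 : Q.subgroupOf H ≤ ((P.subtype hPH : Sylow 2 ↥H) : Subgroup ↥H) :=
      (Cfsg.Agent.Lib.Cores.le_pCore hn hQ2.comap_subtype).trans (Cfsg.Agent.Lib.Cores.pCore_le_sylow _)
    intro x hx
    exact h1 (show (⟨x, hQ.le hx⟩ : ↥H) ∈ Q.subgroupOf H from hx)
  obtain ⟨g, -, hg⟩ := SetLike.exists_of_lt (lt_top_iff_ne_top.mpr hH.1)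
  have hex : ∀ t : ↥(P : Subgroup L), ∃ u : ↥Q, ((t : L) * g)⁻¹ * ((u : L) * g) ∈ H := by
    intro t
    obtain ⟨u, hu, hu'⟩ := hQ.trans g ((t : L) * g) hg (fun h => hg (by
      have := mul_mem (inv_mem (hPH t.2)) h
      simpa using this))
    exact ⟨⟨u, hu⟩, hu'⟩
  choose φ hφ using hex
  have hinj : Function.Injective φ := by
    intro t t' htt
    have h1 := hφ t
    have h2 := hφ t'
    rw [← htt] at h2
    have h3 : g⁻¹ * ((t : L)⁻¹ * t') * g ∈ H := by
      have := mul_mem h1 (inv_mem h2)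
      have e : ((t : L) * g)⁻¹ * ((φ t : L) * g) * (((t' : L) * g)⁻¹ * ((φ t : L) * g))⁻¹ =
          g⁻¹ * ((t : L)⁻¹ * t') * g := by group
      rwa [e] at this
    have h4 : (t : L)⁻¹ * t' ∈ H ⊓ H.map (MulAut.conj g).toMonoidHom := by
      refine ⟨H.mul_mem (H.inv_mem (hPH t.2)) (hPH t'.2), _, h3, ?_⟩
      show g * (g⁻¹ * ((t : L)⁻¹ * t') * g) * g⁻¹ = _
      group
    have hodd := hH.2.2 g hg
    have h5 : (t : L)⁻¹ * t' ∈ (P : Subgroup L) := mul_mem (inv_mem t.2) t'.2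
    obtain ⟨k, hk⟩ := P.isPGroup' ⟨_, h5⟩
    have h6 : ((t : L)⁻¹ * t') ^ 2 ^ k = 1 := congrArg Subtype.val hk
    have h7 : orderOf ((t : L)⁻¹ * t') ∣ Nat.card ↥(H ⊓ H.map (MulAut.conj g).toMonoidHom) := by
      rw [← Subgroup.orderOf_mk _ h4]
      exact orderOf_dvd_natCard _
    have h8 := Nat.dvd_gcd (orderOf_dvd_of_pow_eq_one h6) h7
    rw [Nat.Coprime.gcd_eq_one (Nat.Coprime.pow_left k (Nat.coprime_two_left.mpr hodd))] at h8
    have h9 := orderOf_eq_one_iff.mp (Nat.dvd_one.mp h8)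
    exact Subtype.ext (inv_mul_eq_one.mp h9)
  have hcard : Nat.card ↥(P : Subgroup L) ≤ Nat.card ↥Q := Nat.card_le_card_of_injective φ hinj
  exact (Subgroup.eq_of_le_of_card_ge hle hcard).symm

/-- The strongly embedded case. -/
theorem le_of_stronglyEmbedded (h : CI 2 X) {L : Subgroup X} [hL : L.Normal] [IsSimpleGroup ↥L]
    (hna : ¬ IsMulCommutative ↥L) (hC : centralizer (L : Set X) = ⊥) (S : Sylow 2 X)
    (hT : ¬ (S : Subgroup X) ⊓ L ≤ ctr (S : Subgroup X)) {H : Subgroup ↥L} (hH : Cfsg.IsStronglyEmbedded H)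
    (hSH : (S : Subgroup X).subgroupOf L ≤ H) : (S : Subgroup X) ≤ L := by
  classical
  have : Fact (Nat.Prime 2) := ⟨Nat.prime_two⟩
  have hO : Cfsg.oddCore ↥L = ⊥ := oddCore_simple hna
  have hna' : ∃ a b : ↥L, a * b ≠ b * a := by
    by_contra h
    push Not at h
    exact hna ⟨⟨h⟩⟩
  obtain ⟨TL, hTL⟩ := Cfsg.Agent.Transfer.FrobeniusFusion.exists_sylow_subgroupOf S L
  have hTLH : (TL : Subgroup ↥L) ≤ H := hTL ▸ hSH
  obtain ⟨Q, hQ, hQ2⟩ := Cfsg.Agent.StrongEmb.Strong.exists_isSplit hna' H hH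
  have hTQ : (S : Subgroup X).subgroupOf L = Q := by rw [← hTL]; exact sylow_eq hH hQ hQ2 TL hTLH
  have hQm : ∀ l : ↥L, l ∈ Q ↔ (l : X) ∈ (S : Subgroup X) := fun l => by rw [← hTQ, mem_subgroupOf]
  set T : Subgroup X := (S : Subgroup X) ⊓ L with hTdef
  set B : Subgroup X := normalizer (T : Set X) with hB
  have hBS : B ≤ normalizer ((S : Subgroup X) : Set X) := CIHered.normalizer_le h inf_le_left hT
  have hTne : ∃ t : ↥L, t ∈ Q ∧ t ≠ 1 := by
    obtain ⟨x, hx, hx'⟩ := Set.not_subset.mp hT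
    refine ⟨⟨x, hx.2⟩, (hQm _).mpr hx.1, ?_⟩
    intro h1
    apply hx'
    have h2 : x = 1 := congrArg Subtype.val h1
    rw [h2]
    exact one_mem _
  -- `H = N_L(T)`
  have hHB : ∀ l : ↥L, l ∈ H ↔ (l : X) ∈ B := by
    intro l
    constructor
    · intro hl
      rw [hB, mem_normalizer_iff]
      intro x
      have hn := hQ.normal
      constructor
      · rintro ⟨hxS, hxL⟩
        refine ⟨?_, hL.conj_mem x hxL _⟩
        have h1 : (⟨x, hxL⟩ : ↥L) ∈ Q := (hQm _).mpr hxS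
        have h2 := hn.conj_mem ⟨⟨x, hxL⟩, hQ.le h1⟩ h1 ⟨l, hl⟩
        exact (hQm _).mp h2
      · rintro ⟨hxS, hxL⟩
        have hxL' : x ∈ L := by
          have := hL.conj_mem _ hxL (l : X)⁻¹
          simpa [mul_assoc] using this
        refine ⟨?_, hxL'⟩
        have h1 : (⟨l * x * (l : X)⁻¹, hxL⟩ : ↥L) ∈ Q := (hQm _).mpr hxS
        have h2 := hn.conj_mem ⟨_, hQ.le h1⟩ h1 ⟨l, hl⟩⁻¹
        have h3 := (hQm _).mp h2
        have h4 : (l : X)⁻¹ * (l * x * (l : X)⁻¹) * (l : X)⁻¹⁻¹ ∈ (S : Subgroup X) := h3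
        have h5 : (l : X)⁻¹ * (l * x * (l : X)⁻¹) * (l : X)⁻¹⁻¹ = x := by group
        rwa [h5] at h4
    · intro hl
      by_contra hlH
      obtain ⟨t, ht, ht1⟩ := hTne
      have hodd := hH.2.2 l hlH
      have h1 : t ∈ H ⊓ H.map (MulAut.conj l).toMonoidHom := by
        refine ⟨hQ.le ht, l⁻¹ * t * l, ?_, ?_⟩
        · apply hQ.le
          rw [hQm]
          have h2 := (mem_normalizer_iff.mp (inv_mem hl) (t : X)).mp ⟨(hQm t).mp ht, t.2⟩
          have h3 : (l : X)⁻¹ * t * (l : X)⁻¹⁻¹ ∈ (S : Subgroup X) := h2.1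
          rw [inv_inv] at h3
          exact h3
        · show l * (l⁻¹ * t * l) * l⁻¹ = t
          group
      obtain ⟨k, hk⟩ := hQ2 ⟨t, ht⟩
      have h6 : t ^ 2 ^ k = 1 := congrArg Subtype.val hk
      have h7 : orderOf t ∣ Nat.card ↥(H ⊓ H.map (MulAut.conj l).toMonoidHom) := by
        rw [← Subgroup.orderOf_mk _ h1]
        exact orderOf_dvd_natCard _
      have h8 := Nat.dvd_gcd (orderOf_dvd_of_pow_eq_one h6) h7
      rw [Nat.Coprime.gcd_eq_one (Nat.Coprime.pow_left k (Nat.coprime_two_left.mpr hodd))] at h8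
      exact ht1 (orderOf_eq_one_iff.mp (Nat.dvd_one.mp h8))
  -- no central element of `S` outside `L`
  have hctr : ctr (S : Subgroup X) ≤ L := by
    intro t ht
    by_contra htL
    have htS : t ∈ (S : Subgroup X) := ctr_le _ ht
    -- a complement of `Q` in `H`
    have hQn : (Q.subgroupOf H).Normal := hQ.normal
    have hQSyl : Nat.Coprime (Nat.card ↥(Q.subgroupOf H)) (Q.subgroupOf H).index := by
      have h1 := (TL.subtype hTLH).card_coprime_index
      have h2 : ((TL.subtype hTLH : Sylow 2 ↥H) : Subgroup ↥H) = Q.subgroupOf H := by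
        show (TL : Subgroup ↥L).subgroupOf H = Q.subgroupOf H
        rw [hTL, hTQ]
      rwa [h2] at h1
    obtain ⟨K, hK⟩ := Subgroup.exists_right_complement'_of_coprime hQSyl
    set A : Subgroup X := (K.map H.subtype).map L.subtype with hA
    have hAm : ∀ a ∈ A, ∃ k : ↥H, k ∈ K ∧ ((k : ↥L) : X) = a := by
      rintro _ ⟨_, ⟨k, hk, rfl⟩, rfl⟩
      exact ⟨k, hk, rfl⟩
    have hAL : A ≤ L := by
      intro a ha
      obtain ⟨k, -, rfl⟩ := hAm a ha
      exact (k : ↥L).2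
    have hAN : A ≤ normalizer ((S : Subgroup X) : Set X) := by
      intro a ha
      obtain ⟨k, -, rfl⟩ := hAm a ha
      exact hBS ((hHB _).mp k.2)
    have hAodd : Odd (Nat.card ↥A) := by
      have h1 : Nat.card ↥A = Nat.card ↥K := by
        rw [hA, Subgroup.card_map_of_injective L.subtype_injective,
          Subgroup.card_map_of_injective H.subtype_injective]
      have h2 : Nat.card ↥K = (Q.subgroupOf H).index := by
        exact hK.symm.index_eq_card.symm
      have h3 : ¬ 2 ∣ (Q.subgroupOf H).index := by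
        intro h4
        have h5 : 2 ∣ Nat.card ↥(Q.subgroupOf H) := by
          obtain ⟨t, ht, ht1⟩ := hTne
          obtain ⟨n, hn⟩ : ∃ n, Nat.card ↥(Q.subgroupOf H) = 2 ^ n := IsPGroup.iff_card.mp hQ2.comap_subtype
          rw [hn]
          apply dvd_pow_self
          rintro rfl
          rw [pow_zero] at hn
          have h6 := (Subgroup.eq_bot_of_card_eq _ hn)
          have h7 : (⟨t, hQ.le ht⟩ : ↥H) ∈ Q.subgroupOf H := ht
          rw [h6, mem_bot] at h7
          exact ht1 (congrArg Subtype.val h7)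
        exact Nat.not_coprime_of_dvd_of_dvd (by norm_num) h5 h4 hQSyl
      rw [h1, h2, ← Nat.not_even_iff_odd, even_iff_two_dvd]
      exact h3
    have hZp : IsPGroup 2 ↥(ctr (S : Subgroup X)) := S.isPGroup'.to_le (ctr_le _)
    have hcop : (Nat.card ↥A).Coprime (Nat.card ↥(ctr (S : Subgroup X))) := by
      obtain ⟨n, hn⟩ := IsPGroup.iff_card.mp hZp
      rw [hn]
      exact Nat.Coprime.pow_right n (Nat.coprime_two_right.mpr hAodd)
    have hANZ : A ≤ normalizer ((ctr (S : Subgroup X) : Subgroup X) : Set X) := by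
      intro a ha
      rw [mem_normalizer_iff]
      intro x
      constructor
      · intro hx
        exact conj_mem_ctr_of_normalizer (hAN ha) hx
      · intro hx
        have := conj_mem_ctr_of_normalizer (inv_mem (hAN ha)) hx
        simpa [mul_assoc] using this
    have hsolv : Group.IsSolvable ↥A ∨ Group.IsSolvable ↥(ctr (S : Subgroup X)) := by
      left
      exact Cfsg.Agent.S0205.result hAodd
    obtain ⟨c, hc, hct⟩ := Cfsg.Agent.S0022.result A (ctr (S : Subgroup X)) hANZ hcop hsolv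
      (ctr (S : Subgroup X) ⊓ L) inf_le_left (by
        intro k hk
        have hkS := ctr_le _ hk
        rw [mem_normalizer_iff]
        intro x
        have hcm : ∀ y ∈ ctr (S : Subgroup X), k * y * k⁻¹ = y := fun y hy => by
          rw [(mem_ctr.mp hy).2 k hkS, mul_assoc, mul_inv_cancel, mul_one]
        constructor
        · intro hx
          rw [hcm x hx.1]; exact hx
        · intro hx
          have h1 : k⁻¹ * (k * x * k⁻¹) * k = x := by group
          have h2 : k⁻¹ * (k * x * k⁻¹) * k = k * x * k⁻¹ := by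
            have h3 := (mem_ctr.mp hx.1).2 k⁻¹ (inv_mem hkS)
            rw [h3, mul_assoc, inv_mul_cancel, mul_one]
          rw [h1] at h2
          rw [h2]; exact hx) (by
        intro a ha
        rw [mem_normalizer_iff]
        intro x
        constructor
        · intro hx
          exact ⟨conj_mem_ctr_of_normalizer (hAN ha) hx.1, hL.conj_mem x hx.2 a⟩
        · intro hx
          have h1 := conj_mem_ctr_of_normalizer (inv_mem (hAN ha)) hx.1
          have h2 := hL.conj_mem _ hx.2 a⁻¹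
          have e : a⁻¹ * (a * x * a⁻¹) * a⁻¹⁻¹ = x := by group
          rw [e] at h1 h2
          exact ⟨h1, h2⟩) t ht (by
        intro a ha
        refine ⟨Subgroup.mul_mem _ (conj_mem_ctr_of_normalizer (hAN ha) ht) (Subgroup.inv_mem _ ht), ?_⟩
        have h1 : a * t * a⁻¹ * t⁻¹ = a * (t * a⁻¹ * t⁻¹) := by group
        rw [h1]
        exact mul_mem (hAL ha) (hL.conj_mem _ (inv_mem (hAL ha)) t))
    have hcZ : c ∈ ctr (S : Subgroup X) := hc.1
    have hcL : c ∉ L := by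
      intro hcL
      apply htL
      have h1 : t = c * (t⁻¹ * c)⁻¹ := by group
      rw [h1]
      exact mul_mem hcL (inv_mem hct.2)
    apply hcL
    have h1 : c ∈ centralizer (L : Set X) := by
      refine central_of_fixed h S hO hcZ ?_
      intro l hl hlN
      have hlH : (⟨l, hl⟩ : ↥L) ∈ H := (hHB ⟨l, hl⟩).mpr hlN
      obtain ⟨⟨q, k⟩, hqk⟩ := hK.2 ⟨⟨l, hl⟩, hlH⟩
      have h2 : ((((q : ↥H) : ↥L) : X)) * (((k : ↥H) : ↥L) : X) = l :=
        congrArg (fun z : ↥H => ((z : ↥L) : X)) hqk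
      have h3 : Commute ((((q : ↥H) : ↥L) : X)) c :=
        (mem_ctr.mp hcZ).2 _ ((hQm _).mp q.2)
      have h4 : Commute (((k : ↥H) : ↥L) : X) c := by
        have h5 : (((k : ↥H) : ↥L) : X) ∈ A := ⟨_, ⟨_, k.2, rfl⟩, rfl⟩
        exact mem_centralizer_iff.mp hc.2 _ h5
      rw [← h2]
      exact h3.mul_left h4
    rw [hC, mem_bot] at h1
    rw [h1]
    exact one_mem L
  -- 2-elements of `B ∩ uBu⁻¹`
  obtain ⟨u, -, hu⟩ := SetLike.exists_of_lt (lt_top_iff_ne_top.mpr hH.1)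
  have huB : (u : X) ∉ B := fun h1 => hu ((hHB u).mpr h1)
  have hno : ∀ (t : X) (n : ℕ), t ∈ B → (u : X)⁻¹ * t * u ∈ B → t ^ 2 ^ n = 1 → t = 1 := by
    intro t n htB htu htn
    have htS : t ∈ (S : Subgroup X) := mem_of_mem_normalizer S (hBS htB) htn
    have hpow : ((u : X)⁻¹ * t * u) ^ 2 ^ n = 1 := by
      have := conj_pow (i := 2 ^ n) (a := (u : X)⁻¹) (b := t)
      rw [inv_inv] at this
      rw [this, htn]
      group
    have htS' : (u : X)⁻¹ * t * u ∈ (S : Subgroup X) := mem_of_mem_normalizer S (hBS htu) hpow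
    have hne : S ≠ (u : X) • S := by
      intro h1
      have h2 := Sylow.smul_eq_iff_mem_normalizer.mp h1.symm
      apply huB
      rw [hB, mem_normalizer_iff]
      intro x
      have h3 := mem_normalizer_iff.mp h2 x
      constructor
      · rintro ⟨h4, h5⟩
        exact ⟨h3.mp h4, hL.conj_mem x h5 _⟩
      · rintro ⟨h4, h5⟩
        refine ⟨h3.mpr h4, ?_⟩
        have := hL.conj_mem _ h5 (u : X)⁻¹
        simpa [mul_assoc] using this
    have h1 : t ∈ (((u : X) • S : Sylow 2 X) : Subgroup X) := by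
      refine ⟨_, htS', ?_⟩
      show (u : X) * ((u : X)⁻¹ * t * u) * (u : X)⁻¹ = t
      group
    have htZ : t ∈ ctr (S : Subgroup X) := h.inf_le hne ⟨htS, h1⟩
    have htL : t ∈ L := hctr htZ
    have hodd := hH.2.2 u hu
    have h2 : (⟨t, htL⟩ : ↥L) ∈ H ⊓ H.map (MulAut.conj u).toMonoidHom := by
      refine ⟨(hHB _).mpr htB, u⁻¹ * ⟨t, htL⟩ * u, (hHB _).mpr htu, ?_⟩
      show u * (u⁻¹ * ⟨t, htL⟩ * u) * u⁻¹ = _
      group
    have h6 : (⟨t, htL⟩ : ↥L) ^ 2 ^ n = 1 := Subtype.ext htn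
    have h7 : orderOf (⟨t, htL⟩ : ↥L) ∣ Nat.card ↥(H ⊓ H.map (MulAut.conj u).toMonoidHom) := by
      rw [← Subgroup.orderOf_mk _ h2]
      exact orderOf_dvd_natCard _
    have h8 := Nat.dvd_gcd (orderOf_dvd_of_pow_eq_one h6) h7
    rw [Nat.Coprime.gcd_eq_one (Nat.Coprime.pow_left n (Nat.coprime_two_left.mpr hodd))] at h8
    exact congrArg Subtype.val (orderOf_eq_one_iff.mp (Nat.dvd_one.mp h8))
  -- elements of `B` modulo `L`
  intro s hs
  have hsB : s ∈ B := by
    rw [hB, mem_normalizer_iff]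
    intro x
    constructor
    · rintro ⟨h4, h5⟩
      exact ⟨(S : Subgroup X).mul_mem ((S : Subgroup X).mul_mem hs h4) ((S : Subgroup X).inv_mem hs),
        hL.conj_mem x h5 _⟩
    · rintro ⟨h4, h5⟩
      have h6 : s⁻¹ * (s * x * s⁻¹) * s ∈ (S : Subgroup X) := mul_mem (mul_mem (inv_mem hs) h4) hs
      have h7 := hL.conj_mem _ h5 s⁻¹
      have e : s⁻¹ * (s * x * s⁻¹) * s = x := by group
      rw [inv_inv, e] at h7
      rw [e] at h6
      exact ⟨h6, h7⟩
  -- find `c ∈ B ∩ uBu⁻¹` with `s ∈ L c`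
  have hl' : s * u * s⁻¹ ∈ L := hL.conj_mem _ u.2 s
  have hl'H : (⟨s * u * s⁻¹, hl'⟩ : ↥L) ∉ H := by
    intro h1
    have h2 := (hHB _).mp h1
    apply huB
    have h3 : s⁻¹ * (s * u * s⁻¹) * s ∈ B := mul_mem (mul_mem (inv_mem hsB) h2) hsB
    have e : s⁻¹ * (s * u * s⁻¹) * s = (u : X) := by group
    rwa [e] at h3
  obtain ⟨q, hq, hq'⟩ := hQ.trans ⟨s * u * s⁻¹, hl'⟩ u hl'H hu
  have h1 : (u : X)⁻¹ * ((q : X) * (s * u * s⁻¹)) ∈ B := (hHB _).mp hq'
  have hqS : (q : X) ∈ (S : Subgroup X) := (hQm q).mp hq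
  have hqB : (q : X) ∈ B := (hHB q).mp (hQ.le hq)
  set c : X := q * s with hc
  have hcB : c ∈ B := mul_mem hqB hsB
  have hcu : (u : X)⁻¹ * c * u ∈ B := by
    have h2 := mul_mem h1 hsB
    have e : (u : X)⁻¹ * ((q : X) * (s * u * s⁻¹)) * s = (u : X)⁻¹ * c * u := by rw [hc]; group
    rwa [e] at h2
  -- `c` is a 2-element of `S`
  have hcS : c ∈ (S : Subgroup X) := mul_mem hqS hs
  obtain ⟨n, hn⟩ := S.isPGroup' ⟨c, hcS⟩
  have hc1 : c = 1 := hno c n hcB hcu (congrArg Subtype.val hn)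
  have h3 : s = (q : X)⁻¹ := by
    rw [hc] at hc1
    exact (inv_eq_of_mul_eq_one_right hc1).symm
  rw [h3]
  exact inv_mem q.2

/-- **Theorem D'**: the Sylow 2-subgroups lie in a normal nonabelian simple subgroup with trivial centraliser. -/
theorem sylow_le (h : CI 2 X) {L : Subgroup X} [hL : L.Normal] [IsSimpleGroup ↥L]
    (hna : ¬ IsMulCommutative ↥L) (hC : centralizer (L : Set X) = ⊥) (S : Sylow 2 X) : (S : Subgroup X) ≤ L := by
  classical
  have : Fact (Nat.Prime 2) := ⟨Nat.prime_two⟩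
  have hO : Cfsg.oddCore ↥L = ⊥ := oddCore_simple hna
  suffices hS : ∃ S' : Sylow 2 X, (S' : Subgroup X) ≤ L by
    obtain ⟨S', hS'⟩ := hS
    obtain ⟨g, rfl⟩ := MulAction.exists_smul_eq X S' S
    rintro _ ⟨x, hx, rfl⟩
    exact hL.conj_mem x (hS' hx) g
  by_cases hall : ∀ S' : Sylow 2 X, ¬ (S' : Subgroup X) ⊓ L ≤ ctr (S' : Subgroup X)
  swap
  · push Not at hall
    obtain ⟨S', hS'⟩ := hall
    refine ⟨S', fun s hs => ?_⟩
    obtain ⟨c, hc, z, hz, hcz⟩ := LemB.decomp S' hO hS' hs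
    have hz1 : z ∈ centralizer (L : Set X) := hz.2
    rw [hC, mem_bot] at hz1
    rw [hcz, hz1, mul_one]
    exact hc.2
  obtain ⟨TL, hTL⟩ := Cfsg.Agent.Transfer.FrobeniusFusion.exists_sylow_subgroupOf S L
  have hCIL : CI 2 ↥L := CIHered.subgroup h L
  have hTLne : (TL : Subgroup ↥L) ≠ ⊥ := by
    intro h0
    apply hall S
    intro x hx
    have h1 : (⟨x, hx.2⟩ : ↥L) ∈ (TL : Subgroup ↥L) := by
      rw [hTL]; exact hx.1
    rw [h0, mem_bot] at h1
    have h2 : x = 1 := congrArg Subtype.val h1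
    rw [h2]; exact one_mem _
  rcases Cfsg.Agent.S1169.result TL _ (ctr_ne_bot hTLne) (ctr_comm _) (hCIL.isStronglyClosed TL) with
    hab | ⟨H, hH⟩
  · exfalso
    have hab' := Cfsg.Agent.Walter.Main.comm_of_isMulCommutative hab
    have hW := Cfsg.Agent.Walter.Main.wType_of_step Cfsg.Agent.Walter.StepAll.step ↥L inferInstance hna TL hab'
    have hna' : ∃ a b : ↥L, a * b ≠ b * a := by
      by_contra h
      push Not at h
      exact hna ⟨⟨h⟩⟩
    have hconj := Cfsg.Agent.Walter.PairsRot.exists_normalizer_conj hW hna' TL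
    apply hall S
    -- `T ∩ Z(S) ≠ 1`
    have hTn : (((S : Subgroup X) ⊓ L).subgroupOf (S : Subgroup X)).Normal := by
      refine ⟨fun x hx g => ⟨(S : Subgroup X).mul_mem ((S : Subgroup X).mul_mem g.2 x.2)
        ((S : Subgroup X).inv_mem g.2), hL.conj_mem _ hx.2 _⟩⟩
    have hTne : ((S : Subgroup X) ⊓ L).subgroupOf (S : Subgroup X) ≠ ⊥ := by
      intro h0
      apply hTLne
      rw [eq_bot_iff]
      intro x hx
      rw [hTL] at hx
      have h1 : (⟨x, hx⟩ : ↥(S : Subgroup X)) ∈ ((S : Subgroup X) ⊓ L).subgroupOf (S : Subgroup X) :=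
        ⟨hx, x.2⟩
      rw [h0, mem_bot] at h1
      rw [mem_bot]
      have h2 : (x : X) = 1 := congrArg Subtype.val h1
      exact Subtype.ext h2
    obtain ⟨t, ht, htz, ht1⟩ := Cfsg.Agent.GTwoFour.Tools.exists_mem_center_of_normal S.isPGroup' _ hTne
    intro y hy
    by_cases hy1 : y = 1
    · rw [hy1]; exact one_mem _
    have htc : (t : X) ∈ ctr (S : Subgroup X) := ⟨t, htz, rfl⟩
    obtain ⟨n, hn, hn'⟩ := hconj ⟨t, ht.2⟩ (by rw [hTL]; exact t.2)
      (fun h => by
        have h2 : (t : X) = 1 := congrArg Subtype.val h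
        exact ht1 (Subtype.ext h2)) ⟨y, hy.2⟩ (by rw [hTL]; exact hy.1)
      (fun h => hy1 (congrArg Subtype.val h))
    have h1 : (n : X) * t * (n : X)⁻¹ = y := congrArg Subtype.val hn'
    have h2 := (h.isStronglyClosed S).2 _ htc (n : X) (by rw [h1]; exact hy.1)
    rwa [h1] at h2
  · obtain ⟨P, hP⟩ := Cfsg.Agent.SectRankFour.AutSz8.exists_sylow_le hH
    obtain ⟨S', hS'⟩ := P.exists_comap_subtype_eq
    refine ⟨S', le_of_stronglyEmbedded h hna hC S' (hall S') hH ?_⟩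
    have h1 : (S' : Subgroup X).subgroupOf L = (P : Subgroup ↥L) := hS'
    rw [h1]; exact hP

end

end Cfsg.Agent.H304.ThmD
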