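import Mathlib
import Cfsg.Agent.QTUniq.SylowSup
import Cfsg.Agent.TwoFusion.FStarControl
import Cfsg.Agent.SignalizersComponents.OddFixed
import Cfsg.Agent.SignalizersComponents.BalanceAux
import Cfsg.Agent.H304.ThmD

/-!
# Central Sylow intersections: the components of a group with trivial odd core
-/

set_option autoImplicit false

namespace Cfsg.Agent.H304.Struct

open Subgroup Cfsg.Agent.H304.CIBasic Cfsg.Agent.SignalizersComponents
open scoped commutatorElement

section
variable {X : Type*} [Group X] [Finite X]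

theorem isSolvable_normalizer (S : Sylow 2 X) :
    Group.IsSolvable ↥(normalizer ((S : Subgroup X) : Set X)) := by
  have : Fact (Nat.Prime 2) := ⟨Nat.prime_two⟩
  set N := normalizer ((S : Subgroup X) : Set X) with hN
  have hn : ((S : Subgroup X).subgroupOf N).Normal := Subgroup.normal_in_normalizer
  have h1 : ¬ 2 ∣ ((S : Subgroup X).subgroupOf N).index := (S.subtype le_normalizer : Sylow 2 ↥N).not_dvd_index
  have h2 : Odd (Nat.card (↥N ⧸ (S : Subgroup X).subgroupOf N)) := by
    rw [← Nat.not_even_iff_odd, even_iff_two_dvd]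
    exact h1
  rw [Group.isSolvable_iff_subgroup_quotient ((S : Subgroup X).subgroupOf N)]
  refine ⟨?_, Cfsg.Agent.S0205.result h2⟩
  have h3 : IsPGroup 2 ↥((S : Subgroup X).subgroupOf N) := S.isPGroup'.comap_subtype
  have := h3.isNilpotent
  infer_instance

theorem component_not_le_normalizer (S : Sylow 2 X) {K : Subgroup X} (hK : Cfsg.IsComponent K) :
    ¬ K ≤ normalizer ((S : Subgroup X) : Set X) := by
  intro h
  have h1 := isSolvable_normalizer S
  apply Components.quasisimple_not_isSolvable hK.2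
  exact Group.isSolvable_of_isSolvable_injective (f := Subgroup.inclusion h) (Subgroup.inclusion_injective h)

/-- An element of `S` outside `Z(S)` is centralised by no component. -/
theorem mem_ctr_of_component (h : CI 2 X) (S : Sylow 2 X) {K : Subgroup X} (hK : Cfsg.IsComponent K) {x : X}
    (hx : x ∈ (S : Subgroup X)) (hxK : x ∈ centralizer (K : Set X)) : x ∈ ctr (S : Subgroup X) := by
  have : Fact (Nat.Prime 2) := ⟨Nat.prime_two⟩
  by_contra hc
  apply component_not_le_normalizer S hK
  refine le_trans ?_ (CIHered.centralizer_le h hx hc)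
  intro k hk
  rw [mem_centralizer_iff]
  rintro _ rfl
  exact (mem_centralizer_iff.mp hxK k hk).symm

theorem isSimpleGroup_congr {A B : Type*} [Group A] [Group B] (e : A ≃* B) [hA : IsSimpleGroup A] :
    IsSimpleGroup B := by
  have : Nontrivial B := e.toEquiv.symm.nontrivial
  exact IsSimpleGroup.isSimpleGroup_of_surjective e.toMonoidHom e.surjective

/-- A quasisimple normal subgroup: `S ≤ L C(L)`. -/
theorem sylow_le_sup (h : CI 2 X) (S : Sylow 2 X) {L : Subgroup X} [hL : L.Normal]
    (hq : Cfsg.IsQuasisimple ↥L) : (S : Subgroup X) ≤ L ⊔ centralizer (L : Set X) := by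
  have : Fact (Nat.Prime 2) := ⟨Nat.prime_two⟩
  set C := centralizer (L : Set X) with hC
  have hCn : C.Normal := inferInstance
  set f : X →* X ⧸ C := QuotientGroup.mk' C with hf
  have hfs : Function.Surjective f := QuotientGroup.mk'_surjective C
  set L' : Subgroup (X ⧸ C) := L.map f with hL'
  have hL'n : L'.Normal := hL.map f hfs
  -- the iso with `L/Z(L)`
  have hker : (f.comp L.subtype).ker = center ↥L := by
    ext l
    rw [MonoidHom.mem_ker, mem_center_iff]
    show (QuotientGroup.mk (l : X) : X ⧸ C) = 1 ↔ _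
    rw [QuotientGroup.eq_one_iff, hC, mem_centralizer_iff]
    constructor
    · intro h1 g
      exact Subtype.ext (h1 g g.2)
    · intro h1 g hg
      exact congrArg Subtype.val (h1 ⟨g, hg⟩)
  have hrange : (f.comp L.subtype).range = L' := by
    rw [MonoidHom.range_comp, Subgroup.range_subtype]
  have hsimple : IsSimpleGroup ↥L' := by
    have h1 := hq.2
    have e : (↥L ⧸ center ↥L) ≃* ↥L' :=
      ((QuotientGroup.quotientMulEquivOfEq hker.symm).trans
        (QuotientGroup.quotientKerEquivRange (f.comp L.subtype))).trans (MulEquiv.subgroupCongr hrange)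
    exact isSimpleGroup_congr e
  have hcomp : Cfsg.IsComponent L := ⟨hL.isSubnormal, hq⟩
  have hperf : ⁅L, L⁆ = L := Components.component_commutator_self hcomp
  have hna : ¬ IsMulCommutative ↥L' := by
    intro hc
    have h1 : ⁅L', L'⁆ = L' := by rw [hL', ← map_commutator, hperf]
    have h2 : ⁅L', L'⁆ = ⊥ := by
      rw [commutator_eq_bot_iff_le_centralizer]
      intro a ha
      rw [mem_centralizer_iff]
      intro b hb
      exact congrArg Subtype.val (hc.is_comm.comm ⟨b, hb⟩ ⟨a, ha⟩)
    rw [h1] at h2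
    exact (Subgroup.nontrivial_iff_ne_bot L').mp hsimple.toNontrivial h2
  have hcent : centralizer (L' : Set (X ⧸ C)) = ⊥ := by
    rw [eq_bot_iff]
    intro x' hx'
    obtain ⟨x, rfl⟩ := hfs x'
    rw [mem_bot]
    show (QuotientGroup.mk x : X ⧸ C) = 1
    rw [QuotientGroup.eq_one_iff]
    have h0 : ⁅zpowers x, L⁆ ≤ C := by
      rw [commutator_le]
      intro y hy l hl
      rw [← QuotientGroup.eq_one_iff]
      show f ⁅y, l⁆ = 1
      rw [map_commutatorElement, commutatorElement_eq_one_iff_commute]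
      obtain ⟨k, rfl⟩ := mem_zpowers_iff.mp hy
      rw [map_zpow]
      have h1 : Commute (f x) (f l) := (mem_centralizer_iff.mp hx' (f l) ⟨l, hl, rfl⟩).symm
      exact h1.zpow_left k
    have h1 : ⁅⁅zpowers x, L⁆, L⁆ = ⊥ := by
      rw [commutator_eq_bot_iff_le_centralizer]
      exact h0
    have h2 := Components.commutator_eq_bot_of_commutator_commutator_eq_bot hq.1 h1
    rw [commutator_eq_bot_iff_le_centralizer] at h2
    exact h2 (mem_zpowers x)
  have h1 := ThmD.sylow_le (CIHered.of_surjective h hfs) hna hcent (S.mapSurjective hfs)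
  intro s hs
  obtain ⟨l, hl, hls⟩ := h1 ⟨s, hs, rfl⟩
  have h2 : l⁻¹ * s ∈ C := QuotientGroup.eq.mp hls
  have h3 : s = l * (l⁻¹ * s) := by group
  rw [h3]
  exact mul_mem_sup hl h2

omit [Finite X] in
/-- The layer is generated by a component and its centraliser in the layer. -/
theorem layer_eq_sup {K : Subgroup X} (hK : Cfsg.IsComponent K) :
    Cfsg.layer X = K ⊔ (Cfsg.layer X ⊓ centralizer (K : Set X)) := by
  apply le_antisymm
  · rw [Components.layer_le_iff]
    intro J hJ
    by_cases hJK : J = K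
    · rw [hJK]; exact le_sup_left
    · exact (le_inf (Components.component_le_layer hJ)
        (Components.component_le_centralizer_of_ne hJ hK hJK)).trans le_sup_right
  · exact sup_le (Components.component_le_layer hK) inf_le_left

/-- `S ∩ E(X)` is generated by `S ∩ K` and `S ∩ C_E(K)`. -/
theorem inf_layer_le (S : Sylow 2 X) {K : Subgroup X} (hK : Cfsg.IsComponent K) :
    (S : Subgroup X) ⊓ Cfsg.layer X ≤ ((S : Subgroup X) ⊓ K) ⊔ ((S : Subgroup X) ⊓ centralizer (K : Set X)) := by
  have : Fact (Nat.Prime 2) := ⟨Nat.prime_two⟩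
  set E := Cfsg.layer X with hE
  have hEn : E.Normal := Components.layer_normal X
  obtain ⟨P, hP⟩ := Cfsg.Agent.Transfer.FrobeniusFusion.exists_sylow_subgroupOf S E
  have hKE : K ≤ E := Components.component_le_layer hK
  have hKn : (K.subgroupOf E).Normal := Components.component_normal_in_layer hK
  have hCn : ((centralizer (K : Set X)).subgroupOf E).Normal := by
    have h1 := Components.layer_le_normalizer_component hK
    refine ⟨fun c hc e => ?_⟩
    rw [mem_subgroupOf] at hc ⊢
    have he : (e : X) ∈ normalizer (K : Set X) := h1 e.2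
    show (e : X) * c * (e : X)⁻¹ ∈ _
    rw [mem_centralizer_iff]
    intro k hk
    have hk' : (e : X)⁻¹ * k * e ∈ K := by
      have := (mem_normalizer_iff.mp (inv_mem he) k).mp hk
      simpa using this
    have h2 := mem_centralizer_iff.mp hc _ hk'
    calc k * (e * c * (e : X)⁻¹) = e * ((e : X)⁻¹ * k * e * c) * (e : X)⁻¹ := by group
      _ = e * (c * ((e : X)⁻¹ * k * e)) * (e : X)⁻¹ := by rw [h2]
      _ = e * c * (e : X)⁻¹ * k := by group
  have htop : K.subgroupOf E ⊔ (centralizer (K : Set X)).subgroupOf E = ⊤ := by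
    apply Subgroup.map_injective E.subtype_injective
    rw [Subgroup.map_sup, subgroupOf_map_subtype, subgroupOf_map_subtype, ← MonoidHom.range_eq_map,
      Subgroup.range_subtype, inf_eq_left.mpr hKE, inf_comm]
    exact (layer_eq_sup hK).symm
  intro x hx
  have hxP : (⟨x, hx.2⟩ : ↥E) ∈ (P : Subgroup ↥E) ⊓ (K.subgroupOf E ⊔ (centralizer (K : Set X)).subgroupOf E) := by
    rw [htop, inf_top_eq, hP]
    exact hx.1
  have h1 := Cfsg.Agent.QTUniq.SylowSup.inf_sup_le P _ _ hxP
  have h2 : x ∈ (((P : Subgroup ↥E) ⊓ K.subgroupOf E) ⊔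
      ((P : Subgroup ↥E) ⊓ (centralizer (K : Set X)).subgroupOf E)).map E.subtype := ⟨_, h1, rfl⟩
  rw [Subgroup.map_sup] at h2
  have h3 : ∀ y : ↥E, y ∈ (P : Subgroup ↥E) → (y : X) ∈ (S : Subgroup X) := fun y hy => by
    rw [hP] at hy; exact hy
  have h4 : ((P : Subgroup ↥E) ⊓ K.subgroupOf E).map E.subtype ≤ (S : Subgroup X) ⊓ K := by
    rintro _ ⟨y, hy, rfl⟩
    exact ⟨h3 y hy.1, hy.2⟩
  have h5 : ((P : Subgroup ↥E) ⊓ (centralizer (K : Set X)).subgroupOf E).map E.subtype ≤
      (S : Subgroup X) ⊓ centralizer (K : Set X) := by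
    rintro _ ⟨y, hy, rfl⟩
    exact ⟨h3 y hy.1, hy.2⟩
  exact (sup_le_sup h4 h5) h2

/-- **Structure theorem** for `O(X) = 1`. -/
theorem main (h : CI 2 X) (hO : Cfsg.oddCore X = ⊥) (S : Sylow 2 X)
    (hS : ¬ IsMulCommutative ↥(S : Subgroup X)) :
    (S : Subgroup X).Normal ∨
    ∃ L : Subgroup X, L.Normal ∧ Cfsg.IsQuasisimple ↥L ∧ Cfsg.pCore 2 X ≤ ctr (S : Subgroup X) ∧
      (∀ l ∈ L, ∀ q ∈ Cfsg.pCore 2 X, l * q = q * l) ∧
      (S : Subgroup X) ≤ ((S : Subgroup X) ⊓ L) ⊔ Cfsg.pCore 2 X ∧
      L ⊓ centralizer (L : Set X) ≤ Cfsg.pCore 2 X := by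
  have : Fact (Nat.Prime 2) := ⟨Nat.prime_two⟩
  rcases CIHered.normal_or_le h S (Cfsg.Agent.Lib.Cores.pCore_normal 2)
    (Cfsg.Agent.Lib.Cores.pCore_le_sylow S) with h1 | hQ
  · exact Or.inl h1
  right
  set Q := Cfsg.pCore 2 X with hQdef
  set E := Cfsg.layer X with hE
  have hEn : E.Normal := Components.layer_normal X
  -- `C_S(E) ≤ Q`
  have hCE : ∀ x ∈ (S : Subgroup X), x ∈ centralizer (E : Set X) → x ∈ Q := by
    intro x hx hxE
    apply Cfsg.Agent.SignalizersComponents.OddFixed.fittingSubgroup_le_pCore_two hO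
    apply Cfsg.Agent.TwoFusion.FStarControl.centralizer_genFitting_le_fitting
    have hF : Cfsg.fittingSubgroup X ≤ Q :=
      Cfsg.Agent.SignalizersComponents.OddFixed.fittingSubgroup_le_pCore_two hO
    have h2 : Cfsg.generalizedFittingSubgroup X ≤ centralizer ({x} : Set X) := by
      refine sup_le ?_ ?_
      · intro y hy
        rw [mem_centralizer_iff]
        rintro _ rfl
        exact (mem_centralizer_iff.mp hxE y hy).symm
      · intro y hy
        rw [mem_centralizer_iff]
        rintro _ rfl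
        exact (mem_ctr.mp (hQ (hF hy))).2 _ hx
    rw [mem_centralizer_iff]
    intro y hy
    exact (mem_centralizer_iff.mp (h2 hy) x rfl).symm
  have hOE : Cfsg.oddCore ↥E = ⊥ := by
    have h3 := Cfsg.Agent.Lib.Cores.map_subtype_pPrimeCore 2 hEn
    have h4 : Cfsg.pPrimeCore 2 X = ⊥ := hO
    rw [h4, inf_bot_eq, Subgroup.map_eq_bot_iff_of_injective _ E.subtype_injective] at h3
    exact h3
  have hSE : ¬ (S : Subgroup X) ⊓ E ≤ ctr (S : Subgroup X) := by
    intro h3
    apply hS
    have h4 : ∀ s ∈ (S : Subgroup X), s ∈ ctr (S : Subgroup X) := by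
      intro s hs
      obtain ⟨c, hc, z, hz, rfl⟩ := LemB.decomp S hOE h3 hs
      exact Subgroup.mul_mem _ (h3 hc) (hQ (hCE z hz.1 hz.2))
    exact ⟨⟨fun a b => Subtype.ext ((mem_ctr.mp (h4 b b.2)).2 a a.2)⟩⟩
  -- every component meets `S` noncentrally
  have hcomp : ∀ K : Subgroup X, Cfsg.IsComponent K → ¬ (S : Subgroup X) ⊓ K ≤ ctr (S : Subgroup X) := by
    intro K hK h3
    apply hSE
    refine (inf_layer_le S hK).trans (sup_le h3 ?_)
    intro x hx
    exact mem_ctr_of_component h S hK hx.1 hx.2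
  have huniq : ∀ K J : Subgroup X, Cfsg.IsComponent K → Cfsg.IsComponent J → K = J := by
    intro K J hK hJ
    by_contra hne
    apply hcomp K hK
    intro x hx
    exact mem_ctr_of_component h S hJ hx.1 (Components.component_le_centralizer_of_ne hK hJ hne hx.2)
  obtain ⟨L, hL⟩ : ∃ L : Subgroup X, Cfsg.IsComponent L := by
    by_contra hno
    push Not at hno
    apply hSE
    have h3 : E ≤ ⊥ := by
      rw [hE, Components.layer_le_iff]
      intro K hK
      exact absurd hK (hno K)
    exact (inf_le_right.trans h3).trans bot_le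
  have hLE : E = L := by
    apply le_antisymm
    · rw [hE, Components.layer_le_iff]
      intro K hK
      rw [huniq K L hK hL]
    · exact Components.component_le_layer hL
  have hLn : L.Normal := hLE ▸ hEn
  refine ⟨L, hLn, hL.2, hQ, ?_, ?_, ?_⟩
  · intro l hl q hq
    have h3 : l ∈ centralizer (Cfsg.fittingSubgroup X : Set X) :=
      Components.layer_le_centralizer_fitting (Components.component_le_layer hL hl)
    exact (mem_centralizer_iff.mp h3 q (Cfsg.Agent.Lib.Cores.pCore_le_fittingSubgroup 2 hq)).symm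
  · have h3 := sylow_le_sup h S hL.2
    have h4 := Cfsg.Agent.QTUniq.SylowSup.inf_sup_le S L (centralizer (L : Set X))
    rw [inf_eq_left.mpr h3] at h4
    refine h4.trans (sup_le_sup le_rfl ?_)
    intro x hx
    exact hCE x hx.1 (by rw [hLE]; exact hx.2)
  · exact Cfsg.Agent.SignalizersComponents.BalanceAux.center_component_le_pCore 2 hO hL

end

end Cfsg.Agent.H304.Struct
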