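import Mathlib
import Cfsg.Agent.S0016
import Cfsg.Agent.S0252
import Cfsg.Agent.S0253
import Cfsg.Agent.TwoFusion.QuatCoverSL
import Cfsg.Agent.TypeU3Sz.Main
import Cfsg.Agent.ClassicalGeometry.PSL2Basic
import Cfsg.Agent.H304.ThmD
import Cfsg.Agent.H304.Struct

/-!
# Central Sylow intersections: quasisimple groups with Sylow 2-subgroups abelian modulo the centre
-/

set_option autoImplicit false

namespace Cfsg.Agent.H304.SL25

open Subgroup Cfsg.Agent.H304.CIBasic
open scoped commutatorElement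

/-- Transfer: central elements of a Sylow subgroup `P` of a perfect group lie in `P'`. -/
theorem mem_commutator_of_perfect {L : Type*} [Group L] [Finite L] {p : ℕ} [Fact p.Prime]
    (hL : commutator L = ⊤) (P : Sylow p L) {z : L} (hz : z ∈ center L) (hzP : z ∈ (P : Subgroup L)) :
    (⟨z, hzP⟩ : ↥(P : Subgroup L)) ∈ commutator ↥(P : Subgroup L) := by
  let ϕ : ↥(P : Subgroup L) →* Abelianization ↥(P : Subgroup L) := Abelianization.of
  have h1 : MonoidHom.transfer ϕ z = 1 := by
    have h2 : commutator L ≤ (MonoidHom.transfer ϕ).ker := Abelianization.commutator_subset_ker _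
    rw [hL] at h2
    exact h2 (mem_top z)
  have key : ∀ (k : ℕ) (g₀ : L), g₀⁻¹ * z ^ k * g₀ ∈ (P : Subgroup L) → g₀⁻¹ * z ^ k * g₀ = z ^ k := by
    intro k g₀ _
    have h3 : g₀ * z ^ k = z ^ k * g₀ := mem_center_iff.mp (pow_mem hz k) g₀
    rw [mul_assoc, ← h3, ← mul_assoc, inv_mul_cancel, one_mul]
  rw [MonoidHom.transfer_eq_pow ϕ z key] at h1
  have h2 : (⟨z, hzP⟩ : ↥(P : Subgroup L)) ^ (P : Subgroup L).index ∈ commutator ↥(P : Subgroup L) := by
    rw [← Abelianization.ker_of, MonoidHom.mem_ker]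
    exact h1
  have h3 : (P : Subgroup L).index.Coprime (orderOf (⟨z, hzP⟩ : ↥(P : Subgroup L))) :=
    (P.card_coprime_index.coprime_dvd_left (orderOf_dvd_natCard _)).symm
  obtain ⟨m, hm⟩ := exists_pow_eq_self_of_coprime h3
  rw [← hm]
  exact pow_mem h2 m

section
variable {L : Type*} [Group L] [Finite L]

/-- The data: perfect group `L` with central quotient simple, `CI`. -/
theorem ctr_eq (h : CI 2 L) (P : Sylow 2 L) (hP : ¬ IsMulCommutative ↥(P : Subgroup L))
    (htrans : ∀ x ∈ (P : Subgroup L), x ∉ center L → ∀ y ∈ (P : Subgroup L), y ∉ center L →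
      ∃ n : L, ∃ z ∈ center L, n * x * n⁻¹ = y * z) (hZP : center L ≤ (P : Subgroup L)) {x : L}
    (hx : x ∈ ctr (P : Subgroup L)) : x ∈ center L := by
  by_contra hxZ
  apply hP
  have hxP := ctr_le _ hx
  have hZc : center L ≤ ctr (P : Subgroup L) := by
    intro z hz
    rw [mem_ctr]
    exact ⟨hZP hz, fun s _ => mem_center_iff.mp hz s⟩
  have hall : ∀ y ∈ (P : Subgroup L), y ∈ ctr (P : Subgroup L) := by
    intro y hy
    by_cases hyZ : y ∈ center L
    · exact hZc hyZ
    obtain ⟨n, z, hz, hn⟩ := htrans x hxP hxZ y hy hyZ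
    have h1 : n * x * n⁻¹ ∈ ctr (P : Subgroup L) := by
      refine (h.isStronglyClosed P).2 x hx n ?_
      rw [hn]
      exact mul_mem hy (hZP hz)
    rw [hn] at h1
    have h2 : y = y * z * z⁻¹ := by group
    rw [h2]
    exact Subgroup.mul_mem _ h1 (Subgroup.inv_mem _ (hZc hz))
  exact ⟨⟨fun a b => Subtype.ext ((mem_ctr.mp (hall b b.2)).2 a a.2)⟩⟩

/-- The structure of `P`: one involution `c`, squares of noncentral elements are `c`, `Z(L) = ⟨c⟩`. -/
theorem exists_c (hL : commutator L = ⊤) (P : Sylow 2 L) (hP : ¬ IsMulCommutative ↥(P : Subgroup L))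
    (htrans : ∀ x ∈ (P : Subgroup L), x ∉ center L → ∀ y ∈ (P : Subgroup L), y ∉ center L →
      ∃ n : L, ∃ z ∈ center L, n * x * n⁻¹ = y * z) (hZP : center L ≤ (P : Subgroup L))
    (hsq : ∀ x ∈ (P : Subgroup L), x * x ∈ center L)
    (hcomm : ∀ x ∈ (P : Subgroup L), ∀ y ∈ (P : Subgroup L), ⁅x, y⁆ ∈ center L) :
    ∃ c : L, c ≠ 1 ∧ c * c = 1 ∧ (∀ z ∈ center L, z = 1 ∨ z = c) ∧ c ∈ center L ∧
      ∀ x ∈ (P : Subgroup L), x ∉ center L → x * x = c := by
  -- the commutators are involutions
  have hc2 : ∀ x ∈ (P : Subgroup L), ∀ y ∈ (P : Subgroup L), ⁅x, y⁆ * ⁅x, y⁆ = 1 := by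
    intro x hx y hy
    have h1 := mem_center_iff.mp (hcomm x hx y hy)
    have h2 := mem_center_iff.mp (hsq x hx)
    -- `[x, y] [x, y] = [x², y] = 1`
    have h3 : ⁅x * x, y⁆ = ⁅x, y⁆ * ⁅x, y⁆ := by
      have h4 : ⁅x * x, y⁆ = x * ⁅x, y⁆ * x⁻¹ * ⁅x, y⁆ := by
        simp only [commutatorElement_def]; group
      rw [h4, h1 x, mul_assoc (⁅x, y⁆) x, mul_inv_cancel, mul_one]
    rw [← h3, commutatorElement_eq_one_iff_mul_comm, h2 y]
  -- elements of the centre of `L` have square one
  have hz2 : ∀ z ∈ center L, z * z = 1 := by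
    intro z hz
    have h1 := mem_commutator_of_perfect hL P hz (hZP hz)
    let E : Subgroup ↥(P : Subgroup L) :=
      { carrier := {w | (w : L) ∈ center L ∧ (w : L) * w = 1}
        mul_mem' := by
          rintro a b ⟨ha, ha'⟩ ⟨hb, hb'⟩
          refine ⟨mul_mem ha hb, ?_⟩
          show (a : L) * b * (a * b) = 1
          have h2 : (b : L) * a = a * b := mem_center_iff.mp ha b
          calc (a : L) * b * (a * b) = a * (b * a) * b := by group
            _ = a * (a * b) * b := by rw [h2]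
            _ = (a * a) * (b * b) := by group
            _ = 1 := by rw [ha', hb', one_mul]
        one_mem' := ⟨one_mem _, by simp⟩
        inv_mem' := by
          rintro a ⟨ha, ha'⟩
          refine ⟨inv_mem ha, ?_⟩
          show (a : L)⁻¹ * (a : L)⁻¹ = 1
          rw [← mul_inv_rev, ha', inv_one] }
    have h2 : commutator ↥(P : Subgroup L) ≤ E := by
      rw [_root_.commutator_def, commutator_le]
      intro a _ b _
      exact ⟨hcomm a a.2 b b.2, hc2 a a.2 b b.2⟩
    exact (h2 h1).2
  -- squares of noncentral elements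
  have hsqeq : ∀ x ∈ (P : Subgroup L), x ∉ center L → ∀ y ∈ (P : Subgroup L), y ∉ center L → x * x = y * y := by
    intro x hx hxZ y hy hyZ
    obtain ⟨n, z, hz, hn⟩ := htrans x hx hxZ y hy hyZ
    have h1 : n * (x * x) * n⁻¹ = x * x := by
      rw [mem_center_iff.mp (hsq x hx) n, mul_assoc, mul_inv_cancel, mul_one]
    have h2 : n * (x * x) * n⁻¹ = y * z * (y * z) := by
      rw [← hn]; group
    have h3 : y * z * (y * z) = y * y * (z * z) := by
      have h4 : y * z = z * y := mem_center_iff.mp hz y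
      calc y * z * (y * z) = y * (z * y) * z := by group
        _ = y * (y * z) * z := by rw [h4]
        _ = y * y * (z * z) := by group
    rw [← h1, h2, h3, hz2 z hz, mul_one]
  obtain ⟨a, ha, b, hb, hab⟩ : ∃ a ∈ (P : Subgroup L), ∃ b ∈ (P : Subgroup L), a * b ≠ b * a := by
    by_contra hno
    push Not at hno
    exact hP ⟨⟨fun a b => Subtype.ext (hno a a.2 b b.2)⟩⟩
  have haZ : a ∉ center L := fun h1 => hab (mem_center_iff.mp h1 b).symm
  set c := a * a with hc
  have hcZ : c ∈ center L := hsq a ha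
  have hsqc : ∀ x ∈ (P : Subgroup L), x ∉ center L → x * x = c := fun x hx hxZ => hsqeq x hx hxZ a ha haZ
  have hcc : c * c = 1 := hz2 c hcZ
  -- commutators
  have hcm : ∀ x ∈ (P : Subgroup L), ∀ y ∈ (P : Subgroup L), ⁅x, y⁆ = 1 ∨ ⁅x, y⁆ = c := by
    intro x hx y hy
    by_cases hxZ : x ∈ center L
    · left
      rw [commutatorElement_eq_one_iff_mul_comm]
      exact (mem_center_iff.mp hxZ y).symm
    by_cases hyZ : y ∈ center L
    · left
      rw [commutatorElement_eq_one_iff_mul_comm]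
      exact mem_center_iff.mp hyZ x
    by_cases hxyZ : x * y ∈ center L
    · left
      rw [commutatorElement_eq_one_iff_mul_comm]
      have h1 := mem_center_iff.mp hxyZ x
      exact mul_left_cancel (a := x) (by rw [h1]; group)
    · right
      have h1 := hsqc x hx hxZ
      have h2 := hsqc y hy hyZ
      have h3 := hsqc _ (mul_mem hx hy) hxyZ
      -- `x y x y = c`, `x² = y² = c`
      have h5 : ⁅x, y⁆ = x * y * (x⁻¹ * y⁻¹) := by rw [commutatorElement_def]; group
      have hx' : x⁻¹ = x * c := by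
        rw [inv_eq_iff_mul_eq_one, ← mul_assoc, h1, hcc]
      have hy' : y⁻¹ = y * c := by
        rw [inv_eq_iff_mul_eq_one, ← mul_assoc, h2, hcc]
      have hcy : y * c = c * y := mem_center_iff.mp hcZ y
      rw [h5, hx', hy']
      calc x * y * (x * c * (y * c)) = x * y * (x * (c * y) * c) := by group
        _ = x * y * (x * (y * c) * c) := by rw [hcy]
        _ = x * y * (x * y) * (c * c) := by group
        _ = c := by rw [h3, hcc, mul_one]
  have hc1 : c ≠ 1 := by
    intro h0
    apply hab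
    have h1 := hcm a ha b hb
    rw [h0, or_self, commutatorElement_eq_one_iff_mul_comm] at h1
    exact h1
  refine ⟨c, hc1, hcc, ?_, hcZ, hsqc⟩
  intro z hz
  have h1 := mem_commutator_of_perfect hL P hz (hZP hz)
  let E : Subgroup ↥(P : Subgroup L) :=
    { carrier := {w | (w : L) = 1 ∨ (w : L) = c}
      mul_mem' := by
        rintro a b (ha | ha) (hb | hb)
        · left; show (a : L) * b = 1; rw [ha, hb, one_mul]
        · right; show (a : L) * b = c; rw [ha, hb, one_mul]
        · right; show (a : L) * b = c; rw [ha, hb, mul_one]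
        · left; show (a : L) * b = 1; rw [ha, hb, hcc]
      one_mem' := Or.inl rfl
      inv_mem' := by
        rintro a (ha | ha)
        · left; show (a : L)⁻¹ = 1; rw [ha, inv_one]
        · right; show (a : L)⁻¹ = c; rw [ha]; exact inv_eq_of_mul_eq_one_left hcc }
  have h2 : commutator ↥(P : Subgroup L) ≤ E := by
    rw [_root_.commutator_def, commutator_le]
    intro a _ b _
    exact hcm a a.2 b b.2
  exact h2 h1

/-- The image of a Sylow subgroup under an isomorphism has the same order. -/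
theorem card_sylow_congr {A B : Type*} [Group A] [Group B] [Finite A] [Finite B] (e : A ≃* B) (P : Sylow 2 A)
    (Q : Sylow 2 B) : Nat.card ↥(P : Subgroup A) = Nat.card ↥(Q : Subgroup B) := by
  have : Fact (Nat.Prime 2) := ⟨Nat.prime_two⟩
  rw [P.card_eq_multiplicity, Q.card_eq_multiplicity, Nat.card_congr e.toEquiv]

/-- A 2-group with a unique involution and exponent dividing 4 is abelian or quaternion of order 8. -/
theorem quaternion_of_unique {Q : Type*} [Group Q] [Finite Q] (hQ : IsPGroup 2 Q) (c : Q)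
    (hu : ∀ x : Q, orderOf x = 2 → x = c) (h4 : ∀ x : Q, x ^ 4 = 1) (hna : ¬ IsMulCommutative Q) :
    Nonempty (Q ≃* QuaternionGroup (2 ^ 1)) := by
  have : Fact (Nat.Prime 2) := ⟨Nat.prime_two⟩
  have huniq : ∀ H K : Subgroup Q, Nat.card H = 2 → Nat.card K = 2 → H = K := by
    have key : ∀ H : Subgroup Q, Nat.card H = 2 → H = zpowers c := by
      intro H hH
      have hnt : Nontrivial ↥H := by
        apply Finite.one_lt_card_iff_nontrivial.mp
        rw [hH]; norm_num
      obtain ⟨x, hx⟩ := exists_ne (1 : ↥H)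
      have h1 : orderOf x = 2 := by
        have h2 : orderOf x ∣ 2 := by rw [← hH]; exact orderOf_dvd_natCard x
        rcases (Nat.dvd_prime Nat.prime_two).mp h2 with h3 | h3
        · exact absurd (orderOf_eq_one_iff.mp h3) hx
        · exact h3
      have h2 : (x : Q) = c := hu x (by rw [Subgroup.orderOf_coe, h1])
      have h3 : zpowers c ≤ H := by rw [zpowers_le, ← h2]; exact x.2
      refine (Subgroup.eq_of_le_of_card_ge h3 ?_).symm
      rw [hH, Nat.card_zpowers, ← h2, Subgroup.orderOf_coe, h1]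
    intro H K hH hK
    rw [key H hH, key K hK]
  rcases Cfsg.Agent.S0016.result 2 hQ huniq with hc | ⟨-, n, ⟨e⟩⟩
  · exfalso
    apply hna
    obtain ⟨g, hg⟩ := hc.exists_generator
    refine ⟨⟨fun a b => ?_⟩⟩
    obtain ⟨i, rfl⟩ := mem_zpowers_iff.mp (hg a)
    obtain ⟨j, rfl⟩ := mem_zpowers_iff.mp (hg b)
    exact (Commute.zpow_zpow_self g i j)
  · have hn : n ≤ 1 := by
      have h1 : orderOf (QuaternionGroup.a (n := 2 ^ n) 1) = 2 * 2 ^ n := QuaternionGroup.orderOf_a_one
      have h2 : (QuaternionGroup.a (n := 2 ^ n) 1) ^ 4 = 1 := by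
        obtain ⟨x, hx⟩ := e.surjective (QuaternionGroup.a (n := 2 ^ n) 1)
        rw [← hx, ← map_pow, h4, map_one]
      have h3 := orderOf_dvd_of_pow_eq_one h2
      rw [h1] at h3
      have h4 := Nat.le_of_dvd (by norm_num) h3
      by_contra h5
      have h6 : 2 ^ 2 ≤ 2 ^ n := Nat.pow_le_pow_right (by norm_num) (by omega)
      omega
    rcases Nat.lt_or_ge n 1 with h1 | h1
    · exfalso
      have h0 : n = 0 := by omega
      subst h0
      apply hna
      have hcard : Nat.card (QuaternionGroup (2 ^ 0)) = 2 ^ 2 := by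
        rw [Nat.card_eq_fintype_card, QuaternionGroup.card]; norm_num
      have h2 : Nat.card Q = 2 ^ 2 := by rw [Nat.card_congr e.toEquiv, hcard]
      exact IsPGroup.isMulCommutative_of_card_eq_prime_sq h2
    · have h0 : n = 1 := by omega
      subst h0
      exact ⟨e⟩

theorem main (hq : Cfsg.IsQuasisimple L) (h : CI 2 L) (hZ : IsPGroup 2 ↥(center L)) (P : Sylow 2 L)
    (hP : ¬ IsMulCommutative ↥(P : Subgroup L))
    (hcomm : ∀ x ∈ (P : Subgroup L), ∀ y ∈ (P : Subgroup L), ⁅x, y⁆ ∈ center L) :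
    Nonempty (L ≃* Matrix.SpecialLinearGroup (Fin 2) (ZMod 5)) := by
  classical
  have : Fact (Nat.Prime 2) := ⟨Nat.prime_two⟩
  have hL : commutator L = ⊤ := hq.1.commutator_eq_top
  have hZP : center L ≤ (P : Subgroup L) :=
    (Cfsg.Agent.Lib.Cores.le_pCore inferInstance hZ).trans (Cfsg.Agent.Lib.Cores.pCore_le_sylow P)
  have hsimple : IsSimpleGroup (L ⧸ center L) := hq.2
  have hπ : Function.Surjective (QuotientGroup.mk' (center L)) := QuotientGroup.mk'_surjective _
  set Ph : Sylow 2 (L ⧸ center L) := P.mapSurjective hπ with hPh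
  have hPhm : ∀ x : L, (QuotientGroup.mk x : L ⧸ center L) ∈ (Ph : Subgroup (L ⧸ center L)) ↔
      x ∈ (P : Subgroup L) := by
    intro x
    constructor
    · rintro ⟨y, hy, hyx⟩
      have h1 : y⁻¹ * x ∈ center L := QuotientGroup.eq.mp hyx
      have h2 : x = y * (y⁻¹ * x) := by group
      rw [h2]
      exact mul_mem hy (hZP h1)
    · intro hx
      exact ⟨x, hx, rfl⟩
  have hna : ¬ IsMulCommutative (L ⧸ center L) := by
    intro hc
    have h1 : commutator L ≤ center L := by
      rw [_root_.commutator_def, commutator_le]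
      intro a _ b _
      rw [← QuotientGroup.eq_one_iff]
      show QuotientGroup.mk' (center L) ⁅a, b⁆ = 1
      rw [map_commutatorElement, commutatorElement_eq_one_iff_mul_comm]
      exact hc.is_comm.comm _ _
    rw [hL, top_le_iff] at h1
    apply hP
    refine ⟨⟨fun a b => Subtype.ext ?_⟩⟩
    have h2 : (b : L) ∈ center L := by rw [h1]; exact mem_top _
    exact mem_center_iff.mp h2 a
  have hna' : ∃ a b : L ⧸ center L, a * b ≠ b * a := by
    by_contra h
    push Not at h
    exact hna ⟨⟨h⟩⟩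
  have hab : ∀ a ∈ (Ph : Subgroup (L ⧸ center L)), ∀ b ∈ (Ph : Subgroup (L ⧸ center L)), a * b = b * a := by
    rintro _ ⟨x, hx, rfl⟩ _ ⟨y, hy, rfl⟩
    rw [← commutatorElement_eq_one_iff_mul_comm, ← map_commutatorElement]
    exact (QuotientGroup.eq_one_iff _).mpr (hcomm x hx y hy)
  have hW := Cfsg.Agent.Walter.Main.wType_of_step Cfsg.Agent.Walter.StepAll.step (L ⧸ center L) inferInstance hna
    Ph hab
  have hsq : ∀ x ∈ (P : Subgroup L), x * x ∈ center L := by
    intro x hx
    have h1 := Cfsg.Agent.Walter.PSLFacts.WType.sq hW Ph _ ((hPhm x).mpr hx)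
    rw [← QuotientGroup.mk_mul, QuotientGroup.eq_one_iff] at h1
    exact h1
  have htrans : ∀ x ∈ (P : Subgroup L), x ∉ center L → ∀ y ∈ (P : Subgroup L), y ∉ center L →
      ∃ n : L, ∃ z ∈ center L, n * x * n⁻¹ = y * z := by
    intro x hx hxZ y hy hyZ
    obtain ⟨n, -, hn⟩ := Cfsg.Agent.Walter.PairsRot.exists_normalizer_conj hW hna' Ph _ ((hPhm x).mpr hx)
      (fun h1 => hxZ ((QuotientGroup.eq_one_iff x).mp h1)) _ ((hPhm y).mpr hy)
      (fun h1 => hyZ ((QuotientGroup.eq_one_iff y).mp h1))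
    obtain ⟨n, rfl⟩ := QuotientGroup.mk_surjective n
    have h1 : (QuotientGroup.mk y : L ⧸ center L) = QuotientGroup.mk (n * x * n⁻¹) := by
      rw [← hn]; rfl
    rw [QuotientGroup.eq] at h1
    exact ⟨n, _, h1, by group⟩
  obtain ⟨c, hc1, hcc, hcZ', hcZ, hsqc⟩ := exists_c hL P hP htrans hZP hsq hcomm
  have hoc : orderOf c = 2 := orderOf_eq_prime (by rw [pow_two, hcc]) hc1
  have hcen : center L = zpowers c := by
    apply le_antisymm
    · intro z hz
      rcases hcZ' z hz with h1 | h1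
      · rw [h1]; exact one_mem _
      · rw [h1]; exact mem_zpowers c
    · rw [zpowers_le]; exact hcZ
  have hcardZ : Nat.card ↥(center L) = 2 := by rw [hcen, Nat.card_zpowers, hoc]
  -- `P` is quaternion of order 8
  have hcP : c ∈ (P : Subgroup L) := hZP hcZ
  have hu : ∀ x : ↥(P : Subgroup L), orderOf x = 2 → x = ⟨c, hcP⟩ := by
    intro x hx
    have h2 : (x : L) * x = 1 := by
      have h3 := pow_orderOf_eq_one x
      rw [hx, pow_two] at h3
      exact congrArg Subtype.val h3
    have hxZ : (x : L) ∈ center L := by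
      by_contra hxZ
      rw [hsqc x x.2 hxZ] at h2
      exact hc1 h2
    rcases hcZ' x hxZ with h3 | h3
    · exfalso
      have h4 : x = 1 := Subtype.ext h3
      rw [h4, orderOf_one] at hx
      omega
    · exact Subtype.ext h3
  have h4 : ∀ x : ↥(P : Subgroup L), x ^ 4 = 1 := by
    intro x
    apply Subtype.ext
    show (x : L) ^ 4 = 1
    have h5 : (x : L) ^ 4 = (x : L) * x * ((x : L) * x) := by
      rw [show (4 : ℕ) = 2 + 2 from rfl, pow_add, pow_two]
    rw [h5]
    rcases hcZ' _ (hsq x x.2) with h6 | h6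
    · rw [h6, one_mul]
    · rw [h6, hcc]
  obtain ⟨e⟩ := quaternion_of_unique P.isPGroup' ⟨c, hcP⟩ hu h4 hP
  have hcardP : Nat.card ↥(P : Subgroup L) = 8 := by
    rw [Nat.card_congr e.toEquiv, Nat.card_eq_fintype_card, QuaternionGroup.card]
    norm_num
  have hcard : Nat.card ↥(Ph : Subgroup (L ⧸ center L)) = 4 := by
    have h5 : (Ph : Subgroup (L ⧸ center L)).comap (QuotientGroup.mk' (center L)) = (P : Subgroup L) := by
      ext x
      exact hPhm x
    have h6 : Nat.card ((Ph : Subgroup (L ⧸ center L)).comap (QuotientGroup.mk' (center L))) =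
        Nat.card (center L) * Nat.card (Ph : Subgroup (L ⧸ center L)) :=
      QuotientGroup.card_preimage_mk (center L) ((Ph : Subgroup (L ⧸ center L)) : Set (L ⧸ center L))
    rw [h5, hcardP, hcardZ] at h6
    omega
  have hctr := fun x hx => ctr_eq h P hP htrans hZP (x := x) hx
  have hse : Cfsg.IsStronglyEmbedded (normalizer ((Ph : Subgroup (L ⧸ center L)) : Set (L ⧸ center L))) := by
    refine ⟨?_, ?_, ?_⟩
    · intro htop
      have hn : (Ph : Subgroup (L ⧸ center L)).Normal := normalizer_eq_top_iff.mp htop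
      rcases IsSimpleGroup.eq_bot_or_eq_top_of_normal _ hn with h5 | h5
      · rw [h5, card_bot] at hcard
        omega
      · apply hna
        refine ⟨⟨fun a b => hab a ?_ b ?_⟩⟩ <;> rw [h5] <;> exact mem_top _
    · have h5 := Subgroup.card_dvd_of_le
        (le_normalizer (H := (Ph : Subgroup (L ⧸ center L))))
      rw [hcard] at h5
      rw [even_iff_two_dvd]
      exact dvd_trans (by norm_num) h5
    · intro g hg
      by_contra hodd
      rw [Nat.not_odd_iff_even, even_iff_two_dvd] at hodd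
      obtain ⟨t, ht⟩ := exists_prime_orderOf_dvd_card' 2 hodd
      have ht2 : (t : L ⧸ center L) ^ 2 ^ 1 = 1 := by
        have h5 : orderOf (t : L ⧸ center L) = 2 := by rw [Subgroup.orderOf_coe, ht]
        have h6 := pow_orderOf_eq_one (t : L ⧸ center L)
        rw [h5] at h6
        rw [pow_one]; exact h6
      have ht1 : (t : L ⧸ center L) ≠ 1 := by
        intro h5
        have h6 : t = 1 := Subtype.ext h5
        rw [h6, orderOf_one] at ht
        omega
      have htP : (t : L ⧸ center L) ∈ (Ph : Subgroup (L ⧸ center L)) :=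
        ThmD.mem_of_mem_normalizer Ph t.2.1 ht2
      obtain ⟨s, hs, hst⟩ := t.2.2
      have hs' : g * s * g⁻¹ = t := hst
      have hsg : s = g⁻¹ * t * g := by rw [← hs']; group
      have hsP : s ∈ (Ph : Subgroup (L ⧸ center L)) := by
        refine ThmD.mem_of_mem_normalizer Ph hs (n := 1) ?_
        rw [pow_one, pow_two] at ht2 ⊢
        rw [hsg]
        calc g⁻¹ * t * g * (g⁻¹ * t * g) = g⁻¹ * (t * t) * g := by group
          _ = 1 := by rw [ht2]; group
      obtain ⟨y, rfl⟩ := QuotientGroup.mk_surjective g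
      obtain ⟨x, hx, hxt⟩ := htP
      have hxt' : (QuotientGroup.mk x : L ⧸ center L) = t := hxt
      have hxZ : x ∉ center L := by
        intro h5
        apply ht1
        rw [← hxt']
        exact (QuotientGroup.eq_one_iff x).mpr h5
      have hxy : y⁻¹ * x * y ∈ (P : Subgroup L) := by
        rw [← hPhm]
        have h5 : (QuotientGroup.mk (y⁻¹ * x * y) : L ⧸ center L) = s := by
          rw [hsg, ← hxt']; rfl
        rw [h5]
        exact hsP
      have hmem : x ∈ ((y • P : Sylow 2 L) : Subgroup L) := by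
        refine ⟨_, hxy, ?_⟩
        show y * (y⁻¹ * x * y) * y⁻¹ = x
        group
      have heq := h.eq_of_mem hx (fun h5 => hxZ (hctr x h5)) hmem
      have hyN : y ∈ normalizer ((P : Subgroup L) : Set L) := Sylow.smul_eq_iff_mem_normalizer.mp heq.symm
      apply hg
      rw [mem_normalizer_iff]
      intro w
      obtain ⟨w, rfl⟩ := QuotientGroup.mk_surjective w
      have h5 : (QuotientGroup.mk y : L ⧸ center L) * QuotientGroup.mk w * (QuotientGroup.mk y)⁻¹ =
        QuotientGroup.mk (y * w * y⁻¹) := rfl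
      rw [h5]
      show (QuotientGroup.mk w : L ⧸ center L) ∈ (Ph : Subgroup (L ⧸ center L)) ↔
        (QuotientGroup.mk (y * w * y⁻¹) : L ⧸ center L) ∈ (Ph : Subgroup (L ⧸ center L))
      rw [hPhm, hPhm]
      exact mem_normalizer_iff.mp hyN w
  -- identification
  have hex : ∃ (F : Type) (_ : Field F) (_ : Fintype F), Fintype.card F = 4 ∧
      Nonempty ((L ⧸ center L) ≃* Matrix.ProjectiveSpecialLinearGroup (Fin 2) F) := by
    rcases Cfsg.Agent.StrongEmb.Strong.result hna' _ hse with ⟨F, i1, i2, ⟨n, hn, hF⟩, ⟨e1⟩⟩ |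
      ⟨F, i1, i2, m, hm, hF, ⟨e1⟩⟩ | ⟨F, i1, i2, n, hn, hF, ⟨e1⟩⟩
    · refine ⟨F, i1, i2, ?_, ⟨e1⟩⟩
      have h5 : Nat.card (Matrix.ProjectiveSpecialLinearGroup (Fin 2) F) =
          Fintype.card F * (Fintype.card F ^ 2 - 1) := by
        apply Cfsg.Agent.ClassicalGeometry.PSL2Basic.card_PSL2_even
        rw [hF, even_iff_two_dvd]
        exact dvd_pow_self 2 (by omega)
      rw [Ph.card_eq_multiplicity, Nat.card_congr e1.toEquiv, h5, hF] at hcard
      have h6 : 1 < 2 ^ n := Nat.one_lt_two_pow (by omega)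
      have h7 : ¬ 2 ∣ (2 ^ n) ^ 2 - 1 := by
        intro h8
        have h9 : 2 ∣ (2 ^ n) ^ 2 := dvd_pow (dvd_pow_self 2 (by omega)) (by norm_num)
        have h10 : 1 ≤ (2 ^ n) ^ 2 := Nat.one_le_pow _ _ (by positivity)
        have h11 := (Nat.dvd_sub_iff_right h10 h9).mp h8
        omega
      have h8 : (2 ^ n) ^ 2 - 1 ≠ 0 := by
        intro h9
        rw [h9] at h7
        exact h7 (dvd_zero 2)
      rw [Nat.factorization_mul (by positivity) h8, Finsupp.add_apply,
        Nat.factorization_eq_zero_of_not_dvd h7, add_zero, Nat.Prime.factorization_pow Nat.prime_two,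
        Finsupp.single_eq_same] at hcard
      rw [hF, hcard]
    · exfalso
      obtain ⟨Q⟩ : Nonempty (Sylow 2 ↥(Cfsg.Lie.Sz F (2 ^ (m + 1)))) := inferInstance
      have h5 := (Cfsg.Agent.TypeU3Sz.Main.ty_sz hm hF Q).card
      have : Finite ↥(Cfsg.Lie.Sz F (2 ^ (m + 1))) := Finite.of_equiv _ e1.toEquiv
      rw [← card_sylow_congr e1 Ph Q, hcard] at h5
      have h6 : 2 ^ 3 ≤ 2 ^ (2 * m + 1) := Nat.pow_le_pow_right (by norm_num) (by omega)
      nlinarith
    · exfalso
      obtain ⟨Q⟩ : Nonempty (Sylow 2 (Cfsg.PSU 3 F (2 ^ n))) := inferInstance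
      have h5 := (Cfsg.Agent.TypeU3Sz.Main.ty_psu (by omega : 1 ≤ n)
        (by rw [Nat.card_eq_fintype_card, hF]) Q).card
      have : Finite (Cfsg.PSU 3 F (2 ^ n)) := Finite.of_equiv _ e1.toEquiv
      rw [← card_sylow_congr e1 Ph Q, hcard] at h5
      have h6 : 2 ^ 2 ≤ 2 ^ n := Nat.pow_le_pow_right (by norm_num) (by omega)
      nlinarith [pow_le_pow_left₀ (by norm_num) h6 3]
  obtain ⟨F, i1, i2, hF, ⟨e1⟩⟩ := hex
  obtain ⟨e4⟩ := Cfsg.Agent.S0252.result hF
  have : Fact (Nat.Prime 5) := ⟨by norm_num⟩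
  obtain ⟨e5⟩ := Cfsg.Agent.S0253.result (F := ZMod 5) (by rw [ZMod.card])
  have hnorm : (zpowers c).Normal := by rw [← hcen]; infer_instance
  let φ : L ⧸ zpowers c ≃* Matrix.ProjectiveSpecialLinearGroup (Fin 2) (ZMod 5) :=
    (((QuotientGroup.quotientMulEquivOfEq hcen.symm).trans e1).trans e4).trans e5.symm
  exact Cfsg.Agent.TwoFusion.QuatCoverSL.mulEquiv_sl_two c hcZ hoc P 1 le_rfl e
    (by rw [ZMod.card]; decide) φ

end

end Cfsg.Agent.H304.SL25
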