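import Mathlib
import Cfsg.Agent.S0330
import Cfsg.Agent.S1138
import Cfsg.Agent.S1141
import Cfsg.Agent.OddCyclic.ClaimC.SzIso
import Cfsg.Agent.H304.SL25

/-!
# Simple groups with central Sylow 2-intersections and nonabelian Sylow 2-subgroups
-/

set_option autoImplicit false

namespace Cfsg.Agent.H304.Ident

open Subgroup Cfsg.Agent.H304.CIBasic
open scoped commutatorElement

/-- The conclusion. -/
def Concl (K : Type*) [Group K] : Prop :=
  (∃ (m : ℕ) (F : Type) (_ : Field F) (_ : Fintype F), 1 ≤ m ∧ Fintype.card F = 2 ^ (2 * m + 1) ∧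
      Nonempty (K ≃* ↥(Cfsg.Lie.Sz F (2 ^ (m + 1))))) ∨
    (∃ (n : ℕ) (F : Type) (_ : Field F) (_ : Fintype F), 2 ≤ n ∧ Fintype.card F = 4 ^ n ∧
      Nonempty (K ≃* Cfsg.PSU 3 F (2 ^ n)))

theorem concl {K : Type*} [Group K] [Finite K] [IsSimpleGroup K] (h : CI 2 K) (P : Sylow 2 K)
    (hP : ¬ IsMulCommutative ↥(P : Subgroup K)) : Concl K := by
  have : Fact (Nat.Prime 2) := ⟨Nat.prime_two⟩
  have hPne : (P : Subgroup K) ≠ ⊥ := by
    intro h0
    apply hP
    rw [h0]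
    infer_instance
  have hna : ∃ a b : K, a * b ≠ b * a := by
    by_contra hno
    push Not at hno
    exact hP ⟨⟨fun a b => Subtype.ext (hno a b)⟩⟩
  rcases Cfsg.Agent.S1169.result P _ (ctr_ne_bot hPne) (ctr_comm _) (h.isStronglyClosed P) with hab | ⟨H, hH⟩
  · exact absurd hab hP
  rcases Cfsg.Agent.StrongEmb.Strong.result hna H hH with ⟨F, i1, i2, ⟨n, hn, hF⟩, ⟨e⟩⟩ |
      ⟨F, i1, i2, m, hm, hF, he⟩ | ⟨F, i1, i2, n, hn, hF, he⟩
  · exfalso
    apply hP
    have hW : Cfsg.Agent.Walter.Types.WType K := Or.inl ⟨F, i1, i2, n, hn, hF, ⟨e⟩⟩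
    have hsq := Cfsg.Agent.Walter.PSLFacts.WType.sq hW P
    refine ⟨⟨fun a b => Subtype.ext ?_⟩⟩
    show (a : K) * b = b * a
    have h1 := hsq _ (mul_mem a.2 b.2)
    have h2 := hsq _ a.2
    have h3 := hsq _ b.2
    have h4 : (a : K)⁻¹ = a := inv_eq_of_mul_eq_one_left h2
    have h5 : (b : K)⁻¹ = b := inv_eq_of_mul_eq_one_left h3
    have h6 : ((a : K) * b)⁻¹ = a * b := inv_eq_of_mul_eq_one_left h1
    rw [← h6, mul_inv_rev, h4, h5]
  · exact Or.inl ⟨m, F, i1, i2, hm, hF, he⟩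
  · refine Or.inr ⟨n, F, i1, i2, hn, ?_, he⟩
    rw [hF, ← pow_mul, mul_comm, pow_mul]
    norm_num

/-- `P/Z(P)` is commutative and of order at least 8. -/
structure Big (P : Type*) [Group P] : Prop where
  comm : ∀ x y : P, x⁻¹ * y⁻¹ * x * y ∈ center P
  card : 8 * Nat.card ↥(center P) ≤ Nat.card P

theorem Big.congr {P Q : Type*} [Group P] [Group Q] (h : Big P) (e : P ≃* Q) : Big Q := by
  have hc : ∀ x : P, x ∈ center P ↔ e x ∈ center Q := by
    intro x
    rw [mem_center_iff, mem_center_iff]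
    constructor
    · intro h1 y
      obtain ⟨z, rfl⟩ := e.surjective y
      rw [← map_mul, ← map_mul, h1 z]
    · intro h1 z
      apply e.injective
      rw [map_mul, map_mul, h1 (e z)]
  refine ⟨?_, ?_⟩
  · intro x y
    obtain ⟨a, rfl⟩ := e.surjective x
    obtain ⟨b, rfl⟩ := e.surjective y
    rw [← map_inv, ← map_inv, ← map_mul, ← map_mul, ← map_mul, ← hc]
    exact h.comm a b
  · have h1 : Nat.card ↥(center P) = Nat.card ↥(center Q) :=
      Nat.card_congr (e.toEquiv.subtypeEquiv hc)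
    rw [← h1, ← Nat.card_congr e.toEquiv]
    exact h.card

theorem big {K : Type*} [Group K] [Finite K] (h : Concl K) (P : Sylow 2 K) : Big ↥(P : Subgroup K) := by
  have : Fact (Nat.Prime 2) := ⟨Nat.prime_two⟩
  have key : ∀ {Y : Type} [Group Y] [Finite Y] (e : K ≃* Y), (∀ Q : Sylow 2 Y, Big ↥(Q : Subgroup Y)) →
      Big ↥(P : Subgroup K) := by
    intro Y _ _ e hY
    have h1 := hY (P.mapSurjective (f := e.toMonoidHom) e.surjective)
    exact h1.congr ((P : Subgroup K).equivMapOfInjective e.toMonoidHom e.injective).symm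
  rcases h with ⟨m, F, i1, i2, hm, hF, ⟨e⟩⟩ | ⟨n, F, i1, i2, hn, hF, ⟨e⟩⟩
  · obtain ⟨e'⟩ := Cfsg.Agent.OddCyclic.ClaimC.SzIso.iso (F := F) hm hF
    have : Finite ↥(Cfsg.Sz F m) := Finite.of_equiv _ (e.trans e'.symm).toEquiv
    refine key (e.trans e'.symm) fun Q => ?_
    obtain ⟨h1, -, h3, h4⟩ := Cfsg.Agent.S0330.result hm hF Q
    refine ⟨?_, ?_⟩
    · intro x y
      have h5 : ⁅x⁻¹, y⁻¹⁆ ∈ center ↥(Q : Subgroup ↥(Cfsg.Sz F m)) := by
        rw [h3, _root_.commutator_def]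
        exact commutator_mem_commutator (mem_top _) (mem_top _)
      rw [commutatorElement_def, inv_inv, inv_inv] at h5
      exact h5
    · have h5 : 2 ^ 3 ≤ 2 ^ (2 * m + 1) := Nat.pow_le_pow_right (by norm_num) (by omega)
      rw [h4, h1, pow_two]
      exact Nat.mul_le_mul_right _ h5
  · have hF' : Fintype.card F = (2 ^ n) ^ 2 := by
      rw [hF, ← pow_mul, mul_comm, pow_mul]; norm_num
    have : Finite (Cfsg.PSU 3 F (2 ^ n)) := Finite.of_equiv _ e.toEquiv
    refine key e fun Q => ?_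
    obtain ⟨h1, h2, h3⟩ := Cfsg.Agent.S1141.result hn hF' Q
    obtain ⟨-, h4, -, -⟩ := Cfsg.Agent.S1138.result h3
    refine ⟨h4, ?_⟩
    have h5 : 2 ^ 2 ≤ 2 ^ n := Nat.pow_le_pow_right (by norm_num) hn
    rw [h2, h1]
    nlinarith

end Cfsg.Agent.H304.Ident
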