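import Mathlib
import Cfsg.Agent.SignalizersComponents.Components
import Cfsg.Agent.H304.ThmD

/-!
# Lifting a central product over a normal subgroup of odd order centralised by a Sylow 2-subgroup
-/

set_option autoImplicit false

namespace Cfsg.Agent.H304.Lift

open Subgroup Cfsg.Agent.H304.CIBasic Cfsg.Agent.SignalizersComponents
open scoped commutatorElement

theorem isPerfect_of_commutator {G : Type*} [Group G] {L : Subgroup G} (h : ⁅L, L⁆ = L) : Group.IsPerfect ↥L := by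
  constructor
  apply Subgroup.map_injective L.subtype_injective
  rw [_root_.commutator_def, map_commutator, ← MonoidHom.range_eq_map, Subgroup.range_subtype]
  exact h

theorem commutator_of_isPerfect {G : Type*} [Group G] {L : Subgroup G} (h : Group.IsPerfect ↥L) : ⁅L, L⁆ = L := by
  have h1 := h.commutator_eq_top
  have h2 := congrArg (Subgroup.map L.subtype) h1
  rw [_root_.commutator_def, map_commutator, ← MonoidHom.range_eq_map, Subgroup.range_subtype] at h2
  exact h2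

theorem main {G X : Type*} [Group G] [Finite G] [Group X] (S : Sylow 2 G) {π : G →* X} (hπ : Function.Surjective π)
    (hodd : Odd (Nat.card ↥π.ker)) (hSN : (S : Subgroup G) ≤ centralizer (π.ker : Set G))
    {L Q : Subgroup X} [hL : L.Normal] [hQ : Q.Normal] (hLq : Cfsg.IsQuasisimple ↥L)
    (hQS : Q ≤ (S : Subgroup G).map π) (hQL : ∀ l ∈ L, ∀ q ∈ Q, l * q = q * l)
    (hnc : ¬ ((S : Subgroup G).map π ⊓ L ≤ centralizer (L : Set X)))
    (hS : (S : Subgroup G).map π ≤ L ⊔ Q) :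
    ∃ L₁ A : Subgroup G, L₁.Normal ∧ A.Normal ∧ Group.IsPerfect ↥L₁ ∧ A ≤ (S : Subgroup G) ∧ A.map π = Q ∧
      (∀ a ∈ A, ∀ l ∈ L₁, a * l = l * a) ∧ (S : Subgroup G) ≤ A ⊔ L₁ ∧
      ∃ f : ↥L₁ →* ↥L ⧸ center ↥L, Function.Surjective f ∧ f.ker = center ↥L₁ := by
  classical
  have : Fact (Nat.Prime 2) := ⟨Nat.prime_two⟩
  set N := π.ker with hN
  have hLp : ⁅L, L⁆ = L := commutator_of_isPerfect hLq.1
  set C := centralizer (N : Set G) with hC
  have hNn : N.Normal := inferInstance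
  have hCn : C.Normal := inferInstance
  -- `L ≤ π(C)`
  have hCL : L ≤ C.map π := by
    have h1 : (C.map π).Normal := hCn.map π hπ
    have h2 : ((C.map π).subgroupOf L).Normal := inferInstance
    rcases Components.quasisimple_normal hLq _ h2 with h3 | h3
    · rwa [subgroupOf_eq_top] at h3
    · exfalso
      apply hnc
      rintro x ⟨hxS, hxL⟩
      have h4 : (⟨x, hxL⟩ : ↥L) ∈ (C.map π).subgroupOf L := by
        rw [mem_subgroupOf]
        exact Subgroup.map_mono hSN hxS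
      have h5 := h3 h4
      rw [mem_centralizer_iff]
      intro l hl
      exact congrArg Subtype.val (mem_center_iff.mp h5 ⟨l, hl⟩)
  set L₀ := L.comap π ⊓ C with hL₀
  have hL₀n : L₀.Normal := inferInstance
  have hL₀m : L₀.map π = L := by
    apply le_antisymm
    · rintro _ ⟨x, hx, rfl⟩
      exact hx.1
    · intro l hl
      obtain ⟨c, hc, rfl⟩ := hCL hl
      exact ⟨c, ⟨hl, hc⟩, rfl⟩
  set L₁ := ⁅L₀, L₀⁆ with hL₁
  have hL₁n : L₁.Normal := inferInstance
  have hL₁L₀ : L₁ ≤ L₀ := commutator_le_left L₀ L₀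
  have hL₁m : L₁.map π = L := by rw [hL₁, map_commutator, hL₀m, hLp]
  have hL₁C : L₁ ≤ C := hL₁L₀.trans inf_le_right
  -- decomposition `L₀ = L₁ (L₀ ∩ N)`
  have hdec : ∀ x ∈ L₀, ∃ y ∈ L₁, ∃ n ∈ N, n ∈ C ∧ x = y * n := by
    intro x hx
    have h1 : π x ∈ L₁.map π := by rw [hL₁m]; exact hx.1
    obtain ⟨y, hy, hyx⟩ := h1
    refine ⟨y, hy, y⁻¹ * x, ?_, ?_, by group⟩
    · rw [hN, MonoidHom.mem_ker, map_mul, map_inv, hyx, inv_mul_cancel]
    · exact mul_mem (inv_mem (hL₁C hy)) hx.2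
  have hperf : ⁅L₁, L₁⁆ = L₁ := by
    apply le_antisymm (commutator_le_left L₁ L₁)
    conv_lhs => rw [hL₁]
    rw [commutator_le]
    intro x hx y hy
    obtain ⟨x', hx', n, hn, hnC, rfl⟩ := hdec x hx
    obtain ⟨y', hy', m, hm, hmC, rfl⟩ := hdec y hy
    have e1 : n * y' = y' * n := (mem_centralizer_iff.mp (hL₁C hy') n hn)
    have e2 : n * m = m * n := (mem_centralizer_iff.mp hmC n hn)
    have e3 : m * x' = x' * m := (mem_centralizer_iff.mp (hL₁C hx') m hm)
    have h1 : ⁅x' * n, y' * m⁆ = ⁅x', y'⁆ := by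
      have hn1 : Commute n (y' * m) := (show Commute n y' from e1).mul_right e2
      have hm1 : Commute m x' := e3
      rw [commutatorElement_def, commutatorElement_def, mul_inv_rev, mul_inv_rev]
      calc x' * n * (y' * m) * (n⁻¹ * x'⁻¹) * (m⁻¹ * y'⁻¹)
          = x' * (n * (y' * m)) * n⁻¹ * x'⁻¹ * (m⁻¹ * y'⁻¹) := by group
        _ = x' * ((y' * m) * n) * n⁻¹ * x'⁻¹ * (m⁻¹ * y'⁻¹) := by rw [hn1.eq]
        _ = x' * y' * (m * x'⁻¹) * m⁻¹ * y'⁻¹ := by group
        _ = x' * y' * (x'⁻¹ * m) * m⁻¹ * y'⁻¹ := by rw [hm1.inv_right.eq]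
        _ = x' * y' * x'⁻¹ * y'⁻¹ := by group
    rw [h1]
    exact commutator_mem_commutator hx' hy'
  have hL₁p : Group.IsPerfect ↥L₁ := isPerfect_of_commutator hperf
  -- the 2-group
  set A := (S : Subgroup G) ⊓ Q.comap π with hA
  have hAm : A.map π = Q := by
    apply le_antisymm
    · rintro _ ⟨x, hx, rfl⟩
      exact hx.2
    · intro q hq
      obtain ⟨s, hs, rfl⟩ := hQS hq
      exact ⟨s, ⟨hs, hq⟩, rfl⟩
  have hAC : A ≤ C := inf_le_left.trans hSN
  -- an element of `N` which is a 2-element is trivial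
  have hN1 : ∀ n ∈ N, ∀ k : ℕ, n ^ 2 ^ k = 1 → n = 1 := by
    intro n hn k hk
    have h4 : orderOf n ∣ Nat.card ↥N := by
      rw [← Subgroup.orderOf_mk _ hn]
      exact orderOf_dvd_natCard _
    have h5 := Nat.dvd_gcd (orderOf_dvd_of_pow_eq_one hk) h4
    rw [Nat.Coprime.gcd_eq_one (Nat.Coprime.pow_left k (Nat.coprime_two_left.mpr hodd))] at h5
    exact orderOf_eq_one_iff.mp (Nat.dvd_one.mp h5)
  have hAn : A.Normal := by
    refine ⟨fun a ha g => ?_⟩
    have hx : π (g * a * g⁻¹) ∈ A.map π := by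
      rw [hAm, map_mul, map_mul, map_inv]
      exact hQ.conj_mem _ ha.2 _
    obtain ⟨b, hb, hbx⟩ := hx
    set n := b⁻¹ * (g * a * g⁻¹) with hn
    have hnN : n ∈ N := by
      rw [hN, MonoidHom.mem_ker, hn, map_mul, map_inv, hbx, inv_mul_cancel]
    have hbn : b * n = n * b := (mem_centralizer_iff.mp (hAC hb) n hnN).symm
    obtain ⟨k, hk⟩ := S.isPGroup' ⟨a, ha.1⟩
    obtain ⟨j, hj⟩ := S.isPGroup' ⟨b, hb.1⟩
    have hk' : a ^ 2 ^ k = 1 := congrArg Subtype.val hk
    have hj' : b ^ 2 ^ j = 1 := congrArg Subtype.val hj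
    have h1 : g * a * g⁻¹ = b * n := by rw [hn]; group
    have h2 : (g * a * g⁻¹) ^ 2 ^ (k + j) = 1 := by
      rw [conj_pow, pow_add, pow_mul, hk', one_pow, mul_one, mul_inv_cancel]
    have h3 : (b * n) ^ 2 ^ (k + j) = b ^ 2 ^ (k + j) * n ^ 2 ^ (k + j) := (show Commute b n from hbn).mul_pow _
    have h4 : b ^ 2 ^ (k + j) = 1 := by rw [add_comm, pow_add, pow_mul, hj', one_pow]
    rw [h1, h3, h4, one_mul] at h2
    rw [h1, hN1 n hnN _ h2, mul_one]
    exact hb
  have hcomm : ∀ a ∈ A, ∀ l ∈ L₁, a * l = l * a := by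
    have h1 : ⁅⁅A, L₁⁆, L₁⁆ = ⊥ := by
      rw [commutator_eq_bot_iff_le_centralizer]
      have h2 : ⁅A, L₁⁆ ≤ N := by
        rw [commutator_le]
        intro a ha l hl
        rw [hN, MonoidHom.mem_ker, map_commutatorElement, commutatorElement_eq_one_iff_mul_comm]
        have hl' : π l ∈ L := by rw [← hL₁m]; exact ⟨l, hl, rfl⟩
        exact (hQL _ hl' _ ha.2).symm
      intro x hx
      rw [mem_centralizer_iff]
      intro l hl
      exact (mem_centralizer_iff.mp (hL₁C hl) x (h2 hx)).symm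
    have h2 := Components.commutator_eq_bot_of_commutator_commutator_eq_bot hL₁p h1
    intro a ha l hl
    rw [← commutatorElement_eq_one_iff_mul_comm]
    have h3 : ⁅a, l⁆ ∈ ⁅A, L₁⁆ := commutator_mem_commutator ha hl
    rw [h2, mem_bot] at h3
    exact h3
  have hMn : (A ⊔ L₁).Normal := inferInstance
  have hSM : (S : Subgroup G) ≤ A ⊔ L₁ := by
    intro s hs
    have h1 : π s ∈ (A ⊔ L₁).map π := by
      rw [Subgroup.map_sup, hAm, hL₁m, sup_comm]
      exact hS ⟨s, hs, rfl⟩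
    obtain ⟨y, hy, hys⟩ := h1
    -- `c := y⁻¹ s` up to order
    obtain ⟨k, hk⟩ := S.isPGroup' ⟨s, hs⟩
    have hn : y⁻¹ * s ∈ N := by rw [hN, MonoidHom.mem_ker, map_mul, map_inv, hys, inv_mul_cancel]
    have hord : (y⁻¹ * s) ^ Nat.card ↥N = 1 := by
      have h2 : (⟨y⁻¹ * s, hn⟩ : ↥N) ^ Nat.card ↥N = 1 := pow_card_eq_one'
      exact congrArg Subtype.val h2
    refine ThmD.mem_of_odd (L := A ⊔ L₁) (s := s) (c := y⁻¹ * s) (congrArg Subtype.val hk) hodd hord ?_
    have h2 : s * (y⁻¹ * s)⁻¹ = y := by group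
    rw [h2]
    exact hy
  -- the homomorphism onto `L/Z(L)`
  have hL₁L : ∀ x : ↥L₁, π x ∈ L := fun x => by rw [← hL₁m]; exact ⟨x, x.2, rfl⟩
  let f₁ : ↥L₁ →* ↥L := (π.comp L₁.subtype).codRestrict L hL₁L
  have hf₁ : Function.Surjective f₁ := by
    rintro ⟨l, hl⟩
    have h1 : l ∈ L₁.map π := by rw [hL₁m]; exact hl
    obtain ⟨x, hx, hxl⟩ := h1
    exact ⟨⟨x, hx⟩, Subtype.ext hxl⟩
  refine ⟨L₁, A, hL₁n, hAn, hL₁p, inf_le_left, hAm, hcomm, hSM,
    (QuotientGroup.mk' (center ↥L)).comp f₁, (QuotientGroup.mk'_surjective _).comp hf₁, ?_⟩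
  ext x
  rw [MonoidHom.mem_ker, MonoidHom.comp_apply]
  show (QuotientGroup.mk (f₁ x) : ↥L ⧸ center ↥L) = 1 ↔ _
  rw [QuotientGroup.eq_one_iff, mem_center_iff, mem_center_iff]
  constructor
  · intro h1
    have h2 : ⁅⁅zpowers (x : G), L₁⁆, L₁⁆ = ⊥ := by
      rw [commutator_eq_bot_iff_le_centralizer]
      have h3 : ⁅zpowers (x : G), L₁⁆ ≤ N := by
        rw [commutator_le]
        intro a ha l hl
        rw [hN, MonoidHom.mem_ker, map_commutatorElement, commutatorElement_eq_one_iff_commute]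
        obtain ⟨k, rfl⟩ := mem_zpowers_iff.mp ha
        rw [map_zpow]
        have h4 : Commute (π x) (π l) := by
          have h5 := h1 (f₁ ⟨l, hl⟩)
          exact (congrArg Subtype.val h5).symm
        exact h4.zpow_left k
      intro y hy
      rw [mem_centralizer_iff]
      intro l hl
      exact (mem_centralizer_iff.mp (hL₁C hl) y (h3 hy)).symm
    have h3 := Components.commutator_eq_bot_of_commutator_commutator_eq_bot hL₁p h2
    intro y
    apply Subtype.ext
    have h4 : ⁅(x : G), (y : G)⁆ ∈ ⁅zpowers (x : G), L₁⁆ := commutator_mem_commutator (mem_zpowers _) y.2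
    rw [h3, mem_bot, commutatorElement_eq_one_iff_mul_comm] at h4
    exact h4.symm
  · intro h1 l
    obtain ⟨y, rfl⟩ := hf₁ l
    rw [← map_mul, ← map_mul, h1 y]

end Cfsg.Agent.H304.Lift
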