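import Mathlib
import Cfsg.Agent.S0016
import Cfsg.Agent.S0058
import Cfsg.Agent.Involutions.NormalFour
import Cfsg.Agent.H304.CIHered

/-!
# A Sylow 2-subgroup acting on a normal subgroup of odd order
-/

set_option autoImplicit false

namespace Cfsg.Agent.H304.OddAct

open Subgroup Cfsg.Agent.H304.CIBasic
open scoped commutatorElement

theorem eq_bot_of_klein {U : Type*} [Group U] [Finite U] (hU : Odd (Nat.card U)) {z t : MulAut U}
    (hz : z * z = 1) (ht : t * t = 1) (hzt : z * t = t * z) (hz1 : z ≠ 1) (ht1 : t ≠ 1) (hne : z ≠ t)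
    {F : Subgroup U} (hF : ∀ r : MulAut U, r = z ∨ r = t ∨ r = z * t → ∀ u : U, r u = u → u ∈ F) : F = ⊤ := by
  classical
  have hfin : Finite (MulAut U) := inferInstance
  let Γ := U ⋊[MonoidHom.id (MulAut U)] MulAut U
  have hΓ : Finite Γ := Finite.of_equiv (U × MulAut U) SemidirectProduct.equivProd.symm
  -- the four-group
  let V : Subgroup (MulAut U) :=
    { carrier := {r | r = 1 ∨ r = z ∨ r = t ∨ r = z * t}
      mul_mem' := by
        rintro a b (rfl | rfl | rfl | rfl) (rfl | rfl | rfl | rfl)
        · left; exact one_mul 1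
        · right; left; exact one_mul _
        · right; right; left; exact one_mul _
        · right; right; right; exact one_mul _
        · right; left; exact mul_one _
        · left; exact hz
        · right; right; right; rfl
        · right; right; left; rw [← mul_assoc, hz, one_mul]
        · right; right; left; exact mul_one _
        · right; right; right; exact hzt.symm
        · left; exact ht
        · right; left; rw [hzt, ← mul_assoc, ht, one_mul]
        · right; right; right; exact mul_one _
        · right; right; left; rw [hzt, mul_assoc, hz, mul_one]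
        · right; left; rw [mul_assoc, ht, mul_one]
        · left
          calc z * t * (z * t) = z * (t * z) * t := by group
            _ = z * (z * t) * t := by rw [hzt]
            _ = (z * z) * (t * t) := by group
            _ = 1 := by rw [hz, ht, one_mul]
      one_mem' := Or.inl rfl
      inv_mem' := by
        have hzi : z⁻¹ = z := inv_eq_of_mul_eq_one_left hz
        have hti : t⁻¹ = t := inv_eq_of_mul_eq_one_left ht
        rintro a (rfl | rfl | rfl | rfl)
        · left; exact inv_one
        · right; left; exact hzi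
        · right; right; left; exact hti
        · right; right; right; rw [mul_inv_rev, hzi, hti, hzt] }
  have hVsq : ∀ r ∈ V, r * r = 1 := by
    rintro r (rfl | rfl | rfl | rfl)
    · exact one_mul 1
    · exact hz
    · exact ht
    · calc z * t * (z * t) = z * (t * z) * t := by group
        _ = z * (z * t) * t := by rw [hzt]
        _ = (z * z) * (t * t) := by group
        _ = 1 := by rw [hz, ht, one_mul]
  have hVcomm : ∀ r ∈ V, ∀ s ∈ V, r * s = s * r := by
    intro r hr s hs
    have h1 := hVsq _ (V.mul_mem hr hs)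
    have h2 := hVsq r hr
    have h3 := hVsq s hs
    calc r * s = r * s * 1 * 1 := by group
      _ = r * s * (s * s) * (r * r) := by rw [h2, h3]
      _ = r * (s * s) * (s * r) * r := by group
      _ = r * (s * r) * r := by rw [h3, mul_one]
      _ = r * s * (r * s) * s⁻¹ * r := by group
      _ = s⁻¹ * r := by rw [h1, one_mul]
      _ = s * r := by rw [inv_eq_of_mul_eq_one_left h3]
  set A : Subgroup Γ := V.map (SemidirectProduct.inr : MulAut U →* Γ) with hA
  set K : Subgroup Γ := (SemidirectProduct.inl : U →* Γ).range with hK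
  have hinr : Function.Injective (SemidirectProduct.inr : MulAut U →* Γ) := SemidirectProduct.inr_injective
  have hinl : Function.Injective (SemidirectProduct.inl : U →* Γ) := SemidirectProduct.inl_injective
  have hAc : IsMulCommutative ↥A := by
    refine ⟨⟨?_⟩⟩
    rintro ⟨_, r, hr, rfl⟩ ⟨_, s, hs, rfl⟩
    apply Subtype.ext
    show SemidirectProduct.inr r * SemidirectProduct.inr s = SemidirectProduct.inr s * SemidirectProduct.inr r
    rw [← map_mul, ← map_mul, hVcomm r hr s hs]
  have hcardA : Nat.card ↥A = Nat.card ↥V := Subgroup.card_map_of_injective hinr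
  have hVcard : Nat.card ↥V = 4 := by
    have h1 : (V : Set (MulAut U)) = {1, z, t, z * t} := by
      ext r
      show (r = 1 ∨ r = z ∨ r = t ∨ r = z * t) ↔ _
      simp
    have h2 : Nat.card ↥V = Set.ncard ({1, z, t, z * t} : Set (MulAut U)) := by
      rw [← h1]; rfl
    have hzt1 : z * t ≠ 1 := by
      intro h3
      apply hne
      calc z = z * (t * t) := by rw [ht, mul_one]
        _ = (z * t) * t := by group
        _ = t := by rw [h3, one_mul]
    have hztz : z ≠ z * t := by
      intro h3
      exact ht1 (mul_left_cancel (a := z) (by rw [← h3, mul_one]))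
    have hztt : t ≠ z * t := by
      intro h3
      exact hz1 (mul_right_cancel (b := t) (by rw [← h3, one_mul]))
    rw [h2, Set.ncard_insert_of_notMem (by simp [hz1.symm, ht1.symm, hzt1.symm]),
      Set.ncard_insert_of_notMem (by simp [hne, hztz]), Set.ncard_pair hztt]
  have hAcyc : ¬ IsCyclic ↥A := by
    intro hc
    obtain ⟨⟨g, hg⟩, hgen⟩ := hc.exists_generator
    have h1 : (⟨g, hg⟩ : ↥A) * ⟨g, hg⟩ = 1 := by
      obtain ⟨r, hr, rfl⟩ := hg
      apply Subtype.ext
      show SemidirectProduct.inr r * SemidirectProduct.inr r = 1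
      rw [← map_mul, hVsq r hr, map_one]
    have h2 : Nat.card ↥A ≤ 2 := by
      have h3 := orderOf_eq_card_of_forall_mem_zpowers hgen
      rw [← h3]
      exact Nat.le_of_dvd (by norm_num) (orderOf_dvd_of_pow_eq_one (by rw [pow_two, h1]))
    rw [hcardA, hVcard] at h2
    omega
  have hKcard : Nat.card ↥K = Nat.card U := (Nat.card_congr (MonoidHom.ofInjective hinl).toEquiv).symm
  have hKn : K.Normal := by
    rw [hK, SemidirectProduct.range_inl_eq_ker_rightHom]
    infer_instance
  have hAK : A ≤ normalizer (K : Set Γ) := by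
    rw [normalizer_eq_top_iff.mpr hKn]; exact le_top
  have hcop : (Nat.card ↥A).Coprime (Nat.card ↥K) := by
    rw [hcardA, hVcard, hKcard]
    exact Nat.Coprime.pow_left 2 (Nat.coprime_two_left.mpr hU)
  have hgen := Cfsg.Agent.S0058.result A K hAcyc hAK hcop
  rw [eq_top_iff]
  intro u _
  have h1 : K ≤ F.map (SemidirectProduct.inl : U →* Γ) := by
    rw [← hgen]
    refine iSup₂_le ?_
    rintro _ ⟨⟨r, hr, rfl⟩, hr1⟩
    rintro _ ⟨⟨v, rfl⟩, hv⟩
    refine ⟨v, ?_, rfl⟩
    have hr' : r = z ∨ r = t ∨ r = z * t := by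
      rcases hr with h2 | h2
      · exfalso; apply hr1; rw [h2, map_one]
      · exact h2
    refine hF r hr' v ?_
    have h2 : (SemidirectProduct.inr r : Γ) * SemidirectProduct.inl v =
        SemidirectProduct.inl v * SemidirectProduct.inr r := mem_centralizer_iff.mp hv _ rfl
    have h3 : (SemidirectProduct.inl (r v) : Γ) = SemidirectProduct.inl v := by
      have h4 := SemidirectProduct.inl_aut (φ := MonoidHom.id (MulAut U)) r v
      have h5 : (SemidirectProduct.inl (r v) : Γ) =
          SemidirectProduct.inr r * SemidirectProduct.inl v * SemidirectProduct.inr r⁻¹ := h4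
      rw [h5, h2, map_inv, mul_assoc, mul_inv_cancel, mul_one]
    exact hinl h3
  obtain ⟨v, hv, hvu⟩ := h1 ⟨u, rfl⟩
  rw [← hinl hvu]
  exact hv

/-- A 2-group `R` of automorphisms of an odd order group `U` such that all nontrivial elements of `R` have their
fixed points fixed by all of `R` has at most one involution. -/
theorem unique_involution {U : Type*} [Group U] [Finite U] (hU : Odd (Nat.card U)) (R : Subgroup (MulAut U))
    (hR : IsPGroup 2 ↥R) (hfix : ∀ r ∈ R, r ≠ 1 → ∀ u : U, r u = u → ∀ s ∈ R, s u = u) :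
    ∀ H K : Subgroup ↥R, Nat.card H = 2 → Nat.card K = 2 → H = K := by
  have : Fact (Nat.Prime 2) := ⟨Nat.prime_two⟩
  have hgen : ∀ H : Subgroup ↥R, Nat.card H = 2 → ∃ h : ↥R, orderOf h = 2 ∧ H = zpowers h := by
    intro H hH
    have hnt : Nontrivial ↥H := by
      apply Finite.one_lt_card_iff_nontrivial.mp
      rw [hH]; norm_num
    obtain ⟨x, hx⟩ := exists_ne (1 : ↥H)
    have h1 : orderOf x = 2 := by
      have h2 : orderOf x ∣ 2 := by rw [← hH]; exact orderOf_dvd_natCard x
      rcases (Nat.dvd_prime Nat.prime_two).mp h2 with h3 | h3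
      · exact absurd (orderOf_eq_one_iff.mp h3) hx
      · exact h3
    refine ⟨x, by rw [Subgroup.orderOf_coe, h1], ?_⟩
    have h3 : zpowers (x : ↥R) ≤ H := by rw [zpowers_le]; exact x.2
    refine (Subgroup.eq_of_le_of_card_ge h3 ?_).symm
    rw [hH, Nat.card_zpowers, Subgroup.orderOf_coe, h1]
  -- all involutions are equal to a central one
  have huniq : ∀ h k : ↥R, orderOf h = 2 → orderOf k = 2 → h = k := by
    intro h k hh hk
    have hRne : (⊤ : Subgroup ↥R) ≠ ⊥ := by
      intro h0
      have h1 : h ∈ (⊥ : Subgroup ↥R) := by rw [← h0]; exact mem_top h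
      rw [mem_bot] at h1
      rw [h1, orderOf_one] at hh
      omega
    obtain ⟨z, -, hzc, hzo⟩ := Cfsg.Agent.Involutions.NormalFour.exists_mem_center_of_normal hR ⊤ hRne
    have key : ∀ t : ↥R, orderOf t = 2 → z = t := by
      intro t ht
      by_contra hne
      have hz2 : z * z = 1 := by rw [← pow_two, ← hzo]; exact pow_orderOf_eq_one z
      have ht2 : t * t = 1 := by rw [← pow_two, ← ht]; exact pow_orderOf_eq_one t
      have hz1 : z ≠ 1 := by rintro rfl; rw [orderOf_one] at hzo; omega
      have ht1 : t ≠ 1 := by rintro rfl; rw [orderOf_one] at ht; omega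
      have hzt : z * t = t * z := (mem_center_iff.mp hzc t).symm
      let F : Subgroup U :=
        { carrier := {u | ∀ s ∈ R, s u = u}
          mul_mem' := fun {a b} ha hb s hs => by rw [map_mul, ha s hs, hb s hs]
          one_mem' := fun s _ => map_one s
          inv_mem' := fun {a} ha s hs => by rw [map_inv, ha s hs] }
      have hF : F = ⊤ := by
        refine eq_bot_of_klein hU (z := z) (t := t) (congrArg Subtype.val hz2) (congrArg Subtype.val ht2)
          (congrArg Subtype.val hzt) (fun h1 => hz1 (Subtype.ext h1)) (fun h1 => ht1 (Subtype.ext h1))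
          (fun h1 => hne (Subtype.ext h1)) ?_
        intro r hr u hu
        have hrR : r ∈ R ∧ r ≠ 1 := by
          rcases hr with rfl | rfl | rfl
          · exact ⟨z.2, fun h1 => hz1 (Subtype.ext h1)⟩
          · exact ⟨t.2, fun h1 => ht1 (Subtype.ext h1)⟩
          · refine ⟨mul_mem z.2 t.2, fun h1 => hne ?_⟩
            have h2 : z * t = 1 := Subtype.ext h1
            calc z = z * (t * t) := by rw [ht2, mul_one]
              _ = (z * t) * t := by group
              _ = t := by rw [h2, one_mul]
        exact hfix r hrR.1 hrR.2 u hu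
      apply hz1
      apply Subtype.ext
      apply MulEquiv.ext
      intro u
      have hu : u ∈ F := by rw [hF]; exact mem_top u
      exact hu z z.2
    rw [← key h hh, ← key k hk]
  intro H K hH hK
  obtain ⟨h, hh, rfl⟩ := hgen H hH
  obtain ⟨k, hk, rfl⟩ := hgen K hK
  rw [huniq h k hh hk]

/-- Commutative quotients of quaternion groups have order at most 4. -/
theorem card_le_four {m : ℕ} [NeZero m] {A : Type*} [Group A] (hA : ∀ a b : A, a * b = b * a) (f : QuaternionGroup m →* A)
    (hf : Function.Surjective f) : Nat.card A ≤ 4 := by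
  set α := f (QuaternionGroup.a 1) with hα
  set ξ := f (QuaternionGroup.xa 0) with hξ
  have hα2 : α * α = 1 := by
    have h1 : (QuaternionGroup.a 1 : QuaternionGroup m) * QuaternionGroup.xa 0 * QuaternionGroup.a 1 =
        QuaternionGroup.xa 0 := by
      rw [QuaternionGroup.a_mul_xa, QuaternionGroup.xa_mul_a]
      congr 1
      ring
    have h2 : α * ξ * α = ξ := by
      rw [hα, hξ, ← map_mul, ← map_mul, h1]
    have h3 : α * α * ξ = 1 * ξ := by
      rw [mul_assoc, hA α ξ, ← mul_assoc, h2, one_mul]
    exact mul_right_cancel h3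
  have hai : ∀ i : ZMod (2 * m), f (QuaternionGroup.a i) = 1 ∨ f (QuaternionGroup.a i) = α := by
    intro i
    have h1 : QuaternionGroup.a i = (QuaternionGroup.a 1 : QuaternionGroup m) ^ i.val := by
      rw [QuaternionGroup.a_one_pow, ZMod.natCast_zmod_val]
    rw [h1, map_pow]
    rcases Nat.even_or_odd' i.val with ⟨k, hk | hk⟩
    · left
      rw [hk, pow_mul, pow_two, ← hα, hα2, one_pow]
    · right
      rw [hk, pow_add, pow_mul, pow_two, ← hα, hα2, one_pow, one_mul, pow_one]
  let g : Bool × Bool → A := fun p => (if p.1 then ξ else 1) * (if p.2 then α else 1)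
  have hg : Function.Surjective g := by
    intro y
    obtain ⟨x, rfl⟩ := hf y
    cases x with
    | a i =>
      rcases hai i with h | h
      · exact ⟨(false, false), by simp [g, h]⟩
      · exact ⟨(false, true), by simp [g, h]⟩
    | xa i =>
      have h1 : (QuaternionGroup.xa i : QuaternionGroup m) = QuaternionGroup.xa 0 * QuaternionGroup.a i := by
        rw [QuaternionGroup.xa_mul_a, zero_add]
      rw [h1, map_mul]
      rcases hai i with h | h
      · exact ⟨(true, false), by simp [g, h, hξ]⟩
      · exact ⟨(true, true), by simp [g, h, hξ]⟩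
  have h1 := Nat.card_le_card_of_surjective g hg
  have h2 : Nat.card (Bool × Bool) = 4 := by
    rw [Nat.card_eq_fintype_card]; rfl
  omega

/-- **The Sylow 2-subgroup centralises normal subgroups of odd order** if `S/Z(S)` has a commutative quotient
which is not cyclic and of order greater than 4. -/
theorem le_centralizer {G : Type*} [Group G] [Finite G] (h : CI 2 G) (S : Sylow 2 G) {N : Subgroup G}
    [hNn : N.Normal] (hN : Odd (Nat.card ↥N)) {A : Type*} [Group A] (ψ : ↥(S : Subgroup G) →* A)
    (hψ : Function.Surjective ψ) (hA : ∀ a b : A, a * b = b * a) (hcard : 4 < Nat.card A)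
    (hker : center ↥(S : Subgroup G) ≤ ψ.ker) (hncyc : ¬ IsCyclic A) :
    (S : Subgroup G) ≤ centralizer (N : Set G) := by
  classical
  have : Fact (Nat.Prime 2) := ⟨Nat.prime_two⟩
  by_contra hcon
  -- elements normalising `S` in `N` centralise `S`
  have hNS : ∀ u ∈ N, u ∈ normalizer ((S : Subgroup G) : Set G) → ∀ s ∈ (S : Subgroup G), s * u = u * s := by
    intro u hu huS s hs
    have h1 : s * u * s⁻¹ * u⁻¹ ∈ (S : Subgroup G) := by
      have h2 : u * s⁻¹ * u⁻¹ ∈ (S : Subgroup G) := (mem_normalizer_iff.mp huS _).mp (inv_mem hs)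
      have h3 : s * u * s⁻¹ * u⁻¹ = s * (u * s⁻¹ * u⁻¹) := by group
      rw [h3]
      exact mul_mem hs h2
    have h2 : s * u * s⁻¹ * u⁻¹ ∈ N := mul_mem (hNn.conj_mem u hu s) (inv_mem hu)
    obtain ⟨k, hk⟩ := S.isPGroup' ⟨_, h1⟩
    have h3 : (s * u * s⁻¹ * u⁻¹) ^ 2 ^ k = 1 := congrArg Subtype.val hk
    have h4 : orderOf (s * u * s⁻¹ * u⁻¹) ∣ Nat.card ↥N := by
      rw [← Subgroup.orderOf_mk _ h2]
      exact orderOf_dvd_natCard _
    have h5 := Nat.dvd_gcd (orderOf_dvd_of_pow_eq_one h3) h4
    rw [Nat.Coprime.gcd_eq_one (Nat.Coprime.pow_left k (Nat.coprime_two_left.mpr hN))] at h5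
    have h6 := orderOf_eq_one_iff.mp (Nat.dvd_one.mp h5)
    calc s * u = (s * u * s⁻¹ * u⁻¹) * (u * s) := by group
      _ = u * s := by rw [h6, one_mul]
  let 𝒰 : Set (Subgroup G) := {U | U ≤ N ∧ (S : Subgroup G) ≤ normalizer (U : Set G) ∧
    ¬ (S : Subgroup G) ≤ centralizer (U : Set G)}
  have hN𝒰 : N ∈ 𝒰 := ⟨le_rfl, by rw [normalizer_eq_top_iff.mpr hNn]; exact le_top, hcon⟩
  obtain ⟨U, ⟨hUN, hSU, hUc⟩, hmin⟩ := (Set.toFinite 𝒰).exists_minimal ⟨N, hN𝒰⟩
  have hUodd : Odd (Nat.card ↥U) := Odd.of_dvd_nat hN (Subgroup.card_dvd_of_le hUN)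
  let φ : ↥(S : Subgroup G) →* MulAut ↥U := U.normalizerMonoidHom.comp (Subgroup.inclusion hSU)
  have hφ : ∀ (s : ↥(S : Subgroup G)) (u : ↥U), ((φ s u : ↥U) : G) = (s : G) * u * (s : G)⁻¹ := fun s u => rfl
  have hφfix : ∀ (s : ↥(S : Subgroup G)) (u : ↥U), φ s u = u ↔ (s : G) * u = u * s := by
    intro s u
    rw [Subtype.ext_iff, hφ, mul_inv_eq_iff_eq_mul]
  have hR : IsPGroup 2 ↥φ.range := S.isPGroup'.of_surjective φ.rangeRestrict φ.rangeRestrict_surjective
  have hfix : ∀ r ∈ φ.range, r ≠ 1 → ∀ u : ↥U, r u = u → ∀ s ∈ φ.range, s u = u := by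
    rintro _ ⟨s, rfl⟩ hs1 u hu _ ⟨s', rfl⟩
    rw [hφfix] at hu ⊢
    by_cases hsc : (s : G) ∈ ctr (S : Subgroup G)
    · -- the fixed points of `s` are `S`-invariant
      have hscc := (mem_ctr.mp hsc).2
      let W : Subgroup G := U ⊓ centralizer ({(s : G)} : Set G)
      have hWm : ∀ w : G, w ∈ W ↔ w ∈ U ∧ (s : G) * w = w * s := by
        intro w
        show w ∈ U ∧ w ∈ centralizer ({(s : G)} : Set G) ↔ _
        rw [mem_centralizer_iff]
        simp
      have hSW : (S : Subgroup G) ≤ normalizer (W : Set G) := by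
        have key : ∀ t ∈ (S : Subgroup G), ∀ w ∈ W, t * w * t⁻¹ ∈ W := by
          intro t ht w hw
          rw [hWm] at hw ⊢
          refine ⟨(mem_normalizer_iff.mp (hSU ht) w).mp hw.1, ?_⟩
          have h1 : t * (s : G) = s * t := hscc t ht
          have h2 : t⁻¹ * (s : G) = s * t⁻¹ := hscc t⁻¹ (inv_mem ht)
          calc (s : G) * (t * w * t⁻¹) = (s * t) * w * t⁻¹ := by group
            _ = (t * s) * w * t⁻¹ := by rw [h1]
            _ = t * (s * w) * t⁻¹ := by group
            _ = t * (w * s) * t⁻¹ := by rw [hw.2]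
            _ = t * w * (s * t⁻¹) := by group
            _ = t * w * (t⁻¹ * s) := by rw [h2]
            _ = t * w * t⁻¹ * s := by group
        intro t ht
        rw [mem_normalizer_iff]
        intro w
        constructor
        · exact fun hw => key t ht w hw
        · intro hw
          have h1 := key t⁻¹ (inv_mem ht) _ hw
          have h2 : t⁻¹ * (t * w * t⁻¹) * t⁻¹⁻¹ = w := by group
          rwa [h2] at h1
      have hWc : (S : Subgroup G) ≤ centralizer (W : Set G) := by
        by_contra hWc
        have hW𝒰 : W ∈ 𝒰 := ⟨inf_le_left.trans hUN, hSW, hWc⟩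
        have h1 : U ≤ W := hmin hW𝒰 inf_le_left
        apply hs1
        apply MulEquiv.ext
        intro v
        exact (hφfix s v).mpr (((hWm v).mp (h1 v.2)).2)
      have huW : (u : G) ∈ W := (hWm _).mpr ⟨u.2, hu⟩
      exact (mem_centralizer_iff.mp (hWc s'.2) u huW).symm
    · have h1 : (u : G) ∈ centralizer ({(s : G)} : Set G) := by
        rw [mem_centralizer_iff]
        rintro _ rfl
        exact hu
      exact hNS u (hUN u.2) (CIHered.centralizer_le h s.2 hsc h1) s' s'.2
  have hkerφ : φ.ker ≤ ψ.ker := by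
    intro s hs
    by_cases hsc : (s : G) ∈ ctr (S : Subgroup G)
    · apply hker
      obtain ⟨y, hy, hys⟩ := hsc
      have h1 : y = s := Subtype.ext hys
      rw [← h1]; exact hy
    · exfalso
      apply hUc
      intro t ht
      rw [mem_centralizer_iff]
      intro u hu
      have h1 : (s : G) * u = u * s := by
        have h2 : φ s ⟨u, hu⟩ = ⟨u, hu⟩ := by
          rw [MonoidHom.mem_ker.mp hs]; rfl
        exact (hφfix s ⟨u, hu⟩).mp h2
      have h2 : u ∈ centralizer ({(s : G)} : Set G) := by
        rw [mem_centralizer_iff]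
        rintro _ rfl
        exact h1
      exact (hNS u (hUN hu) (CIHered.centralizer_le h s.2 hsc h2) t ht).symm
  -- the induced map
  have hrs := φ.rangeRestrict_surjective
  have hker' : φ.rangeRestrict.ker ≤ ψ.ker := by rw [MonoidHom.ker_rangeRestrict]; exact hkerφ
  let g : ↥φ.range →* A := φ.rangeRestrict.liftOfSurjective hrs ⟨ψ, hker'⟩
  have hg : ∀ s, g (φ.rangeRestrict s) = ψ s := fun s =>
    MonoidHom.liftOfRightInverse_comp_apply _ _ (Function.rightInverse_surjInv hrs) ⟨ψ, hker'⟩ s
  have hgs : Function.Surjective g := by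
    intro a
    obtain ⟨s, rfl⟩ := hψ a
    exact ⟨_, hg s⟩
  rcases Cfsg.Agent.S0016.result 2 hR (unique_involution hUodd φ.range hR hfix) with hc | ⟨-, n, ⟨e⟩⟩
  · exact hncyc (isCyclic_of_surjective g hgs)
  · have h1 := card_le_four hA (g.comp e.symm.toMonoidHom) (hgs.comp e.symm.surjective)
    omega

end Cfsg.Agent.H304.OddAct
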