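import Mathlib
import Cfsg.Agent.S0279
import Cfsg.Agent.S2111
import Cfsg.Agent.H61.PSUMult
import Cfsg.Agent.H487.SchurPerfect
import Cfsg.Agent.H60.CoverMult
import Cfsg.Agent.LieClassical.HermPerfect

/-!
# Perfect central extensions of `PSU₃(2^n)` and of Suzuki groups
-/

set_option autoImplicit false

namespace Cfsg.Agent.H304.U3Cover

open Subgroup Cfsg

/-- A finite perfect central extension of `PSU₃(2^n)`, `n ≥ 2`, is `PSU₃(2^n)` or `SU₃(2^n)`. -/
theorem psu {J : Type*} [Group J] [Finite J] (hJ : commutator J = ⊤) {F : Type} [Field F] [Fintype F] {n : ℕ}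
    (hn : 2 ≤ n) (hF : Fintype.card F = 4 ^ n) (π : J →* PSU 3 F (2 ^ n)) (hπ : Function.Surjective π)
    (hker : π.ker ≤ center J) :
    Nonempty (J ≃* PSU 3 F (2 ^ n)) ∨ Nonempty (J ≃* ↥(SU 3 F (2 ^ n))) := by
  have hF' : Fintype.card F = (2 ^ n) ^ 2 := by
    rw [hF, ← pow_mul, mul_comm, pow_mul]; norm_num
  have hq : 2 ^ 2 ≤ 2 ^ n := Nat.pow_le_pow_right (by norm_num) hn
  have h3 : ¬ (3 = 3 ∧ 2 ^ n = 2) := by omega
  have hchar : CharP F 2 := by
    obtain ⟨p, a, hp, hch, hq', ha⟩ := Cfsg.Agent.LieClassical.HermBasic.exists_prime_pow hF'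
    have h2 : p = 2 := by
      have h4 : p ∣ 2 ^ n := by rw [hq']; exact dvd_pow_self p (by omega)
      exact (Nat.prime_dvd_prime_iff_eq hp Nat.prime_two).mp (hp.dvd_of_dvd_pow h4)
    rw [← h2]; exact hch
  have hperf : commutator (SU 3 F (2 ^ n)) = ⊤ :=
    Cfsg.Agent.LieClassical.HermPerfect.commutator_SU_eq_top hF' le_rfl h3
  have hM : HasCyclicSchurMultiplier ↥(SU 3 F (2 ^ n)) 1 := by
    refine Cfsg.Agent.H67.hasTrivial hperf fun p hp => ?_
    by_cases h2 : p = 2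
    · subst h2
      exact Cfsg.Agent.H61.PSUMult.noPCov_two hF' le_rfl h3 (by omega) (by omega)
    · exact Cfsg.Agent.H61.PSUMult.noPCov_cross hF' le_rfl Nat.prime_two hp h2
  set ρ := QuotientGroup.mk' (center ↥(SU 3 F (2 ^ n))) with hρ
  have hρs : Function.Surjective ρ := QuotientGroup.mk'_surjective _
  obtain ⟨η, hη⟩ := Cfsg.Agent.H487.exists_lift_of_trivial (P := ↥(SU 3 F (2 ^ n))) ⟨hperf⟩ hM ρ hπ hker
  have hηs : Function.Surjective η :=
    Cfsg.Agent.H60.CoverMult.surjective_of_comp hperf hρs ⟨hπ, hker, by rw [hJ]; exact le_top⟩ hη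
  have hkη : η.ker ≤ center ↥(SU 3 F (2 ^ n)) := by
    intro x hx
    rw [← QuotientGroup.ker_mk' (center ↥(SU 3 F (2 ^ n))), MonoidHom.mem_ker, ← hρ, ← hη,
      MonoidHom.comp_apply, MonoidHom.mem_ker.mp hx, map_one]
  have hcard := Cfsg.Agent.S0279.result hF' 3 le_rfl
  have hdvd : Nat.card ↥(center ↥(SU 3 F (2 ^ n))) ∣ 3 := by
    rw [hcard]; exact Nat.gcd_dvd_left _ _
  have hcase : η.ker = ⊥ ∨ η.ker = center ↥(SU 3 F (2 ^ n)) := by
    have h4 : Nat.card ↥η.ker ∣ Nat.card ↥(center ↥(SU 3 F (2 ^ n))) := Subgroup.card_dvd_of_le hkη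
    rcases (Nat.dvd_prime Nat.prime_three).mp (h4.trans hdvd) with h5 | h5
    · left; exact Subgroup.eq_bot_of_card_eq _ h5
    · right
      refine Subgroup.eq_of_le_of_card_ge hkη ?_
      rw [h5]
      exact Nat.le_of_dvd (by norm_num) hdvd
  rcases hcase with h4 | h4
  · right
    exact ⟨(MulEquiv.ofBijective η ⟨(MonoidHom.ker_eq_bot_iff η).mp h4, hηs⟩).symm⟩
  · left
    exact ⟨((QuotientGroup.quotientMulEquivOfEq h4).symm.trans
      (QuotientGroup.quotientKerEquivOfSurjective η hηs)).symm⟩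

/-- A finite perfect central extension of `Sz(q)`, `q > 8`, is `Sz(q)`. -/
theorem sz {J : Type*} [Group J] [Finite J] (hJ : commutator J = ⊤) {F : Type} [Field F] [Fintype F] {m : ℕ}
    (hm : 2 ≤ m) (hF : Fintype.card F = 2 ^ (2 * m + 1)) (π : J →* ↥(Cfsg.Lie.Sz F (2 ^ (m + 1))))
    (hπ : Function.Surjective π) (hker : π.ker ≤ center J) : Nonempty (J ≃* ↥(Cfsg.Lie.Sz F (2 ^ (m + 1)))) := by
  have hM := Cfsg.Agent.S2111.result hm hF
  have : Finite ↥(Cfsg.Lie.Sz F (2 ^ (m + 1))) := Finite.of_surjective π hπ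
  have hperf : commutator ↥(Cfsg.Lie.Sz F (2 ^ (m + 1))) = ⊤ :=
    Cfsg.Agent.KFacts.MulDef.commutator_top_of_surj π hπ hJ
  obtain ⟨η, hη⟩ := Cfsg.Agent.H487.exists_lift_of_trivial (P := ↥(Cfsg.Lie.Sz F (2 ^ (m + 1)))) ⟨hperf⟩ hM
    (MonoidHom.id _) hπ hker
  have hηs : Function.Surjective η :=
    Cfsg.Agent.H60.CoverMult.surjective_of_comp hperf (π := MonoidHom.id _) Function.surjective_id
      ⟨hπ, hker, by rw [hJ]; exact le_top⟩ hη
  have hηi : Function.Injective η := by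
    intro a b hab
    have h1 : (π.comp η) a = (π.comp η) b := by rw [MonoidHom.comp_apply, MonoidHom.comp_apply, hab]
    rwa [hη] at h1
  exact ⟨(MulEquiv.ofBijective η ⟨hηi, hηs⟩).symm⟩

end Cfsg.Agent.H304.U3Cover
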