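import Mathlib
import Cfsg.Agent.OddOrderLocal.PLengthSub
import Cfsg.Agent.H304.Struct
import Cfsg.Agent.H304.SL25
import Cfsg.Agent.H304.OddAct
import Cfsg.Agent.H304.Lift
import Cfsg.Agent.H304.U3Cover
import Cfsg.Agent.H304.Ident

/-!
# Groups with central Sylow 2-intersections: assembly
-/

set_option autoImplicit false

namespace Cfsg.Agent.H304.Final

open Subgroup Cfsg.Agent.H304.CIBasic
open scoped commutatorElement

section
variable {G : Type*} [Group G] [Finite G]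

/-- A subgroup containing a Sylow 2-subgroup has odd index. -/
theorem odd_index (S : Sylow 2 G) {M : Subgroup G} (h : (S : Subgroup G) ≤ M) : Odd M.index := by
  have : Fact (Nat.Prime 2) := ⟨Nat.prime_two⟩
  rw [← Nat.not_even_iff_odd, even_iff_two_dvd]
  intro h1
  exact S.not_dvd_index (h1.trans (Subgroup.index_dvd_of_le h))

theorem oddCore_odd : Odd (Nat.card ↥(Cfsg.oddCore G)) :=
  Nat.coprime_two_right.mp (Cfsg.Agent.Lib.Cores.pPrimeCore_coprime (G := G) 2)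

/-- The solvable case. -/
theorem solvable_case (S : Sylow 2 G) {π : G →* G ⧸ Cfsg.oddCore G} (hπ : π = QuotientGroup.mk' (Cfsg.oddCore G))
    (hn : ((S : Subgroup G).map π).Normal) : Group.IsSolvable G ∧ Cfsg.PLengthLE 2 1 G := by
  have : Fact (Nat.Prime 2) := ⟨Nat.prime_two⟩
  subst hπ
  set π := QuotientGroup.mk' (Cfsg.oddCore G) with hπ
  have hπs : Function.Surjective π := QuotientGroup.mk'_surjective _
  set Sb : Sylow 2 (G ⧸ Cfsg.oddCore G) := S.mapSurjective hπs with hSb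
  have hSbe : (Sb : Subgroup (G ⧸ Cfsg.oddCore G)) = (S : Subgroup G).map π := rfl
  constructor
  · rw [Group.isSolvable_iff_subgroup_quotient (Cfsg.oddCore G)]
    refine ⟨Cfsg.Agent.S0205.result oddCore_odd, ?_⟩
    have h1 := Struct.isSolvable_normalizer Sb
    have h2 : normalizer ((Sb : Subgroup (G ⧸ Cfsg.oddCore G)) : Set (G ⧸ Cfsg.oddCore G)) = ⊤ := by
      rw [normalizer_eq_top_iff, hSbe]; exact hn
    rw [h2] at h1
    exact Group.isSolvable_of_isSolvable_injective (f := (Subgroup.topEquiv (G := G ⧸ Cfsg.oddCore G)).symm.toMonoidHom)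
      (Subgroup.topEquiv (G := G ⧸ Cfsg.oddCore G)).symm.injective
  · rw [Cfsg.Agent.OddOrderLocal.PLengthSub.pLengthLE_one_iff]
    refine ⟨Cfsg.oddCore G, (Sb : Subgroup (G ⧸ Cfsg.oddCore G)).comap π, inferInstance, ?_, ?_,
      Cfsg.Agent.Lib.Cores.pPrimeCore_coprime (G := G) 2, ?_, ?_⟩
    · rw [hSbe]; exact hn.comap π
    · intro x hx
      show π x ∈ (Sb : Subgroup (G ⧸ Cfsg.oddCore G))
      have h1 : π x = 1 := (QuotientGroup.eq_one_iff x).mpr hx
      rw [h1]; exact one_mem _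
    · obtain ⟨n, hn'⟩ := IsPGroup.iff_card.mp Sb.isPGroup'
      refine ⟨n, ?_⟩
      rw [← hn']
      have h1 := Subgroup.relIndex_ker π (K := (Sb : Subgroup (G ⧸ Cfsg.oddCore G)).comap π)
      rw [Subgroup.map_comap_eq_self_of_surjective hπs, hπ, QuotientGroup.ker_mk'] at h1
      exact h1
    · rw [Subgroup.index_comap_of_surjective _ hπs]
      have h1 := Sb.not_dvd_index
      rw [Nat.coprime_two_right, ← Nat.not_even_iff_odd, even_iff_two_dvd]
      exact h1

omit [Finite G] in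
/-- The central product conclusion over `N`. -/
theorem central_product {N : Subgroup G} [hN : N.Normal] {L Q : Subgroup (G ⧸ N)} (hLQ : ∀ l ∈ L, ∀ q ∈ Q, l * q = q * l)
    (hQc : IsMulCommutative ↥Q) (hQp : IsPGroup 2 ↥Q) (e : ↥L ≃* Matrix.SpecialLinearGroup (Fin 2) (ZMod 5)) :
    ∃ A L' : Subgroup (↥((L ⊔ Q).comap (QuotientGroup.mk' N)) ⧸ N.subgroupOf ((L ⊔ Q).comap (QuotientGroup.mk' N))),
      IsMulCommutative ↥A ∧ IsPGroup 2 ↥A ∧
        Nonempty (↥L' ≃* Matrix.SpecialLinearGroup (Fin 2) (ZMod 5)) ∧ (∀ a ∈ A, ∀ l ∈ L', a * l = l * a) ∧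
        A ⊔ L' = ⊤ := by
  set M := (L ⊔ Q).comap (QuotientGroup.mk' N) with hM
  let ε : (↥M ⧸ N.subgroupOf M) →* G ⧸ N :=
    QuotientGroup.lift (N.subgroupOf M) ((QuotientGroup.mk' N).comp M.subtype) (by
      intro x hx
      exact (QuotientGroup.eq_one_iff (x : G)).mpr hx)
  have hεmk : ∀ x : ↥M, ε (QuotientGroup.mk x) = QuotientGroup.mk (x : G) := fun x => rfl
  have hε : Function.Injective ε := by
    rw [injective_iff_map_eq_one]
    intro y hy
    obtain ⟨x, rfl⟩ := QuotientGroup.mk_surjective y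
    rw [hεmk, QuotientGroup.eq_one_iff] at hy
    rw [QuotientGroup.eq_one_iff]
    exact hy
  have hεr : ∀ y : G ⧸ N, y ∈ L ⊔ Q → ∃ x, ε x = y := by
    intro y hy
    obtain ⟨g, rfl⟩ := QuotientGroup.mk_surjective y
    exact ⟨QuotientGroup.mk (⟨g, hy⟩ : ↥M), rfl⟩
  have hεr' : ∀ x, ε x ∈ L ⊔ Q := by
    intro x
    obtain ⟨x, rfl⟩ := QuotientGroup.mk_surjective x
    exact x.2
  have hmapL : (L.comap ε).map ε = L := by
    apply le_antisymm (map_comap_le _ _)
    intro l hl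
    obtain ⟨x, hx⟩ := hεr l (mem_sup_left hl)
    exact ⟨x, by rw [SetLike.mem_coe, mem_comap, hx]; exact hl, hx⟩
  have hmapQ : (Q.comap ε).map ε = Q := by
    apply le_antisymm (map_comap_le _ _)
    intro l hl
    obtain ⟨x, hx⟩ := hεr l (mem_sup_right hl)
    exact ⟨x, by rw [SetLike.mem_coe, mem_comap, hx]; exact hl, hx⟩
  refine ⟨Q.comap ε, L.comap ε, ?_, ?_, ?_, ?_, ?_⟩
  · refine ⟨⟨fun a b => Subtype.ext (hε ?_)⟩⟩
    have h1 := congrArg Subtype.val (hQc.is_comm.comm ⟨ε a, a.2⟩ ⟨ε b, b.2⟩)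
    show ε (a * b) = ε (b * a)
    rw [map_mul, map_mul]
    exact h1
  · exact hQp.comap_of_injective ε hε
  · exact ⟨(((L.comap ε).equivMapOfInjective ε hε).trans (MulEquiv.subgroupCongr hmapL)).trans e⟩
  · intro a ha l hl
    apply hε
    rw [map_mul, map_mul]
    exact (hLQ _ hl _ ha).symm
  · apply Subgroup.map_injective hε
    rw [Subgroup.map_sup, hmapL, hmapQ]
    apply le_antisymm
    · rw [sup_comm]
      intro y hy
      obtain ⟨x, hx⟩ := hεr y hy
      exact ⟨x, mem_top x, hx⟩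
    · rintro _ ⟨x, -, rfl⟩
      rw [sup_comm]
      exact hεr' x

omit [Finite G] in
theorem center_eq_bot {J : Type*} [Group J] (hJ : commutator J = ⊤) (hs : IsSimpleGroup J) : center J = ⊥ := by
  rcases IsSimpleGroup.eq_bot_or_eq_top_of_normal (center J) inferInstance with h | h
  · exact h
  · exfalso
    have h1 : commutator J = ⊥ := by
      rw [_root_.commutator_def, commutator_eq_bot_iff_le_centralizer]
      intro x _
      rw [mem_centralizer_iff]
      intro y _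
      exact mem_center_iff.mp (by rw [h]; exact mem_top x : x ∈ center J) y
    have h2 := hs.toNontrivial
    rw [hJ] at h1
    exact top_ne_bot h1

/-- The last alternative of the theorem. -/
def AltD (G : Type*) [Group G] : Prop :=
  ∃ (M : Subgroup G), M.Normal ∧ Odd M.index ∧ ∃ A L : Subgroup G, IsMulCommutative ↥A ∧ IsPGroup 2 ↥A ∧
      ((Cfsg.IsInternalDirectProduct A L M ∧
          ((∃ (m : ℕ) (F : Type) (_ : Field F) (_ : Fintype F), 1 ≤ m ∧ Fintype.card F = 2 ^ (2 * m + 1) ∧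
              Nonempty (↥L ≃* ↥(Cfsg.Lie.Sz F (2 ^ (m + 1))))) ∨
            (∃ (n : ℕ) (F : Type) (_ : Field F) (_ : Fintype F), 2 ≤ n ∧ Fintype.card F = 4 ^ n ∧
              (Nonempty (↥L ≃* Cfsg.PSU 3 F (2 ^ n)) ∨ Nonempty (↥L ≃* ↥(Cfsg.SU 3 F (2 ^ n))))))) ∨
        (A ≤ M ∧ L ≤ M ∧ (∀ a ∈ A, ∀ l ∈ L, a * l = l * a) ∧ A ⊔ L = M ∧ Group.IsPerfect ↥L ∧
          Subgroup.center ↥L ≠ ⊥ ∧
          ∃ (F : Type) (_ : Field F) (_ : Fintype F), Fintype.card F = 8 ∧
            Nonempty (↥L ⧸ Subgroup.center ↥L ≃* ↥(Cfsg.Lie.Sz F 4))))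

theorem altD (S : Sylow 2 G) {L₁ A : Subgroup G} [hL₁ : L₁.Normal] [hA : A.Normal] (hp : Group.IsPerfect ↥L₁)
    (hA2 : IsPGroup 2 ↥A) (hAc : IsMulCommutative ↥A) (hcomm : ∀ a ∈ A, ∀ l ∈ L₁, a * l = l * a)
    (hSM : (S : Subgroup G) ≤ A ⊔ L₁) {K : Type*} [Group K] [hKs : IsSimpleGroup K] (f : ↥L₁ →* K)
    (hf : Function.Surjective f) (hker : f.ker = center ↥L₁) (hK : Ident.Concl K) : AltD G := by
  have : Fact (Nat.Prime 2) := ⟨Nat.prime_two⟩
  have hL₁c : commutator ↥L₁ = ⊤ := hp.commutator_eq_top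
  -- the intersection
  have hdisj : Odd (Nat.card ↥(center ↥L₁)) → A ⊓ L₁ = ⊥ := by
    intro hodd
    rw [eq_bot_iff]
    rintro x ⟨hxA, hxL⟩
    have h1 : (⟨x, hxL⟩ : ↥L₁) ∈ center ↥L₁ := by
      rw [mem_center_iff]
      intro y
      exact Subtype.ext (hcomm x hxA y y.2).symm
    obtain ⟨k, hk⟩ := hA2 ⟨x, hxA⟩
    have hk' : x ^ 2 ^ k = 1 := congrArg Subtype.val hk
    have h2 : (⟨x, hxL⟩ : ↥L₁) ^ 2 ^ k = 1 := Subtype.ext hk'
    have h3 : orderOf (⟨x, hxL⟩ : ↥L₁) ∣ Nat.card ↥(center ↥L₁) := by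
      rw [← Subgroup.orderOf_mk _ h1]
      exact orderOf_dvd_natCard _
    have h4 := Nat.dvd_gcd (orderOf_dvd_of_pow_eq_one h2) h3
    rw [Nat.Coprime.gcd_eq_one (Nat.Coprime.pow_left k (Nat.coprime_two_left.mpr hodd))] at h4
    have h5 := orderOf_eq_one_iff.mp (Nat.dvd_one.mp h4)
    rw [mem_bot]
    exact congrArg Subtype.val h5
  have hprod : Odd (Nat.card ↥(center ↥L₁)) → Cfsg.IsInternalDirectProduct A L₁ (A ⊔ L₁) := fun hodd =>
    ⟨le_sup_left, le_sup_right, hcomm, hdisj hodd, rfl⟩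
  have hsimple : IsSimpleGroup ↥L₁ → Odd (Nat.card ↥(center ↥L₁)) := by
    intro hs
    rw [center_eq_bot hL₁c hs, card_bot]
    exact odd_one
  refine ⟨A ⊔ L₁, inferInstance, odd_index S hSM, A, L₁, hAc, hA2, ?_⟩
  rcases hK with ⟨m, F, i1, i2, hm, hF, ⟨e⟩⟩ | ⟨n, F, i1, i2, hn, hF, ⟨e⟩⟩
  · -- Suzuki groups
    have hg : Function.Surjective (e.toMonoidHom.comp f) := e.surjective.comp hf
    have hgker : (e.toMonoidHom.comp f).ker = center ↥L₁ := by
      rw [← hker]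
      ext x
      rw [MonoidHom.mem_ker, MonoidHom.mem_ker]
      show e (f x) = 1 ↔ f x = 1
      rw [EmbeddingLike.map_eq_one_iff]
    rcases Nat.lt_or_ge m 2 with hm2 | hm2
    · have hm1 : m = 1 := by omega
      subst hm1
      by_cases hc : center ↥L₁ = ⊥
      · left
        have e1 : ↥L₁ ≃* K := MulEquiv.ofBijective f ⟨(MonoidHom.ker_eq_bot_iff f).mp (by rw [hker, hc]), hf⟩
        refine ⟨hprod (by rw [hc, card_bot]; exact odd_one), Or.inl ⟨1, F, i1, i2, le_rfl, hF, ⟨e1.trans e⟩⟩⟩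
      · right
        refine ⟨le_sup_left, le_sup_right, hcomm, rfl, hp, hc, F, i1, i2, by rw [hF]; norm_num, ?_⟩
        exact ⟨(QuotientGroup.quotientMulEquivOfEq hgker.symm).trans
          (QuotientGroup.quotientKerEquivOfSurjective _ hg)⟩
    · left
      obtain ⟨e1⟩ := U3Cover.sz hL₁c hm2 hF (e.toMonoidHom.comp f) hg hgker.le
      have hs : IsSimpleGroup ↥L₁ := Struct.isSimpleGroup_congr (e.trans e1.symm)
      exact ⟨hprod (hsimple hs), Or.inl ⟨m, F, i1, i2, hm, hF, ⟨e1⟩⟩⟩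
  · -- unitary groups
    left
    have hg : Function.Surjective (e.toMonoidHom.comp f) := e.surjective.comp hf
    have hgker : (e.toMonoidHom.comp f).ker = center ↥L₁ := by
      rw [← hker]
      ext x
      rw [MonoidHom.mem_ker, MonoidHom.mem_ker]
      show e (f x) = 1 ↔ f x = 1
      rw [EmbeddingLike.map_eq_one_iff]
    rcases U3Cover.psu hL₁c hn hF (e.toMonoidHom.comp f) hg hgker.le with ⟨⟨e1⟩⟩ | ⟨⟨e1⟩⟩
    · have hs : IsSimpleGroup ↥L₁ := Struct.isSimpleGroup_congr (e.trans e1.symm)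
      exact ⟨hprod (hsimple hs), Or.inr ⟨n, F, i1, i2, hn, hF, Or.inl ⟨e1⟩⟩⟩
    · refine ⟨hprod ?_, Or.inr ⟨n, F, i1, i2, hn, hF, Or.inr ⟨e1⟩⟩⟩
      have hF' : Fintype.card F = (2 ^ n) ^ 2 := by
        rw [hF, ← pow_mul, mul_comm, pow_mul]; norm_num
      have hc : ∀ x : ↥L₁, x ∈ center ↥L₁ ↔ e1 x ∈ center ↥(Cfsg.SU 3 F (2 ^ n)) := by
        intro x
        rw [mem_center_iff, mem_center_iff]
        constructor
        · intro h1 y
          obtain ⟨z, rfl⟩ := e1.surjective y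
          rw [← map_mul, ← map_mul, h1 z]
        · intro h1 z
          apply e1.injective
          rw [map_mul, map_mul, h1 (e1 z)]
      have h1 : Nat.card ↥(center ↥L₁) = Nat.card ↥(center ↥(Cfsg.SU 3 F (2 ^ n))) :=
        Nat.card_congr (e1.toEquiv.subtypeEquiv hc)
      rw [h1, Cfsg.Agent.S0279.result hF' 3 le_rfl]
      exact Odd.of_dvd_nat (by decide : Odd 3) (Nat.gcd_dvd_left 3 _)

/-- The alternative with `SL(2,5)`. -/
def AltC (G : Type*) [Group G] : Prop :=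
  ∃ (N M : Subgroup G) (_ : N.Normal) (_ : M.Normal) (_ : (N.subgroupOf M).Normal), N < M ∧ Odd (Nat.card ↥N) ∧ Odd M.index ∧
      ∃ A L : Subgroup (↥M ⧸ N.subgroupOf M), IsMulCommutative ↥A ∧ IsPGroup 2 ↥A ∧
        Nonempty (↥L ≃* Matrix.SpecialLinearGroup (Fin 2) (ZMod 5)) ∧ (∀ a ∈ A, ∀ l ∈ L, a * l = l * a) ∧ A ⊔ L = ⊤

omit [Finite G] in
/-- A Sylow 2-subgroup meets a normal subgroup of odd order trivially. -/
theorem eq_one_of_mem_odd (S : Sylow 2 G) {N : Subgroup G} (hN : Odd (Nat.card ↥N)) {x : G}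
    (hx : x ∈ (S : Subgroup G)) (hxN : x ∈ N) : x = 1 := by
  obtain ⟨k, hk⟩ := S.isPGroup' ⟨x, hx⟩
  have h3 : x ^ 2 ^ k = 1 := congrArg Subtype.val hk
  have h4 : orderOf x ∣ Nat.card ↥N := by
    rw [← Subgroup.orderOf_mk _ hxN]
    exact orderOf_dvd_natCard _
  have h5 := Nat.dvd_gcd (orderOf_dvd_of_pow_eq_one h3) h4
  rw [Nat.Coprime.gcd_eq_one (Nat.Coprime.pow_left k (Nat.coprime_two_left.mpr hN))] at h5
  exact orderOf_eq_one_iff.mp (Nat.dvd_one.mp h5)

theorem main (h : CI 2 G) (S : Sylow 2 G) (hS : ¬ IsMulCommutative ↥(S : Subgroup G)) :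
    (Group.IsSolvable G ∧ Cfsg.PLengthLE 2 1 G) ∨ AltC G ∨ AltD G := by
  classical
  have : Fact (Nat.Prime 2) := ⟨Nat.prime_two⟩
  set N := Cfsg.oddCore G with hN
  have hNodd : Odd (Nat.card ↥N) := oddCore_odd
  set π := QuotientGroup.mk' N with hπ
  have hπs : Function.Surjective π := QuotientGroup.mk'_surjective _
  have hker : π.ker = N := QuotientGroup.ker_mk' N
  have hCIX : CI 2 (G ⧸ N) := CIHered.of_surjective h hπs
  have hOX : Cfsg.oddCore (G ⧸ N) = ⊥ := Cfsg.Agent.Lib.Cores.pPrimeCore_quotient_pPrimeCore 2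
  set Sb : Sylow 2 (G ⧸ N) := S.mapSurjective hπs with hSb
  have hSbe : (Sb : Subgroup (G ⧸ N)) = (S : Subgroup G).map π := rfl
  have hinj : ∀ x ∈ (S : Subgroup G), π x = 1 → x = 1 := by
    intro x hx h1
    refine eq_one_of_mem_odd S hNodd hx ?_
    rw [← hker]; exact h1
  have hSbc : ¬ IsMulCommutative ↥(Sb : Subgroup (G ⧸ N)) := by
    intro hc
    apply hS
    refine ⟨⟨fun a b => Subtype.ext ?_⟩⟩
    have h1 := congrArg Subtype.val (hc.is_comm.comm ⟨π a, ⟨a, a.2, rfl⟩⟩ ⟨π b, ⟨b, b.2, rfl⟩⟩)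
    have h2 : π a * π b = π b * π a := h1
    have h3 := hinj ⁅(a : G), (b : G)⁆ (by
      rw [commutatorElement_def]
      exact mul_mem (mul_mem (mul_mem a.2 b.2) (inv_mem a.2)) (inv_mem b.2)) (by
      rw [map_commutatorElement, commutatorElement_eq_one_iff_mul_comm]; exact h2)
    exact commutatorElement_eq_one_iff_mul_comm.mp h3
  rcases Struct.main hCIX hOX Sb hSbc with hn | ⟨L, hLn, hLq, hQctr, hLQ, hSLQ, hLC⟩
  · left
    exact solvable_case S rfl hn
  right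
  set Q := Cfsg.pCore 2 (G ⧸ N) with hQ
  have hQn : Q.Normal := Cfsg.Agent.Lib.Cores.pCore_normal 2
  have hQp : IsPGroup 2 ↥Q := Cfsg.Agent.Lib.Cores.pCore_isPGroup 2
  have hQSb : Q ≤ (Sb : Subgroup (G ⧸ N)) := Cfsg.Agent.Lib.Cores.pCore_le_sylow Sb
  have hQc : IsMulCommutative ↥Q :=
    ⟨⟨fun a b => Subtype.ext ((mem_ctr.mp (hQctr b.2)).2 a (hQSb a.2))⟩⟩
  have hSbLQ : (Sb : Subgroup (G ⧸ N)) ≤ L ⊔ Q := hSLQ.trans (sup_le_sup inf_le_right le_rfl)
  by_cases hα : ∀ x ∈ (Sb : Subgroup (G ⧸ N)) ⊓ L, ∀ y ∈ (Sb : Subgroup (G ⧸ N)) ⊓ L,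
      ⁅x, y⁆ ∈ centralizer (L : Set (G ⧸ N))
  · -- `SL(2,5)`
    left
    obtain ⟨P, hP⟩ := Cfsg.Agent.Transfer.FrobeniusFusion.exists_sylow_subgroupOf Sb L
    have hPm : ∀ x : ↥L, x ∈ (P : Subgroup ↥L) ↔ (x : G ⧸ N) ∈ (Sb : Subgroup (G ⧸ N)) := fun x => by
      rw [hP, mem_subgroupOf]
    have hcen : ∀ x : ↥L, x ∈ center ↥L ↔ (x : G ⧸ N) ∈ centralizer (L : Set (G ⧸ N)) := by
      intro x
      rw [mem_center_iff, mem_centralizer_iff]
      constructor
      · intro h1 y hy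
        exact congrArg Subtype.val (h1 ⟨y, hy⟩)
      · intro h1 y
        exact Subtype.ext (h1 y y.2)
    have hZ : IsPGroup 2 ↥(center ↥L) := by
      have h1 : IsPGroup 2 ↥(Q.subgroupOf L) := hQp.comap_subtype
      refine h1.to_le ?_
      intro x hx
      exact hLC ⟨x.2, (hcen x).mp hx⟩
    have hPnc : ¬ IsMulCommutative ↥(P : Subgroup ↥L) := by
      intro hc
      apply hSbc
      have hform : ∀ s ∈ (Sb : Subgroup (G ⧸ N)), ∃ l ∈ (Sb : Subgroup (G ⧸ N)) ⊓ L, ∃ q ∈ Q, s = l * q := by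
        intro s hs
        obtain ⟨l, hl, q, hq, hlq⟩ := mem_sup_of_normal_right.mp (hSLQ hs)
        exact ⟨l, hl, q, hq, hlq.symm⟩
      refine ⟨⟨fun a b => Subtype.ext ?_⟩⟩
      show (a : G ⧸ N) * b = b * a
      obtain ⟨l, hl, q, hq, h1⟩ := hform a a.2
      obtain ⟨l', hl', q', hq', h2⟩ := hform b b.2
      have h3 : l * l' = l' * l := by
        have := congrArg Subtype.val (hc.is_comm.comm ⟨⟨l, hl.2⟩, (hPm _).mpr hl.1⟩
          ⟨⟨l', hl'.2⟩, (hPm _).mpr hl'.1⟩)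
        exact congrArg Subtype.val this
      have h4 : Commute l l' := h3
      have h5 : Commute (b : G ⧸ N) q := (mem_ctr.mp (hQctr hq)).2 _ b.2
      have h6 : Commute l q' := (mem_ctr.mp (hQctr hq')).2 _ hl.1
      rw [h1]
      have h7 : Commute l (b : G ⧸ N) := by rw [h2]; exact h4.mul_right h6
      exact (h7.mul_left h5.symm)
    obtain ⟨e⟩ := SL25.main hLq (CIHered.subgroup hCIX L) hZ P hPnc (by
      intro x hx y hy
      rw [hcen]
      exact hα _ ⟨(hPm x).mp hx, x.2⟩ _ ⟨(hPm y).mp hy, y.2⟩)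
    have hSM : (S : Subgroup G) ≤ (L ⊔ Q).comap π := by
      intro s hs
      exact hSbLQ ⟨s, hs, rfl⟩
    have hNM : N ≤ (L ⊔ Q).comap π := by
      intro x hx
      have h1 : π x = 1 := (QuotientGroup.eq_one_iff x).mpr hx
      show π x ∈ L ⊔ Q
      rw [h1]; exact one_mem _
    refine ⟨N, (L ⊔ Q).comap π, inferInstance, inferInstance, inferInstance, ?_, hNodd, odd_index S hSM,
      central_product hLQ hQc hQp e⟩
    refine lt_of_le_of_ne hNM ?_
    intro heq
    apply hS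
    refine ⟨⟨fun a b => Subtype.ext ?_⟩⟩
    have h1 : (a : G) = 1 := eq_one_of_mem_odd S hNodd a.2 (heq ▸ hSM a.2)
    show (a : G) * b = b * a
    rw [h1, one_mul, mul_one]
  · -- Suzuki and unitary groups
    right
    set C := centralizer (L : Set (G ⧸ N)) with hC
    have hCn : C.Normal := inferInstance
    set ρ := QuotientGroup.mk' C with hρ
    have hρs : Function.Surjective ρ := QuotientGroup.mk'_surjective C
    set Lt : Subgroup ((G ⧸ N) ⧸ C) := L.map ρ with hLt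
    -- iso
    have hkerL : (ρ.comp L.subtype).ker = center ↥L := by
      ext l
      rw [MonoidHom.mem_ker, mem_center_iff]
      show (QuotientGroup.mk (l : G ⧸ N) : (G ⧸ N) ⧸ C) = 1 ↔ _
      rw [QuotientGroup.eq_one_iff, hC, mem_centralizer_iff]
      constructor
      · intro h1 g
        exact Subtype.ext (h1 g g.2)
      · intro h1 g hg
        exact congrArg Subtype.val (h1 ⟨g, hg⟩)
    have hrange : (ρ.comp L.subtype).range = Lt := by
      rw [MonoidHom.range_comp, Subgroup.range_subtype]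
    let eL : (↥L ⧸ center ↥L) ≃* ↥Lt :=
      ((QuotientGroup.quotientMulEquivOfEq hkerL.symm).trans
        (QuotientGroup.quotientKerEquivRange (ρ.comp L.subtype))).trans (MulEquiv.subgroupCongr hrange)
    have hsL := hLq.2
    have hsimple : IsSimpleGroup ↥Lt := Struct.isSimpleGroup_congr eL
    set St : Sylow 2 ((G ⧸ N) ⧸ C) := Sb.mapSurjective hρs with hSt
    have hStLt : (St : Subgroup ((G ⧸ N) ⧸ C)) ≤ Lt := by
      rintro _ ⟨s, hs, rfl⟩
      obtain ⟨l, hl, c, hc, rfl⟩ := mem_sup_of_normal_right.mp (Struct.sylow_le_sup hCIX Sb hLq hs)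
      refine ⟨l, hl, ?_⟩
      rw [map_mul]
      have h1 : ρ c = 1 := (QuotientGroup.eq_one_iff c).mpr hc
      rw [h1, mul_one]
    let P : Sylow 2 ↥Lt := St.subtype hStLt
    have eP : ↥(P : Subgroup ↥Lt) ≃* ↥(St : Subgroup ((G ⧸ N) ⧸ C)) := subgroupOfEquivOfLe hStLt
    have hStnc : ¬ IsMulCommutative ↥(St : Subgroup ((G ⧸ N) ⧸ C)) := by
      intro hc
      apply hα
      intro x hx y hy
      rw [← QuotientGroup.eq_one_iff]
      show ρ ⁅x, y⁆ = 1
      rw [map_commutatorElement, commutatorElement_eq_one_iff_mul_comm]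
      exact congrArg Subtype.val (hc.is_comm.comm ⟨ρ x, ⟨x, hx.1, rfl⟩⟩ ⟨ρ y, ⟨y, hy.1, rfl⟩⟩)
    have hPnc : ¬ IsMulCommutative ↥(P : Subgroup ↥Lt) := by
      intro hc
      apply hStnc
      refine ⟨⟨fun a b => eP.symm.injective ?_⟩⟩
      rw [map_mul, map_mul]
      exact hc.is_comm.comm _ _
    have hCIt : CI 2 ↥Lt := CIHered.subgroup (CIHered.of_surjective hCIX hρs) Lt
    have hconcl : Ident.Concl ↥Lt := Ident.concl hCIt P hPnc
    have hbig : Ident.Big ↥(St : Subgroup ((G ⧸ N) ⧸ C)) := (Ident.big hconcl P).congr eP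
    -- the homomorphism of `S`
    have hmem : ∀ s : ↥(S : Subgroup G), ρ (π s) ∈ (St : Subgroup ((G ⧸ N) ⧸ C)) := fun s =>
      ⟨π s, ⟨s, s.2, rfl⟩, rfl⟩
    let g₁ : ↥(S : Subgroup G) →* ↥(St : Subgroup ((G ⧸ N) ⧸ C)) :=
      ((ρ.comp π).comp (S : Subgroup G).subtype).codRestrict _ hmem
    have hg₁ : Function.Surjective g₁ := by
      rintro ⟨_, ⟨_, ⟨s, hs, rfl⟩, rfl⟩⟩
      exact ⟨⟨s, hs⟩, rfl⟩
    have hSN : (S : Subgroup G) ≤ centralizer (N : Set G) := by
      refine OddAct.le_centralizer h S hNodd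
        ((QuotientGroup.mk' (center ↥(St : Subgroup ((G ⧸ N) ⧸ C)))).comp g₁)
        ((QuotientGroup.mk'_surjective _).comp hg₁) ?_ ?_ ?_ ?_
      · intro a b
        obtain ⟨x, rfl⟩ := QuotientGroup.mk_surjective a
        obtain ⟨y, rfl⟩ := QuotientGroup.mk_surjective b
        rw [← QuotientGroup.mk_mul, ← QuotientGroup.mk_mul, QuotientGroup.eq]
        have h1 := hbig.comm y x
        have h2 : (x * y)⁻¹ * (y * x) = y⁻¹ * x⁻¹ * y * x := by group
        rw [h2]; exact h1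
      · have h1 := Subgroup.card_eq_card_quotient_mul_card_subgroup
          (center ↥(St : Subgroup ((G ⧸ N) ⧸ C)))
        have h2 := hbig.card
        rw [h1] at h2
        have h3 : 0 < Nat.card ↥(center ↥(St : Subgroup ((G ⧸ N) ⧸ C))) := Nat.card_pos
        have h4 := Nat.le_of_mul_le_mul_right h2 h3
        omega
      · intro s hs
        rw [MonoidHom.mem_ker, MonoidHom.comp_apply]
        apply (QuotientGroup.eq_one_iff _).mpr
        rw [mem_center_iff]
        intro y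
        obtain ⟨t, rfl⟩ := hg₁ y
        rw [← map_mul, ← map_mul, mem_center_iff.mp hs t]
      · intro hcyc
        apply hStnc
        exact MonoidHom.isMulCommutative_of_isCyclic_of_ker_le_center
          (QuotientGroup.mk' (center ↥(St : Subgroup ((G ⧸ N) ⧸ C)))) (by rw [QuotientGroup.ker_mk'])
    obtain ⟨L₁, A, hL₁n, hAn, hL₁p, hAS, hAm, hcomm, hSM, f, hf, hfk⟩ :=
      Lift.main S hπs (by rw [hker]; exact hNodd) (by rw [hker]; exact hSN) hLq hQSb hLQ (by
        intro h1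
        apply hα
        intro x hx y hy
        have h2 : x ∈ C := h1 hx
        have h3 : ⁅x, y⁆ = 1 := by
          rw [commutatorElement_eq_one_iff_mul_comm]
          exact (mem_centralizer_iff.mp h2 y hy.2).symm
        rw [h3]; exact one_mem _) hSbLQ
    have hAc : IsMulCommutative ↥A := by
      refine ⟨⟨fun a b => Subtype.ext ?_⟩⟩
      have ha : π a ∈ Q := by rw [← hAm]; exact ⟨a, a.2, rfl⟩
      have hb : π b ∈ Q := by rw [← hAm]; exact ⟨b, b.2, rfl⟩
      have h2 : π a * π b = π b * π a := congrArg Subtype.val (hQc.is_comm.comm ⟨_, ha⟩ ⟨_, hb⟩)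
      have h3 := hinj ⁅(a : G), (b : G)⁆ (by
        rw [commutatorElement_def]
        exact mul_mem (mul_mem (mul_mem (hAS a.2) (hAS b.2)) (inv_mem (hAS a.2))) (inv_mem (hAS b.2))) (by
        rw [map_commutatorElement, commutatorElement_eq_one_iff_mul_comm]; exact h2)
      exact commutatorElement_eq_one_iff_mul_comm.mp h3
    have hf' : Function.Surjective (eL.toMonoidHom.comp f) := eL.surjective.comp hf
    refine altD S hL₁p (S.isPGroup'.to_le hAS) hAc hcomm hSM (eL.toMonoidHom.comp f) hf' ?_ hconcl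
    rw [← hfk]
    ext x
    rw [MonoidHom.mem_ker, MonoidHom.mem_ker]
    show eL (f x) = 1 ↔ f x = 1
    rw [EmbeddingLike.map_eq_one_iff]

end

end Cfsg.Agent.H304.Final
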